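import Mathlib

/-!
Basic tools for conjugacy class size arguments:
`q`/`q'`-decomposition of an element, centralizers of products of commuting elements of coprime
orders, subgroups of prime index.
-/

namespace Cfsg.Agent.Lib.Helper64

open Subgroup

variable {G : Type*} [Group G]

/-- Every element of a finite group is a product `a * b` of two of its powers, `a` a `q`-element
and `b` a `q'`-element. -/
theorem exists_prime_decomp [Finite G] (q : ℕ) [hq : Fact q.Prime] (g : G) :
    ∃ a b : G, a ∈ zpowers g ∧ b ∈ zpowers g ∧ a * b = g ∧ (∃ k, orderOf a = q ^ k) ∧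
      (orderOf b).Coprime q := by
  have hn : orderOf g ≠ 0 := (orderOf_pos g).ne'
  obtain ⟨k, m, hm, hnm⟩ := Nat.exists_eq_pow_mul_and_not_dvd hn q hq.out.ne_one
  have hcop : Nat.Coprime (q ^ k) m :=
    Nat.Coprime.pow_left k ((Nat.Prime.coprime_iff_not_dvd hq.out).2 hm)
  have hbez := Int.gcd_eq_gcd_ab (q ^ k : ℕ) m
  have hg1 : Int.gcd ((q ^ k : ℕ) : ℤ) (m : ℤ) = 1 := by
    rw [Int.gcd_natCast_natCast]; exact hcop
  rw [hg1] at hbez
  set u := Int.gcdA ((q ^ k : ℕ) : ℤ) (m : ℤ)
  set v := Int.gcdB ((q ^ k : ℕ) : ℤ) (m : ℤ)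
  refine ⟨g ^ ((m : ℤ) * v), g ^ (((q ^ k : ℕ) : ℤ) * u), ⟨_, rfl⟩, ⟨_, rfl⟩, ?_, ?_, ?_⟩
  · rw [← zpow_add]
    have : (m : ℤ) * v + ((q ^ k : ℕ) : ℤ) * u = 1 := by
      have := hbez; push_cast at this ⊢; linarith
    rw [this, zpow_one]
  · have h1 : (g ^ ((m : ℤ) * v)) ^ (q ^ k) = 1 := by
      rw [← zpow_natCast, ← zpow_mul]
      have : (m : ℤ) * v * ((q ^ k : ℕ) : ℤ) = ((orderOf g : ℕ) : ℤ) * v := by
        rw [hnm]; push_cast; ring
      rw [this, zpow_mul, zpow_natCast, pow_orderOf_eq_one, one_zpow]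
    obtain ⟨j, _, hj⟩ := (Nat.dvd_prime_pow hq.out).1 (orderOf_dvd_of_pow_eq_one h1)
    exact ⟨j, hj⟩
  · have h1 : (g ^ (((q ^ k : ℕ) : ℤ) * u)) ^ m = 1 := by
      rw [← zpow_natCast, ← zpow_mul]
      have : ((q ^ k : ℕ) : ℤ) * u * (m : ℤ) = ((orderOf g : ℕ) : ℤ) * u := by
        rw [hnm]; push_cast; ring
      rw [this, zpow_mul, zpow_natCast, pow_orderOf_eq_one, one_zpow]
    exact Nat.Coprime.coprime_dvd_left (orderOf_dvd_of_pow_eq_one h1)
      ((Nat.Prime.coprime_iff_not_dvd hq.out).2 hm).symm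

theorem mem_zpowers_mul_left_of_coprime {a b : G} (hc : Commute a b)
    (hcop : (orderOf a).Coprime (orderOf b)) : a ∈ zpowers (a * b) := by
  obtain ⟨m, hm⟩ := exists_pow_eq_self_of_coprime (x := a) (n := orderOf b) hcop.symm
  have h1 : (a * b) ^ (orderOf b) = a ^ (orderOf b) := by
    rw [hc.mul_pow, pow_orderOf_eq_one, mul_one]
  have h2 : ((a * b) ^ (orderOf b)) ^ m ∈ zpowers (a * b) :=
    Subgroup.pow_mem _ (Subgroup.pow_mem _ (mem_zpowers (a * b)) _) _
  rwa [h1, hm] at h2

theorem mem_zpowers_mul_right_of_coprime {a b : G} (hc : Commute a b)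
    (hcop : (orderOf a).Coprime (orderOf b)) : b ∈ zpowers (a * b) := by
  have := mem_zpowers_mul_left_of_coprime hc.symm hcop.symm
  rwa [hc.symm.eq] at this

theorem centralizer_le_of_mem_zpowers {a g : G} (h : a ∈ zpowers g) :
    centralizer ({g} : Set G) ≤ centralizer ({a} : Set G) := by
  intro w hw
  rw [mem_centralizer_singleton_iff] at hw ⊢
  obtain ⟨k, rfl⟩ := h
  exact (Commute.zpow_right (show Commute w g from hw) k).eq

/-- `C(ab) = C(a) ∩ C(b)` for commuting elements of coprime orders. -/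
theorem centralizer_mul_of_coprime {a b : G} (hc : Commute a b)
    (hcop : (orderOf a).Coprime (orderOf b)) :
    centralizer ({a * b} : Set G) = centralizer ({a} : Set G) ⊓ centralizer ({b} : Set G) := by
  apply le_antisymm
  · exact le_inf (centralizer_le_of_mem_zpowers (mem_zpowers_mul_left_of_coprime hc hcop))
      (centralizer_le_of_mem_zpowers (mem_zpowers_mul_right_of_coprime hc hcop))
  · intro w hw
    obtain ⟨h1, h2⟩ := Subgroup.mem_inf.1 hw
    rw [mem_centralizer_singleton_iff] at h1 h2 ⊢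
    exact (Commute.mul_right (show Commute w a from h1) (show Commute w b from h2)).eq

/-- A subgroup of prime index is maximal. -/
theorem eq_or_eq_top_of_le_of_prime_index {H K : Subgroup G} (hHK : H ≤ K)
    (hH : H.index.Prime) : K = H ∨ K = ⊤ := by
  have hd : K.index ∣ H.index := index_dvd_of_le hHK
  rcases (Nat.dvd_prime hH).1 hd with h1 | h1
  · right; exact index_eq_one.1 h1
  · left
    have h2 := relIndex_mul_index hHK
    rw [h1] at h2
    have h3 : H.relIndex K = 1 := by
      have hpos : 0 < H.index := hH.pos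
      nlinarith [Nat.eq_of_mul_eq_mul_right hpos (by rw [h2, one_mul] : H.relIndex K * H.index = 1 * H.index)]
    exact le_antisymm (relIndex_eq_one.1 h3) hHK

theorem centralizer_singleton_eq_top_iff {a : G} :
    centralizer ({a} : Set G) = ⊤ ↔ a ∈ center G := by
  constructor
  · intro h
    rw [mem_center_iff]
    intro g
    have : g ∈ centralizer ({a} : Set G) := h ▸ mem_top g
    rw [mem_centralizer_singleton_iff] at this
    exact this
  · intro h
    rw [eq_top_iff]
    intro g _
    rw [mem_centralizer_singleton_iff]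
    exact (mem_center_iff.1 h g)

/-- If `M ≥ Z(G)` has prime index `q` and `M / Z(G)` is a `q`-group then `M` is normal. -/
theorem normal_of_index_prime_of_pow_mem_center [Finite G] (q : ℕ) [hq : Fact q.Prime]
    (M : Subgroup G) (hZ : center G ≤ M) (hM : M.index = q)
    (hpow : ∀ m ∈ M, ∃ k : ℕ, m ^ (q ^ k) ∈ center G) : M.Normal := by
  have hP : IsPGroup q (M ⧸ (center G).subgroupOf M) := by
    intro g
    induction g using QuotientGroup.induction_on with
    | H m =>
      obtain ⟨k, hk⟩ := hpow m m.2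
      refine ⟨k, ?_⟩
      rw [← QuotientGroup.mk_pow, QuotientGroup.eq_one_iff, mem_subgroupOf]
      simpa using hk
  obtain ⟨n, hn⟩ := IsPGroup.iff_card.1 hP
  have hrel : (center G).relIndex M = q ^ n := hn
  have hidx : (center G).index = q ^ (n + 1) := by
    rw [← relIndex_mul_index hZ, hrel, hM, pow_succ]
  have hcard : Nat.card (G ⧸ center G) = q ^ (n + 1) := hidx
  set f := QuotientGroup.mk' (center G)
  have hcomap : (M.map f).comap f = M := by
    rw [comap_map_eq, QuotientGroup.ker_mk']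
    exact sup_eq_left.2 hZ
  have hidx2 : (M.map f).index = q := by
    rw [← hM, ← hcomap, index_comap_of_surjective _ (QuotientGroup.mk'_surjective _), hcomap]
  have hnorm : (M.map f).Normal := by
    apply normal_of_index_eq_minFac_card
    rw [hidx2, hcard, Nat.Prime.pow_minFac hq.out (Nat.succ_ne_zero n)]
  rw [← hcomap]
  exact hnorm.comap f

end Cfsg.Agent.Lib.Helper64
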