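import Cfsg.Agent.Lib.Helper95.BalOM.Defs

set_option autoImplicit false

/-! BAL-OM ladder, rung C2S: a similarity `g` with `g² = c` a non-square makes `W` a quadratic
space over `K = k(√c)`. -/

namespace Cfsg.Agent.Lib.Helper64.BalOM

open QuadraticMap Module Cfsg.Agent.Lib.Helper49 Cfsg.Agent.Lib.Helper95
  Cfsg.Agent.Lib.Helper95.AutO Cfsg.Agent.Lib.Helper95.BalOM

section abs

variable {k K W : Type*} [Field k] [Field K] [Algebra k K] [AddCommGroup W] [Module k W]
  [Module K W] [IsScalarTower k K W]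

/-- the abstract situation -/
structure C2Ctx (Q : QuadraticForm k W) (g : W ≃ₗ[k] W) (c : k) (ω : K) : Prop where
  h2 : (2 : k) ≠ 0
  hc0 : c ≠ 0
  hgg : ∀ v, g (g v) = c • v
  hgQ : ∀ v, Q (g v) = c * Q v
  hωω : ω * ω = algebraMap k K c
  hωg : ∀ v : W, ω • v = g v
  hdec : ∀ z : K, ∃ s t : k, z = algebraMap k K s + algebraMap k K t * ω
  hind : ∀ s t : k, algebraMap k K s + algebraMap k K t * ω = 0 → s = 0 ∧ t = 0

variable {Q : QuadraticForm k W} {g : W ≃ₗ[k] W} {c : k} {ω : K}

namespace C2Ctx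

variable (h : C2Ctx Q g c ω)
include h

theorem polar_gg (v w : W) : polar Q (g v) (g w) = c * polar Q v w := by
  simp only [polar, ← map_add, h.hgQ]
  ring

theorem polar_adj (v w : W) : polar Q (g v) w = polar Q v (g w) := by
  have h1 := h.polar_gg (g v) w
  rw [h.hgg, polar_smul_left, smul_eq_mul] at h1
  exact (mul_left_cancel₀ h.hc0 h1).symm

theorem smul_eq (s t : k) (v : W) :
    (algebraMap k K s + algebraMap k K t * ω) • v = s • v + t • g v := by
  rw [add_smul, mul_smul, h.hωg, algebraMap_smul, algebraMap_smul]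

theorem ind_eq {s t s' t' : k}
    (e : algebraMap k K s + algebraMap k K t * ω = algebraMap k K s' + algebraMap k K t' * ω) :
    s = s' ∧ t = t' := by
  have := h.hind (s - s') (t - t') (by rw [map_sub, map_sub]; linear_combination e)
  exact ⟨sub_eq_zero.1 this.1, sub_eq_zero.1 this.2⟩

end C2Ctx

/-- the `K`-valued bilinear form -/
noncomputable def c2sBt (K : Type*) [Field K] [Algebra k K] (Q : QuadraticForm k W)
    (g : W ≃ₗ[k] W) (c : k) (ω : K) (v w : W) : K :=
  algebraMap k K (polar Q v w) + algebraMap k K (polar Q v (g w) / c) * ω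

namespace C2Ctx

variable (h : C2Ctx Q g c ω)
include h

theorem bt_symm (v w : W) : c2sBt K Q g c ω v w = c2sBt K Q g c ω w v := by
  rw [c2sBt, c2sBt, polar_comm Q v w, ← h.polar_adj v w, polar_comm Q (g v) w]

omit h in
theorem bt_add_left (v v' w : W) :
    c2sBt K Q g c ω (v + v') w = c2sBt K Q g c ω v w + c2sBt K Q g c ω v' w := by
  simp only [c2sBt, polar_add_left, add_div, map_add]
  ring

theorem bt_smul_left (z : K) (v w : W) :
    c2sBt K Q g c ω (z • v) w = z * c2sBt K Q g c ω v w := by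
  obtain ⟨s, t, rfl⟩ := h.hdec z
  rw [h.smul_eq]
  simp only [c2sBt, polar_add_left, polar_smul_left, smul_eq_mul, h.polar_adj v w,
    h.polar_gg v w]
  obtain ⟨r, hr⟩ : ∃ r, polar Q v (g w) = c * r :=
    ⟨polar Q v (g w) / c, by rw [mul_div_cancel₀ _ h.hc0]⟩
  rw [hr]
  have e1 : (s * (c * r) + t * (c * polar Q v w)) / c = s * r + t * polar Q v w := by
    have := h.hc0
    field_simp
  have e2 : c * r / c = r := by
    have := h.hc0
    field_simp
  rw [e1, e2]
  simp only [map_add, map_mul]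
  linear_combination (-(algebraMap k K t * algebraMap k K r)) * h.hωω

/-- the `K`-bilinear form -/
noncomputable def bil : LinearMap.BilinMap K W K :=
  LinearMap.mk₂ K (c2sBt K Q g c ω) bt_add_left (fun z v w => h.bt_smul_left z v w)
    (fun v w w' => by
      rw [h.bt_symm v (w + w'), bt_add_left, h.bt_symm w v, h.bt_symm w' v])
    (fun z v w => by
      rw [h.bt_symm v (z • w), h.bt_smul_left, h.bt_symm w v]; rfl)

theorem bil_apply (v w : W) : h.bil v w = c2sBt K Q g c ω v w := rfl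

/-- the `K`-quadratic form -/
noncomputable def qt : QuadraticForm K W :=
  (algebraMap k K 2⁻¹) • LinearMap.BilinMap.toQuadraticMap h.bil

theorem qt_apply (v : W) :
    h.qt v = algebraMap k K (Q v) + algebraMap k K (polar Q v (g v) / (2 * c)) * ω := by
  have e0 : h.qt v = algebraMap k K 2⁻¹ * c2sBt K Q g c ω v v := rfl
  have hvv : polar Q v v = 2 * Q v := by rw [polar_self]; simp
  rw [e0, c2sBt, hvv, mul_add, ← mul_assoc, ← map_mul, ← map_mul]
  have e1 : (2 : k)⁻¹ * (2 * Q v) = Q v := by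
    rw [← mul_assoc, inv_mul_cancel₀ h.h2, one_mul]
  have e2 : (2 : k)⁻¹ * (polar Q v (g v) / c) = polar Q v (g v) / (2 * c) := by
    have := h.hc0
    have := h.h2
    field_simp
  rw [e1, e2]

theorem qt_polar (v w : W) : ∃ a : k,
    polar h.qt v w = algebraMap k K (polar Q v w) + algebraMap k K a * ω := by
  refine ⟨polar Q (v + w) (g (v + w)) / (2 * c) - polar Q v (g v) / (2 * c) -
    polar Q w (g w) / (2 * c), ?_⟩
  simp only [polar, h.qt_apply, map_sub]
  ring

theorem qt_nondeg (hQ : (polarBilin Q).Nondegenerate) : (polarBilin h.qt).Nondegenerate := by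
  constructor
  · intro v hv
    apply hQ.1
    intro w
    obtain ⟨a, ha⟩ := h.qt_polar v w
    have h1 : polar h.qt v w = 0 := hv w
    rw [h1] at ha
    exact (h.hind _ _ ha.symm).1
  · intro w hw
    apply hQ.2
    intro v
    obtain ⟨a, ha⟩ := h.qt_polar v w
    have h1 : polar h.qt v w = 0 := hw v
    rw [h1] at ha
    exact (h.hind _ _ ha.symm).1

theorem down (x' : ↥(OG h.qt)) : ∃ x : ↥(OG Q), ∀ v, x.1 v = x'.1 v := by
  refine ⟨⟨x'.1.restrictScalars k, fun v => ?_⟩, fun v => rfl⟩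
  have h1 := OG_apply h.qt x' v
  rw [h.qt_apply, h.qt_apply] at h1
  exact (h.ind_eq h1).1

theorem up (x : ↥(OG Q)) (hx : ∀ v, x.1 (g v) = g (x.1 v)) :
    ∃ x' : ↥(OG h.qt), ∀ v, x'.1 v = x.1 v := by
  have hsmul : ∀ (z : K) (v : W), x.1 (z • v) = z • x.1 v := by
    intro z v
    obtain ⟨s, t, rfl⟩ := h.hdec z
    rw [h.smul_eq, h.smul_eq, map_add, map_smul, map_smul, hx]
  let y : W ≃ₗ[K] W :=
    { toFun := x.1
      invFun := x.1.symm
      map_add' := map_add x.1
      map_smul' := hsmul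
      left_inv := x.1.left_inv
      right_inv := x.1.right_inv }
  refine ⟨⟨y, fun v => ?_⟩, fun v => rfl⟩
  show h.qt (x.1 v) = h.qt v
  rw [h.qt_apply, h.qt_apply, ← hx, OG_polar, OG_apply]

end C2Ctx

end abs

section inst

variable {k W : Type*} [Field k] [AddCommGroup W] [Module k W]

/-- the algebra hom `k(√c) → End_k W` -/
noncomputable def c2sHom (g : W ≃ₗ[k] W) (c : k) (hgg : ∀ v, g (g v) = c • v) :
    QuadraticAlgebra k c 0 →ₐ[k] Module.End k W :=
  QuadraticAlgebra.lift ⟨(g : W →ₗ[k] W), by ext v; simp [hgg]⟩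

theorem c2sHom_apply (g : W ≃ₗ[k] W) (c : k) (hgg : ∀ v, g (g v) = c • v)
    (z : QuadraticAlgebra k c 0) (v : W) : c2sHom g c hgg z v = z.re • v + z.im • g v := by
  simp [c2sHom]

/-- the module structure over `k(√c)` -/
noncomputable abbrev c2sModule (g : W ≃ₗ[k] W) (c : k) (hgg : ∀ v, g (g v) = c • v) :
    Module (QuadraticAlgebra k c 0) W :=
  Module.compHom W (c2sHom g c hgg).toRingHom

end inst

universe u v

theorem exists_overfield {k : Type u} {W : Type v} [Field k] [Fintype k] [AddCommGroup W]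
    [Module k W]
    [FiniteDimensional k W] {Q : QuadraticForm k W} (h2 : (2 : k) ≠ 0)
    (hQ : (polarBilin Q).Nondegenerate) (g : W ≃ₗ[k] W) (c : k) (hc : ¬ IsSquare c)
    (hgg : ∀ v, g (g v) = c • v) (hgQ : ∀ v, Q (g v) = c * Q v) :
    ∃ (K : Type u) (_ : Field K) (_ : Fintype K) (_ : Module K W) (_ : FiniteDimensional K W)
      (Qt : QuadraticForm K W) (emb : k →+* K) (ω : K),
      (2 : K) ≠ 0 ∧ (polarBilin Qt).Nondegenerate ∧ finrank k W = 2 * finrank K W ∧
      (∀ (s : k) (v : W), emb s • v = s • v) ∧ (∀ v : W, ω • v = g v) ∧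
      (∀ z : K, ∃ s t : k, z = emb s + emb t * ω) ∧
      (∀ s t : k, emb s + emb t * ω = 0 → s = 0 ∧ t = 0) ∧ ω * ω = emb c ∧
      (∀ v, Qt v = emb (Q v) + emb (polar Q v (g v) / (2 * c)) * ω) ∧
      (∀ x' : ↥(OG Qt), ∃ x : ↥(OG Q), ∀ v, x.1 v = x'.1 v) ∧
      (∀ x : ↥(OG Q), (∀ v, x.1 (g v) = g (x.1 v)) → ∃ x' : ↥(OG Qt), ∀ v, x'.1 v = x.1 v) := by
  have hfact : Fact (∀ r : k, r ^ 2 ≠ c + 0 * r) :=
    ⟨fun r hr => hc ⟨r, by rw [← pow_two, hr]; ring⟩⟩
  have hc0 : c ≠ 0 := fun h => hc ⟨0, by rw [h, mul_zero]⟩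
  let _ : Module (QuadraticAlgebra k c 0) W := c2sModule g c hgg
  have hsm : ∀ (z : QuadraticAlgebra k c 0) (v : W), z • v = z.re • v + z.im • g v :=
    fun z v => c2sHom_apply g c hgg z v
  have : IsScalarTower k (QuadraticAlgebra k c 0) W := ⟨fun s z v => by
    rw [hsm, hsm]
    simp only [QuadraticAlgebra.re_smul, QuadraticAlgebra.im_smul, smul_eq_mul, smul_add,
      smul_smul]⟩
  have : Finite (QuadraticAlgebra k c 0) := Module.finite_of_finite k
  let _ : Fintype (QuadraticAlgebra k c 0) := Fintype.ofFinite _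
  have : FiniteDimensional (QuadraticAlgebra k c 0) W :=
    Module.Finite.of_restrictScalars_finite k (QuadraticAlgebra k c 0) W
  have ctx : C2Ctx Q g c (QuadraticAlgebra.omega : QuadraticAlgebra k c 0) :=
    { h2 := h2
      hc0 := hc0
      hgg := hgg
      hgQ := hgQ
      hωω := by
        ext <;> simp
      hωg := fun v => by rw [hsm]; simp
      hdec := fun z => ⟨z.re, z.im, by ext <;> simp⟩
      hind := fun s t e => by
        have e1 := congrArg QuadraticAlgebra.re e
        have e2 := congrArg QuadraticAlgebra.im e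
        simp at e1 e2
        exact ⟨e1, e2⟩ }
  refine ⟨QuadraticAlgebra k c 0, inferInstance, inferInstance, inferInstance, inferInstance,
    ctx.qt, algebraMap k _, QuadraticAlgebra.omega, ?_, ctx.qt_nondeg hQ, ?_,
    fun s v => algebraMap_smul _ s v, ctx.hωg, ctx.hdec, ctx.hind, ctx.hωω, ctx.qt_apply,
    ctx.down, ctx.up⟩
  · intro h
    have := congrArg QuadraticAlgebra.re h
    simp at this
    exact h2 this
  · rw [← Module.finrank_mul_finrank k (QuadraticAlgebra k c 0) W,
      QuadraticAlgebra.finrank_eq_two]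

end Cfsg.Agent.Lib.Helper64.BalOM
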