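import Cfsg.Agent.Lib.Helper64.BalOMXG

set_option autoImplicit false

/-! BAL-OM ladder, rung RS1. -/

namespace Cfsg.Agent.Lib.Helper64.BalOM

open QuadraticMap Module Cfsg.Agent.Lib.Helper49 Cfsg.Agent.Lib.Helper95
  Cfsg.Agent.Lib.Helper95.AutO

theorem rs1_pow {G : Type*} [Group G] (L : Subgroup G) {l y : G} (hl : l ∈ L)
    (hy : ∀ x ∈ L, y * x * y⁻¹ ∈ L) (n : ℕ) : (l * y) ^ n * (y ^ n)⁻¹ ∈ L := by
  induction n with
  | zero => simp
  | succ n ih =>
    have e : (l * y) ^ (n + 1) * (y ^ (n + 1))⁻¹ =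
        l * (y * ((l * y) ^ n * (y ^ n)⁻¹) * y⁻¹) := by
      rw [pow_succ' (l * y), pow_succ' y]; group
    rw [e]; exact L.mul_mem hl (hy _ ih)

section gen

variable {k W : Type*} [Field k] [AddCommGroup W] [Module k W] {Q : QuadraticForm k W}

theorem rs1_si_pow {e z : W} (he : Q e = 0) (hz : polar Q e z = 0) (n : ℕ) :
    si Q e z ^ n = si Q e ((n : k) • z) := by
  induction n with
  | zero => simp [si_zero]
  | succ n ih =>
    rw [pow_succ, ih, si_mul he (by rw [polar_smul_right, hz, smul_zero]) hz]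
    congr 1
    push_cast
    rw [add_smul, one_smul]

/-- the explicit involution `ν = a b a` -/
theorem rs1_nu (h2 : (2 : k) ≠ 0) {c d w : W} {t : k} (hQc : Q c = 0) (hQd : Q d = 0)
    (hcd : polar Q c d = 1) (hcw : polar Q c w = 0) (hdw : polar Q d w = 0) (ht : t * Q w = 1) :
    (si Q c w * si Q d (t • w) * si Q c w).1 c = -t • d ∧
    (si Q c w * si Q d (t • w) * si Q c w) * (si Q c w * si Q d (t • w) * si Q c w) = 1 := by
  have hcc := polar_self_of_Q hQc
  have hdd := polar_self_of_Q hQd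
  have hdc : polar Q d c = 1 := by rw [polar_comm]; exact hcd
  have hwc : polar Q w c = 0 := by rw [polar_comm]; exact hcw
  have hwd : polar Q w d = 0 := by rw [polar_comm]; exact hdw
  have hww : polar Q w w = 2 * Q w := by rw [polar_self]; simp
  have hdtw : polar Q d (t • w) = 0 := by rw [polar_smul_right, hdw, smul_zero]
  have ha : ∀ v, (si Q c w).1 v =
      v + polar Q c v • w - polar Q w v • c - (Q w * polar Q c v) • c := si_apply hQc hcw
  have hb : ∀ v, (si Q d (t • w)).1 v =
      v + (t * polar Q d v) • w - (t * polar Q w v) • d - (t * polar Q d v) • d := by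
    intro v
    rw [si_apply hQd hdtw, polar_smul_left, QuadraticMap.map_smul]
    simp only [smul_eq_mul]
    have : t * t * Q w * polar Q d v = t * polar Q d v := by rw [mul_assoc t t, ht, mul_one]
    rw [this]
    module
  have hac : (si Q c w).1 c = c := by rw [ha, hcc, hwc]; simp
  have had : (si Q c w).1 d = d + w - Q w • c := by rw [ha, hcd, hwd]; simp
  have haw : (si Q c w).1 w = w - (2 * Q w) • c := by rw [ha, hcw, hww]; simp
  have hbc : (si Q d (t • w)).1 c = c + t • w - t • d := by rw [hb, hdc, hwc]; simp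
  have hbd : (si Q d (t • w)).1 d = d := by rw [hb, hdd, hwd]; simp
  have hbw : (si Q d (t • w)).1 w = w - (2 : k) • d := by
    rw [hb, hdw, hww]
    have : t * (2 * Q w) = 2 := by rw [mul_left_comm, ht, mul_one]
    rw [this]; simp
  have hνc : (si Q c w * si Q d (t • w) * si Q c w).1 c = -t • d := by
    simp only [Subgroup.coe_mul, LinearEquiv.mul_apply, hac, hbc, map_add, map_sub, map_smul, haw,
      had]
    have : c + t • (w - (2 * Q w) • c) - t • (d + w - Q w • c) = -t • d + (1 - t * Q w) • c := by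
      module
    rw [this, ht]; simp
  have hνd : (si Q c w * si Q d (t • w) * si Q c w).1 d = -Q w • c := by
    simp only [Subgroup.coe_mul, LinearEquiv.mul_apply, hac, hbc, hbd, hbw, map_add, map_sub,
      map_smul, haw, had]
    have : d + w - Q w • c + (w - (2 * Q w) • c - (2 : k) • (d + w - Q w • c)) -
        Q w • (c + t • (w - (2 * Q w) • c) - t • (d + w - Q w • c)) =
        -Q w • c + (1 - t * Q w) • (-d - (Q w) • c) := by
      module
    rw [this, ht]; simp
  have hνw : (si Q c w * si Q d (t • w) * si Q c w).1 w = -w := by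
    simp only [Subgroup.coe_mul, LinearEquiv.mul_apply, hac, hbc, hbd, hbw, map_add, map_sub,
      map_smul, haw, had]
    have : w - (2 * Q w) • c - (2 : k) • (d + w - Q w • c) -
        (2 * Q w) • (c + t • (w - (2 * Q w) • c) - t • (d + w - Q w • c)) =
        -w + (1 - t * Q w) • (-(2 : k) • d - (2 * Q w) • c) := by
      module
    rw [this, ht]; simp
  have hνp : ∀ v, polar Q c v = 0 → polar Q d v = 0 → polar Q w v = 0 →
      (si Q c w * si Q d (t • w) * si Q c w).1 v = v := by
    intro v h1 h3 h4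
    have e1 : (si Q c w).1 v = v := by rw [ha, h1, h4]; simp
    have e2 : (si Q d (t • w)).1 v = v := by rw [hb, h3, h4]; simp
    simp only [Subgroup.coe_mul, LinearEquiv.mul_apply, e1, e2]
  refine ⟨hνc, ?_⟩
  apply OG_ext
  intro v
  set ν := si Q c w * si Q d (t • w) * si Q c w with hν
  set v' := v - polar Q d v • c - polar Q c v • d - (2⁻¹ * t * polar Q w v) • w with hv'
  have h1 : polar Q c v' = 0 := by
    rw [hv']
    simp only [polar_sub_right, polar_smul_right, hcc, hcd, hcw, smul_eq_mul]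
    ring
  have h3 : polar Q d v' = 0 := by
    rw [hv']
    simp only [polar_sub_right, polar_smul_right, hdd, hdc, hdw, smul_eq_mul]
    ring
  have h4 : polar Q w v' = 0 := by
    rw [hv']
    simp only [polar_sub_right, polar_smul_right, hwc, hwd, hww, smul_eq_mul]
    have : 2⁻¹ * t * polar Q w v * (2 * Q w) = (2⁻¹ * 2) * (t * Q w) * polar Q w v := by ring
    rw [this, ht, inv_mul_cancel₀ h2]
    ring
  have hdec : v = polar Q d v • c + polar Q c v • d + (2⁻¹ * t * polar Q w v) • w + v' := by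
    rw [hv']; abel
  have hfin : ν.1 (ν.1 v) = v := by
    conv_lhs => rw [hdec]
    simp only [map_add, map_smul, map_neg, hνc, hνd, hνw, hνp v' h1 h3 h4, neg_neg, smul_smul]
    conv_rhs => rw [hdec]
    have e1 : polar Q d v * -t * -Q w = polar Q d v := by
      rw [mul_assoc, neg_mul_neg, ht, mul_one]
    have e2 : polar Q c v * -Q w * -t = polar Q c v := by
      rw [mul_assoc, neg_mul_neg, mul_comm (Q w), ht, mul_one]
    rw [e1, e2]
  exact hfin

end gen

variable {k W : Type*} [Field k] [Fintype k] [AddCommGroup W] [Module k W] [FiniteDimensional k W]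
  {Q : QuadraticForm k W}

theorem rs_step1 (h2 : (2 : k) ≠ 0) (X : Submodule k W)
    (hX : X ⊓ LinearMap.BilinForm.orthogonal (polarBilin Q) X = ⊥) (hd : 3 ≤ finrank k X)
    (L : Subgroup ↥(OG Q)) (hLX : ∀ x ∈ L, ∀ v ∈ X, x.1 v ∈ X)
    (hsi : ∀ e ∈ X, ∀ w ∈ X, ∀ x ∈ L, si Q e w * x * (si Q e w)⁻¹ ∈ L)
    (hinv : ∀ ν ∈ L, ν * ν = 1 → ∃ c : k, ∀ v ∈ X, ν.1 v = c • v) :
    ∀ x ∈ L, ∀ c ∈ X, Q c = 0 → polar Q (x.1 c) c = 0 := by
  intro x hx c hc hQc
  by_contra hβ
  set β := polar Q (x.1 c) c with hβd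
  set d := β⁻¹ • x.1 c with hdd
  have hdX : d ∈ X := X.smul_mem _ (hLX x hx c hc)
  have hQd : Q d = 0 := by rw [hdd, QuadraticMap.map_smul, OG_apply, hQc, smul_zero]
  have hcd : polar Q c d = 1 := by
    rw [hdd, polar_smul_right, polar_comm, ← hβd, smul_eq_mul, inv_mul_cancel₀ hβ]
  have hxc : x.1 c = β • d := by rw [hdd, smul_smul, mul_inv_cancel₀ hβ, one_smul]
  obtain ⟨w, hwX, hcw, hdw, hδ⟩ := xg_perp h2 X hX hd hc hdX hQc hQd hcd
  set t := (Q w)⁻¹ with htd
  have ht : t * Q w = 1 := inv_mul_cancel₀ hδ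
  obtain ⟨hνc, hνν⟩ := rs1_nu h2 hQc hQd hcd hcw hdw ht
  set w' := (x⁻¹).1 ((β⁻¹ * t) • w) with hw'd
  have hw'X : w' ∈ X := hLX _ (L.inv_mem hx) _ (X.smul_mem _ hwX)
  have hxw' : x.1 w' = (β⁻¹ * t) • w := OG_apply_inv_apply x _
  have hcw' : polar Q c w' = 0 := by
    rw [← OG_polar Q x, hxw', hxc, polar_smul_left, polar_smul_right, hdw]; simp
  have hb : x * si Q c w' * x⁻¹ = si Q d (t • w) := by
    rw [si_conj, hxw', hxc, si_smul_left hQd (by rw [polar_smul_right, hdw, smul_zero]), smul_smul,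
      ← mul_assoc, mul_inv_cancel₀ hβ, one_mul]
  have hl : si Q c w * (x * (si Q c w' * x⁻¹ * (si Q c w')⁻¹)) * (si Q c w)⁻¹ ∈ L :=
    hsi c hc w hwX _ (L.mul_mem hx (hsi c hc w' hw'X _ (L.inv_mem hx)))
  have hcz : polar Q c (w + w' + w) = 0 := by
    rw [polar_add_right, polar_add_right, hcw, hcw']; simp
  have hy : si Q c w * si Q c w' * si Q c w = si Q c (w + w' + w) := by
    rw [si_mul hQc hcw hcw', si_mul hQc (by rw [polar_add_right, hcw, hcw', add_zero]) hcw]
  have hν : si Q c w * si Q d (t • w) * si Q c w =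
      (si Q c w * (x * (si Q c w' * x⁻¹ * (si Q c w')⁻¹)) * (si Q c w)⁻¹) *
        si Q c (w + w' + w) := by
    rw [← hy, ← hb]; group
  have hchar : CharP k (ringChar k) := ringChar.charP k
  have hr : (ringChar k).Prime := CharP.char_is_prime k (ringChar k)
  have hr2 : ringChar k ≠ 2 := by
    intro h
    have := CharP.cast_eq_zero k (ringChar k)
    rw [h] at this
    exact h2 (by exact_mod_cast this)
  obtain ⟨j, hj⟩ := hr.eq_two_or_odd'.resolve_left hr2
  have hyr : si Q c (w + w' + w) ^ ringChar k = 1 := by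
    rw [rs1_si_pow hQc hcz, CharP.cast_eq_zero, zero_smul, si_zero]
  have hmem := rs1_pow L hl (hsi c hc (w + w' + w) (X.add_mem (X.add_mem hwX hw'X) hwX))
    (ringChar k)
  rw [hyr, inv_one, mul_one, ← hν, hj, pow_succ, pow_mul, pow_two, hνν, one_pow, one_mul] at hmem
  obtain ⟨s, hs⟩ := hinv _ hmem hνν
  have h5 := hs c hc
  rw [hνc] at h5
  have h6 : polar Q c (-t • d) = polar Q c (s • c) := congrArg (polar Q c) h5
  rw [polar_smul_right Q (-t) c d, polar_smul_right Q s c c, hcd, polar_self_of_Q hQc] at h6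
  simp only [smul_eq_mul, mul_one, mul_zero, neg_eq_zero] at h6
  rw [h6, zero_mul] at ht
  exact zero_ne_one ht

end Cfsg.Agent.Lib.Helper64.BalOM
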