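import Cfsg.Agent.Lib.Helper64.BalOMXG

set_option autoImplicit false

/-! BAL-OM ladder, rung RS2. -/

namespace Cfsg.Agent.Lib.Helper64.BalOM

open QuadraticMap Module Cfsg.Agent.Lib.Helper49 Cfsg.Agent.Lib.Helper95
  Cfsg.Agent.Lib.Helper95.AutO

variable {k W : Type*} [Field k] [AddCommGroup W] [Module k W] {Q : QuadraticForm k W}

theorem rs_step2 (X : Submodule k W)
    (hX : X ⊓ LinearMap.BilinForm.orthogonal (polarBilin Q) X = ⊥)
    (L : Subgroup ↥(OG Q)) (hLX : ∀ x ∈ L, ∀ v ∈ X, x.1 v ∈ X)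
    (hrf : ∀ u ∈ X, ∀ x ∈ L, refl Q u * x * (refl Q u)⁻¹ ∈ L)
    (h1 : ∀ x ∈ L, ∀ c ∈ X, Q c = 0 → polar Q (x.1 c) c = 0) :
    ∀ x ∈ L, ∀ c ∈ X, Q c = 0 → ∃ l : k, x.1 c = l • c := by
  intro x hx c hc hQc
  by_cases hc0 : c = 0
  · exact ⟨0, by rw [hc0, map_zero, smul_zero]⟩
  by_contra hcon
  push Not at hcon
  set c' := x.1 c with hc'd
  have hc' : c' ∈ X := hLX x hx c hc
  have hQc' : Q c' = 0 := by rw [hc'd, OG_apply, hQc]
  have hc'c : polar Q c' c = 0 := h1 x hx c hc hQc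
  obtain ⟨f, hf, hcf, hc'f⟩ := xg_dual X hX hc hc' hc0 hcon
  set d' := f - Q f • c' with hd'd
  have hd' : d' ∈ X := X.sub_mem hf (X.smul_mem _ hc')
  have hQd' : Q d' = 0 := by
    rw [hd'd, qmap_sub, QuadraticMap.map_smul, hQc', polar_smul_right, polar_comm Q f c', hc'f]
    simp
  have hcd' : polar Q c d' = 0 := by
    rw [hd'd, polar_sub_right, polar_smul_right, polar_comm Q c c', hc'c, hcf]
    simp
  have hc'd' : polar Q c' d' = 1 := by
    rw [hd'd, polar_sub_right, polar_smul_right, polar_self_of_Q hQc', hc'f]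
    simp
  have hQu : Q (c' - d') ≠ 0 := by
    rw [qmap_sub, hQc', hQd', hc'd']
    simp
  have hρc : (refl Q (c' - d')).1 c = c := by
    rw [refl_coe_apply]
    apply reflLin_of_polar_eq_zero
    rw [polar_sub_left, hc'c, polar_comm Q d' c, hcd', sub_zero]
  have hρc' : (refl Q (c' - d')).1 c' = d' := by
    rw [refl_coe_apply]
    exact reflLin_sub_apply Q c' d' (by rw [hQc', hQd']) hQu
  have hl : refl Q (c' - d') * x * (refl Q (c' - d'))⁻¹ * x⁻¹ ∈ L :=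
    L.mul_mem (hrf _ (X.sub_mem hc' hd') x hx) (L.inv_mem hx)
  have hlc : (refl Q (c' - d') * x * (refl Q (c' - d'))⁻¹ * x⁻¹).1 c' = d' := by
    rw [refl_inv]
    simp only [Subgroup.coe_mul, LinearEquiv.mul_apply]
    rw [hc'd, OG_inv_apply_apply, hρc, ← hc'd, hρc']
  have := h1 _ hl c' hc' hQc'
  rw [hlc, polar_comm, hc'd'] at this
  exact one_ne_zero this

end Cfsg.Agent.Lib.Helper64.BalOM
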