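import Cfsg.Agent.Lib.Helper64.BalOMXG

set_option autoImplicit false

/-! BAL-OM ladder, rung RS3. -/

namespace Cfsg.Agent.Lib.Helper64.BalOM

open QuadraticMap Module Cfsg.Agent.Lib.Helper49 Cfsg.Agent.Lib.Helper95
  Cfsg.Agent.Lib.Helper95.AutO

variable {k W : Type*} [Field k] [Fintype k] [AddCommGroup W] [Module k W] [FiniteDimensional k W]
  {Q : QuadraticForm k W}

theorem rs_step3 (h2 : (2 : k) ≠ 0) (X : Submodule k W)
    (hX : X ⊓ LinearMap.BilinForm.orthogonal (polarBilin Q) X = ⊥) (hd : 3 ≤ finrank k X)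
    (x : ↥(OG Q)) (h : ∀ c ∈ X, Q c = 0 → ∃ l : k, x.1 c = l • c) :
    ∃ c : k, ∀ v ∈ X, x.1 v = c • v := by
  obtain ⟨e, heX, he0, he⟩ := xg_sing (Q := Q) X hd
  obtain ⟨f, hfX, hf, hef⟩ := xg_partner X hX heX he0 he
  have hee : polar Q e e = 0 := polar_self_of_Q he
  have hff : polar Q f f = 0 := polar_self_of_Q hf
  have hfe : polar Q f e = 1 := by rw [polar_comm]; exact hef
  obtain ⟨a, ha⟩ := h e heX he
  obtain ⟨b, hb⟩ := h f hfX hf
  have hab : a * b = 1 := by
    have := OG_polar Q x e f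
    rw [ha, hb, polar_smul_left, polar_smul_right, hef] at this
    simpa using this
  have ha0 : a ≠ 0 := left_ne_zero_of_mul_eq_one hab
  have hb0 : b ≠ 0 := right_ne_zero_of_mul_eq_one hab
  have key : ∀ w ∈ X, polar Q e w = 0 → polar Q f w = 0 →
      x.1 w = b • w ∧ Q w * (a - b) = 0 := by
    intro w hwX hew hfw
    have hs : Q (f + w - Q w • e) = 0 := by
      rw [qmap_sub, qmap_add, QuadraticMap.map_smul, he, hf, hfw, polar_add_left,
        polar_smul_right, polar_smul_right, hfe, polar_comm Q w e, hew]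
      simp
    obtain ⟨l, hl⟩ := h _ (X.sub_mem (X.add_mem hfX hwX) (X.smul_mem _ heX)) hs
    rw [map_sub, map_add, map_smul, ha, hb] at hl
    have hgw : x.1 w = l • (f + w - Q w • e) - b • f + Q w • a • e := by
      rw [← hl]; abel
    have h1 : polar Q e (x.1 w) = 0 := by
      have := OG_polar Q x e w
      rw [ha, polar_smul_left, hew, smul_eq_mul] at this
      exact (mul_eq_zero.1 this).resolve_left ha0
    have h2 : polar Q f (x.1 w) = 0 := by
      have := OG_polar Q x f w
      rw [hb, polar_smul_left, hfw, smul_eq_mul] at this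
      exact (mul_eq_zero.1 this).resolve_left hb0
    rw [hgw] at h1 h2
    simp only [polar_add_right, polar_sub_right, polar_smul_right, hee, hef, hew, hff, hfe, hfw,
      smul_eq_mul, mul_zero, mul_one, add_zero, sub_zero, zero_sub, zero_add] at h1 h2
    have hlb : l = b := by linear_combination h1
    subst hlb
    have h3 : Q w * (a - l) = 0 := by linear_combination h2
    refine ⟨?_, h3⟩
    rw [hgw]
    have : l • (f + w - Q w • e) - l • f + Q w • a • e = l • w + (Q w * (a - l)) • e := by module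
    rw [this, h3, zero_smul, add_zero]
  obtain ⟨w₀, hw₀X, hew₀, hfw₀, hQw₀⟩ := xg_perp h2 X hX hd heX hfX he hf hef
  have hab' : a = b := by
    have := (key w₀ hw₀X hew₀ hfw₀).2
    exact sub_eq_zero.1 ((mul_eq_zero.1 this).resolve_left hQw₀)
  refine ⟨b, fun v hv => ?_⟩
  have h3 := (key _ (xgP_mem heX hfX hv) (xgP_left he hef v) (xgP_right hf hef v)).1
  conv_lhs => rw [xgP_decomp (Q := Q) e f v]
  rw [map_add, map_add, map_smul, map_smul, ha, hb, hab', h3]
  conv_rhs => rw [xgP_decomp (Q := Q) e f v]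
  module

end Cfsg.Agent.Lib.Helper64.BalOM
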