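import Cfsg.Agent.Lib.Helper64.BalOMC1
import Cfsg.Agent.Lib.Helper64.BalOMRS1
import Cfsg.Agent.Lib.Helper64.BalOMRS2
import Cfsg.Agent.Lib.Helper64.BalOMRS3

set_option autoImplicit false

/-! BAL-OM ladder, rung C1H. -/

namespace Cfsg.Agent.Lib.Helper64.BalOM

open QuadraticMap Module Cfsg.Agent.Lib.Helper49 Cfsg.Agent.Lib.Helper95
  Cfsg.Agent.Lib.Helper95.AutO Cfsg.Agent.Lib.Helper95.BalOM

theorem c1h_scalar_sq {k W : Type*} [Field k] [AddCommGroup W] [Module k W]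
    {Q : QuadraticForm k W} (X : Submodule k W)
    (hX : X ⊓ LinearMap.BilinForm.orthogonal (polarBilin Q) X = ⊥) (x : ↥(OG Q)) {c : k}
    (h : ∀ v ∈ X, x.1 v = c • v) : ∀ v ∈ X, x.1 (x.1 v) = v := by
  intro v hv
  by_cases hv0 : v = 0
  · rw [hv0, map_zero, map_zero]
  obtain ⟨w, hw, hQw⟩ := c1_nonsing X hX hv hv0
  have h1 := OG_apply Q x w
  rw [h w hw, QuadraticMap.map_smul, smul_eq_mul] at h1
  have hcc : c * c = 1 := mul_right_cancel₀ hQw (by rw [h1, one_mul])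
  rw [h v hv, map_smul, h v hv, smul_smul, hcc, one_smul]

variable {k W : Type*} [Field k] [Fintype k] [AddCommGroup W] [Module k W] [FiniteDimensional k W]
  {Q : QuadraticForm k W}

theorem c1h_eig (h2 : (2 : k) ≠ 0) (hQ : (polarBilin Q).Nondegenerate) (g : ↥(OG Q))
    (hg : g * g = 1) {ε : k} (hε : ε * ε = 1) (hdim : finrank k (c1E g.1 ε) ≠ 2)
    (L : Subgroup ↥(OG Q)) (hLg : ∀ x ∈ L, ∀ v, x.1 (g.1 v) = g.1 (x.1 v))
    (hLn : ∀ t : ↥(OG Q), (∀ v, t.1 (g.1 v) = g.1 (t.1 v)) → ∀ x ∈ L, t * x * t⁻¹ ∈ L)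
    (hinv : ∀ ν ∈ L, ν * ν = 1 → ∃ c : k, ∀ v, ν.1 v = c • v) :
    ∀ x ∈ L, ∀ v ∈ c1E g.1 ε, x.1 (x.1 v) = v := by
  intro x hx
  have hX := c1_nd h2 hQ hg hε
  have hLX : ∀ x ∈ L, ∀ v ∈ c1E g.1 ε, x.1 v ∈ c1E g.1 ε := fun x hx v hv =>
    c1_map_mem (hLg x hx) (fun v => map_smul _ _ _) hv
  rcases (by omega : finrank k (c1E g.1 ε) = 0 ∨ finrank k (c1E g.1 ε) = 1 ∨
    3 ≤ finrank k (c1E g.1 ε)) with h0 | h1 | h3
  · have hbot : c1E g.1 ε = ⊥ := Submodule.finrank_eq_zero.1 h0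
    intro v hv
    rw [hbot, Submodule.mem_bot] at hv
    rw [hv, map_zero, map_zero]
  · obtain ⟨v0, -, hspan⟩ := finrank_eq_one_iff'.1 h1
    obtain ⟨c, hc⟩ := hspan ⟨x.1 v0.1, hLX x hx _ v0.2⟩
    apply c1h_scalar_sq _ hX x (c := c)
    intro v hv
    obtain ⟨a, ha⟩ := hspan ⟨v, hv⟩
    have ha' : a • v0.1 = v := congrArg Subtype.val ha
    have hc' : c • v0.1 = x.1 v0.1 := congrArg Subtype.val hc
    rw [← ha', map_smul, ← hc', smul_comm]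
  · have hsi : ∀ e ∈ c1E g.1 ε, ∀ w ∈ c1E g.1 ε, ∀ x ∈ L, si Q e w * x * (si Q e w)⁻¹ ∈ L :=
      fun e he w hw x hx => hLn (si Q e w) (c1_si_comm g hε he hw) x hx
    have hrf : ∀ u ∈ c1E g.1 ε, ∀ x ∈ L, refl Q u * x * (refl Q u)⁻¹ ∈ L :=
      fun u hu x hx => hLn (refl Q u) (c1_refl_comm g hε hu) x hx
    have hinv' : ∀ ν ∈ L, ν * ν = 1 → ∃ c : k, ∀ v ∈ c1E g.1 ε, ν.1 v = c • v :=
      fun ν hν h => (hinv ν hν h).imp (fun c hc v _ => hc v)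
    obtain ⟨c, hc⟩ := rs_step3 h2 _ hX h3 x
      (rs_step2 _ hX L hLX hrf (rs_step1 h2 _ hX h3 L hLX hsi hinv') x hx)
    exact c1h_scalar_sq _ hX x hc

theorem caseI_AHI (h2 : (2 : k) ≠ 0) (hQ : (polarBilin Q).Nondegenerate) (g : ↥(OG Q))
    (hg : g * g = 1)
    (hp : finrank k (eigP g.1) ≠ 2) (hm : finrank k (eigM g.1) ≠ 2) : AHI Q g.1 := by
  intro L hLg hLn hinv x hx
  rw [eigP_eq_c1E] at hp
  rw [eigM_eq_c1E] at hm
  have h1 : (1 : k) * 1 = 1 := one_mul 1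
  have h1' : (-1 : k) * (-1) = 1 := by rw [neg_mul_neg, one_mul]
  have hP := c1h_eig h2 hQ g hg h1 hp L hLg hLn hinv x hx
  have hM := c1h_eig h2 hQ g hg h1' hm L hLg hLn hinv x hx
  apply OG_ext
  intro v
  show x.1 (x.1 v) = v
  conv_lhs => rw [c1_decomp h2 g 1 v]
  rw [map_add, map_add, map_smul, map_smul, map_smul, map_smul, hP _ (c1_proj_mem hg h1 v),
    hM _ (c1_proj_mem hg h1' v), ← c1_decomp h2 g 1 v]

end Cfsg.Agent.Lib.Helper64.BalOM
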