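import Cfsg.Agent.Lib.Helper64.BalOMXG

set_option autoImplicit false

/-! BAL-OM ladder, rung RR: an additive map commuting with all Siegel maps of `X` is a scalar
on `X`. -/

namespace Cfsg.Agent.Lib.Helper64.BalOM

open QuadraticMap Module Cfsg.Agent.Lib.Helper49 Cfsg.Agent.Lib.Helper95
  Cfsg.Agent.Lib.Helper95.AutO

section gen

variable {k W : Type*} [Field k] [AddCommGroup W] [Module k W] {Q : QuadraticForm k W}

theorem rr_line (h2 : (2 : k) ≠ 0) (Ψ : W →+ W) {c d w : W} (hQc : Q c = 0)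
    (hcd : polar Q c d = 1) (hcw : polar Q c w = 0) (hδ : Q w ≠ 0)
    (hu : ∀ x, Ψ ((si Q c w).1 x) = (si Q c w).1 (Ψ x)) (l : k) : ∃ μ : k, Ψ (l • c) = μ • c := by
  have hcc := polar_self_of_Q hQc
  have hwc : polar Q w c = 0 := by rw [polar_comm]; exact hcw
  have hww : polar Q w w = 2 * Q w := by rw [polar_self]; simp
  have ha := si_apply (Q := Q) hQc hcw
  have I1 : ∀ v, (si Q c w).1 ((si Q c w).1 v) - (si Q c w).1 v - (si Q c w).1 v + v =
      (-(2 * Q w * polar Q c v)) • c := by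
    intro v
    simp only [ha, polar_add_right, polar_sub_right, polar_smul_right, hcc, hcw, hwc, hww,
      smul_eq_mul]
    module
  have h1 := I1 ((-l * (2 * Q w)⁻¹) • d)
  have h3 : -(2 * Q w * polar Q c ((-l * (2 * Q w)⁻¹) • d)) = l := by
    rw [polar_smul_right, hcd, smul_eq_mul]
    field_simp
  rw [h3] at h1
  refine ⟨-(2 * Q w * polar Q c (Ψ ((-l * (2 * Q w)⁻¹) • d))), ?_⟩
  rw [← h1, map_add, map_sub, map_sub, hu, hu, I1]

theorem rr_B (Ψ : W →+ W) {c d w : W} (hQc : Q c = 0)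
    (hcd : polar Q c d = 1) (hcw : polar Q c w = 0) (hdw : polar Q d w = 0) (fc fd : k → k)
    (hc : ∀ l, Ψ (l • c) = fc l • c) (hd : ∀ l, Ψ (l • d) = fd l • d)
    (hu : ∀ (κ : k) x, Ψ ((si Q c (κ • w)).1 x) = (si Q c (κ • w)).1 (Ψ x)) (l κ : k) :
    Ψ ((l * κ) • w) = (fd l * κ) • w + (fc (κ * κ * Q w * l) - κ * κ * Q w * fd l) • c := by
  have hwd : polar Q w d = 0 := by rw [polar_comm]; exact hdw
  have hcκw : polar Q c (κ • w) = 0 := by rw [polar_smul_right, hcw, smul_zero]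
  have E : ∀ a : k, (si Q c (κ • w)).1 (a • d) =
      a • d + (a * κ) • w - (κ * κ * Q w * a) • c := by
    intro a
    rw [si_apply hQc hcκw]
    simp only [polar_smul_right, polar_smul_left, hcd, hwd, QuadraticMap.map_smul, smul_eq_mul]
    module
  have h := hu κ (l • d)
  rw [E l, hd, E (fd l), map_sub, map_add, hd, hc] at h
  have e : Ψ ((l * κ) • w) = (fd l • d + Ψ ((l * κ) • w) - fc (κ * κ * Q w * l) • c) - fd l • d +
      fc (κ * κ * Q w * l) • c := by abel
  rw [e, h]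
  module

theorem rr_C (h2 : (2 : k) ≠ 0) (Ψ : W →+ W) {c d w : W} (hQc : Q c = 0) (hQd : Q d = 0)
    (hcd : polar Q c d = 1) (hcw : polar Q c w = 0) (hdw : polar Q d w = 0) (hδ : Q w ≠ 0)
    (hu : ∀ (κ : k) x, Ψ ((si Q c (κ • w)).1 x) = (si Q c (κ • w)).1 (Ψ x))
    (hu' : ∀ (κ : k) x, Ψ ((si Q d (κ • w)).1 x) = (si Q d (κ • w)).1 (Ψ x)) (l : k) :
    Ψ (l • c) = (polar Q c (Ψ d) * l) • c ∧ Ψ (l • d) = (polar Q c (Ψ d) * l) • d ∧
      Ψ (l • w) = (polar Q c (Ψ d) * l) • w := by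
  have hcc := polar_self_of_Q hQc
  have hdd := polar_self_of_Q hQd
  have hdc : polar Q d c = 1 := by rw [polar_comm]; exact hcd
  have hwc : polar Q w c = 0 := by rw [polar_comm]; exact hcw
  have hwd : polar Q w d = 0 := by rw [polar_comm]; exact hdw
  have hww : polar Q w w = 2 * Q w := by rw [polar_self]; simp
  have hww0 : polar Q w w ≠ 0 := by rw [hww]; exact mul_ne_zero h2 hδ
  have hl1 := rr_line h2 Ψ hQc hcd hcw hδ (by simpa using hu 1)
  have hl2 := rr_line h2 Ψ hQd hdc hdw hδ (by simpa using hu' 1)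
  choose fc hc using hl1
  choose fd hd using hl2
  have B1 := rr_B Ψ hQc hcd hcw hdw fc fd hc hd hu
  have B2 := rr_B Ψ hQd hdc hdw hcw fd fc hd hc hu'
  -- compare
  have hcmp : ∀ l κ, fd l * κ = fc l * κ ∧ fc (κ * κ * Q w * l) - κ * κ * Q w * fd l = 0 := by
    intro l κ
    have h := (B1 l κ).symm.trans (B2 l κ)
    constructor
    · have h3 := congrArg (polar Q w) h
      simp only [polar_add_right, polar_smul_right, hwc, hwd, smul_eq_mul, mul_zero, add_zero]
        at h3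
      exact mul_right_cancel₀ hww0 h3
    · have h3 := congrArg (polar Q d) h
      simp only [polar_add_right, polar_smul_right, hdw, hdc, hdd, smul_eq_mul, mul_zero, add_zero,
        zero_add, mul_one] at h3
      exact h3
  have hfe : ∀ l, fd l = fc l := fun l => by simpa using (hcmp l 1).1
  have hw : ∀ l κ, Ψ ((l * κ) • w) = (fd l * κ) • w := by
    intro l κ
    rw [B1 l κ, (hcmp l κ).2, zero_smul, add_zero]
  have hw0 : w ≠ 0 := by
    intro h; apply hδ; rw [h, QuadraticMap.map_zero]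
  have hlin : ∀ l, fd l = fd 1 * l := by
    intro l
    have e1 := hw l 1
    have e2 := hw 1 l
    rw [mul_one, mul_one] at e1
    rw [one_mul] at e2
    have := e1.symm.trans e2
    exact smul_left_injective k hw0 this
  have hφ : polar Q c (Ψ d) = fd 1 := by
    have := hd 1
    rw [one_smul] at this
    rw [this, polar_smul_right, hcd, smul_eq_mul, mul_one]
  rw [hφ]
  refine ⟨by rw [hc, ← hfe, hlin l], by rw [hd, hlin l], ?_⟩
  have := hw 1 l
  rwa [one_mul] at this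

end gen

variable {k W : Type*} [Field k] [Fintype k] [AddCommGroup W] [Module k W] [FiniteDimensional k W]
  {Q : QuadraticForm k W}

theorem rr (h2 : (2 : k) ≠ 0) (X : Submodule k W)
    (hX : X ⊓ LinearMap.BilinForm.orthogonal (polarBilin Q) X = ⊥) (hd : 3 ≤ finrank k X)
    (Ψ : W → W) (hadd : ∀ x y, Ψ (x + y) = Ψ x + Ψ y)
    (hcomm : ∀ e ∈ X, ∀ w ∈ X, Q e = 0 → polar Q e w = 0 →
      ∀ x, Ψ ((si Q e w).1 x) = (si Q e w).1 (Ψ x)) :
    ∃ φ : k, ∀ v ∈ X, Ψ v = φ • v := by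
  obtain ⟨c, hcX, hc0, hQc⟩ := xg_sing (Q := Q) X hd
  obtain ⟨d, hdX, hQd, hcd⟩ := xg_partner X hX hcX hc0 hQc
  obtain ⟨w, hwX, hcw, hdw, hδ⟩ := xg_perp h2 X hX hd hcX hdX hQc hQd hcd
  set Ψ' : W →+ W := AddMonoidHom.mk' Ψ hadd with hΨ'
  have hΨ : ∀ x, Ψ' x = Ψ x := fun _ => rfl
  set φ := polar Q c (Ψ' d) with hφ
  have key : ∀ z ∈ X, polar Q c z = 0 → polar Q d z = 0 → Q z ≠ 0 → ∀ l : k,
      Ψ' (l • c) = (φ * l) • c ∧ Ψ' (l • d) = (φ * l) • d ∧ Ψ' (l • z) = (φ * l) • z := by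
    intro z hzX hcz hdz hQz l
    refine rr_C h2 Ψ' hQc hQd hcd hcz hdz hQz ?_ ?_ l
    · intro κ x
      exact hcomm c hcX (κ • z) (X.smul_mem _ hzX) hQc (by rw [polar_smul_right, hcz, smul_zero]) x
    · intro κ x
      exact hcomm d hdX (κ • z) (X.smul_mem _ hzX) hQd (by rw [polar_smul_right, hdz, smul_zero]) x
  have key1 : ∀ z ∈ X, polar Q c z = 0 → polar Q d z = 0 → Q z ≠ 0 → Ψ' z = φ • z := by
    intro z hzX hcz hdz hQz
    have := (key z hzX hcz hdz hQz 1).2.2
    rwa [one_smul, mul_one] at this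
  have hperp : ∀ z ∈ X, polar Q c z = 0 → polar Q d z = 0 → Ψ' z = φ • z := by
    intro z hzX hcz hdz
    by_cases hQz : Q z = 0
    · by_cases h1 : Q (z + w) = 0
      · have h3 : Q (z - w) ≠ 0 := by
          intro h3
          rw [qmap_add, hQz] at h1
          rw [qmap_sub, hQz] at h3
          have : 2 * Q w = 0 := by linear_combination h1 + h3
          exact (mul_ne_zero h2 hδ) this
        have e1 := key1 (z - w) (X.sub_mem hzX hwX) (by rw [polar_sub_right, hcz, hcw, sub_zero])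
          (by rw [polar_sub_right, hdz, hdw, sub_zero]) h3
        have e2 := key1 w hwX hcw hdw hδ
        have : Ψ' z = Ψ' (z - w) + Ψ' w := by rw [← map_add, sub_add_cancel]
        rw [this, e1, e2, ← smul_add, sub_add_cancel]
      · have e1 := key1 (z + w) (X.add_mem hzX hwX) (by rw [polar_add_right, hcz, hcw, add_zero])
          (by rw [polar_add_right, hdz, hdw, add_zero]) h1
        have e2 := key1 w hwX hcw hdw hδ
        have : Ψ' z = Ψ' (z + w) - Ψ' w := by rw [← map_sub, add_sub_cancel_right]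
        rw [this, e1, e2, ← smul_sub, add_sub_cancel_right]
    · exact key1 z hzX hcz hdz hQz
  refine ⟨φ, fun v hv => ?_⟩
  rw [← hΨ]
  conv_lhs => rw [xgP_decomp (Q := Q) c d v]
  rw [map_add, map_add, (key w hwX hcw hdw hδ _).1, (key w hwX hcw hdw hδ _).2.1,
    hperp _ (xgP_mem hcX hdX hv) (xgP_left hQc hcd v) (xgP_right hQd hcd v)]
  conv_rhs => rw [xgP_decomp (Q := Q) c d v]
  module

end Cfsg.Agent.Lib.Helper64.BalOM
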