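import Mathlib

set_option autoImplicit false

namespace Cfsg.Agent.Lib.Helper64

open Subgroup

section chain

variable {P : Type*} [Group P]

/-- The characteristic subgroups `{x | x^(p^(k+1)) = 1, x^(p^k) a p^(k+j)-th power}` of an abelian
group. -/
def VV (hc : ∀ a b : P, a * b = b * a) (p k j : ℕ) : Subgroup P where
  carrier := {x | x ^ (p ^ (k + 1)) = 1 ∧ ∃ w, x ^ (p ^ k) = w ^ (p ^ (k + j))}
  one_mem' := ⟨one_pow _, 1, by simp⟩
  mul_mem' := by
    rintro a b ⟨ha, wa, hwa⟩ ⟨hb, wb, hwb⟩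
    refine ⟨by rw [(show Commute a b from hc a b).mul_pow, ha, hb, one_mul], wa * wb, ?_⟩
    rw [(show Commute a b from hc a b).mul_pow, (show Commute wa wb from hc wa wb).mul_pow, hwa, hwb]
  inv_mem' := by
    rintro a ⟨ha, wa, hwa⟩
    exact ⟨by rw [inv_pow, ha, inv_one], wa⁻¹, by rw [inv_pow, inv_pow, hwa]⟩

theorem mem_VV (hc : ∀ a b : P, a * b = b * a) (p k j : ℕ) (x : P) :
    x ∈ VV hc p k j ↔ x ^ (p ^ (k + 1)) = 1 ∧ ∃ w, x ^ (p ^ k) = w ^ (p ^ (k + j)) := Iff.rfl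

theorem VV_char (hc : ∀ a b : P, a * b = b * a) (p k j : ℕ) (α : MulAut P) {x : P}
    (hx : x ∈ VV hc p k j) : α x ∈ VV hc p k j := by
  obtain ⟨h1, w, hw⟩ := hx
  exact ⟨by rw [← map_pow, h1, map_one], α w, by rw [← map_pow, hw, map_pow]⟩

/-- "Distinct invariants", intrinsically. -/
def DD (p : ℕ) (P : Type*) [Group P] : Prop :=
  ∀ i : ℕ, ∃ b : P, b ^ (p ^ (i + 1)) = 1 ∧ ∀ w : P, w ^ (p ^ (i + 1)) = 1 →
    ∃ (t : ℕ) (v : P), w ^ (p ^ i) = (b ^ (p ^ i)) ^ t * v ^ (p ^ (i + 1))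

theorem VV_step (hc : ∀ a b : P, a * b = b * a) {p : ℕ} (hD : DD p P) (k j : ℕ) :
    ∃ x : P, VV hc p k j = VV hc p k (j + 1) ⊔ zpowers x := by
  obtain ⟨b, hb, hb'⟩ := hD (k + j)
  have hx : b ^ (p ^ j) ∈ VV hc p k j := by
    refine ⟨?_, b, ?_⟩
    · rw [← pow_mul, ← pow_add, ← hb]
      congr 2
      omega
    · rw [← pow_mul, ← pow_add, add_comm]
  refine ⟨b ^ (p ^ j), le_antisymm ?_ (sup_le ?_ (zpowers_le.2 hx))⟩
  · rintro y ⟨hy1, w, hw⟩
    have hw1 : w ^ (p ^ (k + j + 1)) = 1 := by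
      rw [pow_succ, pow_mul, ← hw, ← pow_mul, ← pow_succ, hy1]
    obtain ⟨t, v, htv⟩ := hb' w hw1
    have hxk : (b ^ (p ^ j)) ^ (p ^ k) = b ^ (p ^ (k + j)) := by
      rw [← pow_mul, ← pow_add, add_comm]
    have hy' : y * ((b ^ (p ^ j)) ^ t)⁻¹ ∈ VV hc p k (j + 1) := by
      refine ⟨?_, v, ?_⟩
      · rw [(show Commute y _ from hc y _).mul_pow, hy1, one_mul, inv_pow, ← pow_mul, mul_comm t,
          pow_mul, hx.1, one_pow, inv_one]
      · have e1 : ((b ^ (p ^ j)) ^ t) ^ (p ^ k) = (b ^ (p ^ (k + j))) ^ t := by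
          rw [← pow_mul, mul_comm t, pow_mul, hxk]
        rw [(show Commute y _ from hc y _).mul_pow, hw, htv, inv_pow, e1, hc _ (v ^ _), mul_assoc,
          mul_inv_cancel, mul_one]
        rfl
    have : y = y * ((b ^ (p ^ j)) ^ t)⁻¹ * (b ^ (p ^ j)) ^ t := by group
    rw [this]
    exact mul_mem (mem_sup_left hy') (mem_sup_right (Subgroup.pow_mem _ (mem_zpowers _) _))
  · rintro y ⟨hy1, w, hw⟩
    refine ⟨hy1, w ^ p, ?_⟩
    rw [hw, ← pow_mul, ← pow_succ']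
    rfl

/-- Induction along a chain of characteristic subgroups with cyclic steps. -/
theorem char_chain_induction [Finite P] (hc : ∀ a b : P, a * b = b * a) {p : ℕ} [Fact p.Prime]
    (hP : IsPGroup p P) (hD : DD p P) (C : Subgroup P → Prop) (h0 : C ⊥)
    (hs : ∀ (T : Subgroup P) (x : P), C T →
      (∀ α : MulAut P, ∀ y ∈ T ⊔ zpowers x, α y ∈ T ⊔ zpowers x) → C (T ⊔ zpowers x)) : C ⊤ := by
  obtain ⟨E, hE⟩ := hP.exists_card_eq
  have hexp : ∀ x : P, ∀ n, E ≤ n → x ^ (p ^ n) = 1 := by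
    intro x n hn
    obtain ⟨d, rfl⟩ := Nat.exists_eq_add_of_le hn
    rw [pow_add, pow_mul, ← hE, pow_card_eq_one', one_pow]
  have hdown : ∀ k, C (VV hc p k E) → ∀ d j, j + d = E → C (VV hc p k j) := by
    intro k hk d
    induction d with
    | zero =>
      intro j hj
      have : j = E := by omega
      rw [this]
      exact hk
    | succ d ih =>
      intro j hj
      have h1 := ih (j + 1) (by omega)
      obtain ⟨x, hx⟩ := VV_step hc hD k j
      rw [hx]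
      refine hs _ x h1 ?_
      rw [← hx]
      exact fun α y hy => VV_char hc p k j α hy
  have hall : ∀ k, C (VV hc p k 0) := by
    intro k
    induction k with
    | zero =>
      refine hdown 0 ?_ E 0 (by omega)
      have : VV hc p 0 E = ⊥ := by
        rw [eq_bot_iff]
        rintro x ⟨-, w, hw⟩
        rw [pow_zero, pow_one, hexp w _ (by omega)] at hw
        exact hw
      rw [this]
      exact h0
    | succ k ih =>
      refine hdown (k + 1) ?_ E 0 (by omega)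
      have : VV hc p (k + 1) E = VV hc p k 0 := by
        ext x
        constructor
        · rintro ⟨-, w, hw⟩
          rw [hexp w _ (by omega)] at hw
          exact ⟨hw, x, rfl⟩
        · rintro ⟨h1, -⟩
          exact ⟨by rw [pow_succ, pow_mul, h1, one_pow], 1, by rw [h1, one_pow]⟩
      rw [this]
      exact ih
  have : VV hc p E 0 = ⊤ := by
    rw [eq_top_iff]
    intro x _
    exact ⟨hexp x _ (by omega), x, rfl⟩
  rw [← this]
  exact hall E

end chain

section coordinates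

theorem zmod_aux {p : ℕ} (hp : p.Prime) {e i : ℕ} (he : e ≠ i + 1) (c : ZMod (p ^ e))
    (h : p ^ (i + 1) • c = 0) : ∃ v : ZMod (p ^ e), p ^ i • c = p ^ (i + 1) • v := by
  rcases Nat.lt_or_ge i e with hlt | hge
  · have : NeZero (p ^ e) := ⟨pow_ne_zero _ hp.ne_zero⟩
    obtain ⟨f, rfl⟩ : ∃ f, e = (i + 1) + (f + 1) := ⟨e - (i + 1) - 1, by omega⟩
    have hc : c = ((c.val : ℕ) : ZMod (p ^ (i + 1 + (f + 1)))) := (ZMod.natCast_zmod_val c).symm
    rw [hc, nsmul_eq_mul, ← Nat.cast_mul, ZMod.natCast_eq_zero_iff] at h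
    have h' : p ^ (i + 1) * p ^ (f + 1) ∣ p ^ (i + 1) * c.val := by
      rw [← pow_add]
      exact h
    have h1 : p ^ (f + 1) ∣ c.val := Nat.dvd_of_mul_dvd_mul_left (pow_pos hp.pos _) h'
    obtain ⟨d, hd⟩ := (dvd_pow_self p (Nat.succ_ne_zero f)).trans h1
    refine ⟨(d : ZMod _), ?_⟩
    rw [hc, hd, nsmul_eq_mul, nsmul_eq_mul]
    push_cast
    ring
  · refine ⟨0, ?_⟩
    rw [smul_zero, nsmul_eq_mul, (ZMod.natCast_eq_zero_iff _ _).2 (pow_dvd_pow p hge), zero_mul]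

theorem dd_add {ι : Type*} {p : ℕ} (hp : p.Prime) (k : ι → ℕ) (hk : Function.Injective k) (i : ℕ) :
    ∃ b : (∀ s, ZMod (p ^ k s)), p ^ (i + 1) • b = 0 ∧
      ∀ w : (∀ s, ZMod (p ^ k s)), p ^ (i + 1) • w = 0 →
        ∃ (t : ℕ) (v : ∀ s, ZMod (p ^ k s)), p ^ i • w = t • (p ^ i • b) + p ^ (i + 1) • v := by
  classical
  by_cases h : ∃ s0, k s0 = i + 1
  · obtain ⟨s0, hs0⟩ := h
    have hne : ∀ s, s ≠ s0 → k s ≠ i + 1 := fun s hs h' => hs (hk (h'.trans hs0.symm))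
    have : NeZero (p ^ k s0) := ⟨pow_ne_zero _ hp.ne_zero⟩
    refine ⟨Pi.single s0 1, ?_, fun w hw => ?_⟩
    · funext s
      by_cases hs : s = s0
      · subst hs
        rw [Pi.smul_apply, Pi.single_eq_same, nsmul_eq_mul, mul_one, Pi.zero_apply,
          ZMod.natCast_eq_zero_iff, hs0]
      · rw [Pi.smul_apply, Pi.single_eq_of_ne hs, smul_zero, Pi.zero_apply]
    · have hv : ∀ s, ∃ v : ZMod (p ^ k s), s ≠ s0 → p ^ i • w s = p ^ (i + 1) • v := by
        intro s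
        by_cases hs : s = s0
        · exact ⟨0, fun h => absurd hs h⟩
        · obtain ⟨v, hv⟩ := zmod_aux hp (hne s hs) (w s) (congrFun hw s)
          exact ⟨v, fun _ => hv⟩
      choose v hv using hv
      refine ⟨(w s0).val, fun s => if s = s0 then 0 else v s, ?_⟩
      funext s
      by_cases hs : s = s0
      · subst hs
        rw [Pi.smul_apply, Pi.add_apply, Pi.smul_apply, Pi.smul_apply, Pi.smul_apply,
          Pi.single_eq_same, if_pos rfl, smul_zero, add_zero, nsmul_eq_mul, nsmul_eq_mul,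
          nsmul_eq_mul, mul_one, ZMod.natCast_zmod_val, mul_comm]
      · simp only [Pi.smul_apply, Pi.add_apply, Pi.single_eq_of_ne hs, if_neg hs, smul_zero, zero_add]
        exact hv s hs
  · have hne : ∀ s, k s ≠ i + 1 := fun s hs => h ⟨s, hs⟩
    refine ⟨0, smul_zero _, fun w hw => ?_⟩
    have hv : ∀ s, ∃ v : ZMod (p ^ k s), p ^ i • w s = p ^ (i + 1) • v :=
      fun s => zmod_aux hp (hne s) (w s) (congrFun hw s)
    choose v hv using hv
    refine ⟨0, v, ?_⟩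
    funext s
    simp only [Pi.smul_apply, Pi.add_apply, zero_smul, Pi.zero_apply, zero_add]
    exact hv s

theorem dd_mult {ι : Type*} {p : ℕ} (hp : p.Prime) (k : ι → ℕ) (hk : Function.Injective k) :
    DD p (Multiplicative (∀ s, ZMod (p ^ k s))) := by
  intro i
  obtain ⟨b, hb, hb'⟩ := dd_add hp k hk i
  refine ⟨Multiplicative.ofAdd b, hb, fun w hw => ?_⟩
  obtain ⟨t, v, h⟩ := hb' (Multiplicative.toAdd w) hw
  exact ⟨t, Multiplicative.ofAdd v, h⟩

theorem DD.of_equiv {p : ℕ} {P Q : Type*} [Group P] [Group Q] (e : P ≃* Q) (h : DD p Q) :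
    DD p P := by
  intro i
  obtain ⟨b, hb, hb'⟩ := h i
  refine ⟨e.symm b, by rw [← map_pow, hb, map_one], fun w hw => ?_⟩
  obtain ⟨t, v, h⟩ := hb' (e w) (by rw [← map_pow, hw, map_one])
  refine ⟨t, e.symm v, ?_⟩
  apply e.injective
  rw [map_pow, h, map_mul, map_pow, map_pow, map_pow, e.apply_symm_apply, e.apply_symm_apply]

/-- Splitting off two coordinates of a product. -/
def piSplit2 {ι : Type*} [DecidableEq ι] (G : ι → Type*) [∀ i, CommGroup (G i)] {s t : ι}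
    (hst : t ≠ s) :
    (∀ i, G i) ≃* (G s × G t) × (∀ j : {j : {j // j ≠ s} // j ≠ ⟨t, hst⟩}, G j.1.1) :=
  let e1 : (∀ i, G i) ≃* G s × (∀ j : {j // j ≠ s}, G j) :=
    { Equiv.piSplitAt s G with map_mul' := fun _ _ => rfl }
  let e2 : (∀ j : {j // j ≠ s}, G j) ≃*
      G t × (∀ j : {j : {j // j ≠ s} // j ≠ ⟨t, hst⟩}, G j.1.1) :=
    { Equiv.piSplitAt (⟨t, hst⟩ : {j // j ≠ s}) (fun j => G j.1) with map_mul' := fun _ _ => rfl }
  (e1.trans (MulEquiv.prodCongr (MulEquiv.refl _) e2)).trans MulEquiv.prodAssoc.symm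

theorem dd_of_no_repeat {P : Type*} [Group P] [Finite P] (hc : ∀ a b : P, a * b = b * a) {p : ℕ}
    [Fact p.Prime] (hP : IsPGroup p P)
    (hno : ¬ ∃ (n : ℕ) (H : Type) (_ : CommGroup H), 0 < n ∧
      Nonempty (P ≃* (Multiplicative (ZMod (p ^ n)) × Multiplicative (ZMod (p ^ n))) × H)) :
    DD p P := by
  classical
  have hp : p.Prime := Fact.out
  let _ : CommGroup P := { (inferInstance : Group P) with mul_comm := hc }
  obtain ⟨ι, _, n, hn, ⟨e⟩⟩ := CommGroup.equiv_prod_multiplicative_zmod_of_finite P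
  obtain ⟨E, hE⟩ := hP.exists_card_eq
  have hcard : Nat.card P = ∏ i, n i := by
    rw [Nat.card_congr e.toEquiv, Nat.card_pi]
    refine Finset.prod_congr rfl (fun i _ => ?_)
    exact Nat.card_zmod (n i)
  have hk : ∀ i, ∃ k, n i = p ^ k := by
    intro i
    have h1 : n i ∣ p ^ E := by
      rw [← hE, hcard]
      exact Finset.dvd_prod_of_mem n (Finset.mem_univ i)
    obtain ⟨k, -, hk⟩ := (Nat.dvd_prime_pow hp).1 h1
    exact ⟨k, hk⟩
  choose k hk using hk
  obtain rfl : n = fun i => p ^ k i := funext hk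
  have hinj : Function.Injective k := by
    intro s t hst
    by_contra hne
    apply hno
    have hks : 0 < k s := by
      rcases Nat.eq_zero_or_pos (k s) with h | h
      · have := hn s
        simp only [h, pow_zero] at this
        omega
      · exact h
    have hts : t ≠ s := fun h => hne h.symm
    have e2 := e.trans (piSplit2 (fun i => Multiplicative (ZMod (p ^ k i))) hts)
    refine ⟨k s, (∀ j : {j : {j // j ≠ s} // j ≠ ⟨t, hts⟩}, Multiplicative (ZMod (p ^ k j.1.1))),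
      inferInstance, hks, ?_⟩
    have key : ∀ m, k t = m → Nonempty (P ≃* (Multiplicative (ZMod (p ^ k s)) ×
        Multiplicative (ZMod (p ^ m))) ×
        (∀ j : {j : {j // j ≠ s} // j ≠ ⟨t, hts⟩}, Multiplicative (ZMod (p ^ k j.1.1)))) := by
      rintro _ rfl
      exact ⟨e2⟩
    exact key (k s) hst.symm
  exact DD.of_equiv (e.trans (MulEquiv.piMultiplicative _).symm) (dd_mult hp k hinj)

end coordinates

section automorphism

theorem exists_nonresidue_lift {p : ℕ} [Fact p.Prime] (hp2 : p ≠ 2) {n : ℕ} (hn : 0 < n) :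
    ∃ d : ℕ, d ^ (p - 1) ≡ 1 [MOD p ^ n] ∧ ¬ d ^ ((p - 1) / 2) ≡ 1 [MOD p] := by
  have hp : p.Prime := Fact.out
  have hp3 : 3 ≤ p := by
    have := hp.two_le
    omega
  obtain ⟨g, hg⟩ := IsCyclic.exists_generator (α := (ZMod p)ˣ)
  have ho : orderOf g = p - 1 := by
    rw [orderOf_eq_card_of_forall_mem_zpowers hg, Nat.card_eq_fintype_card, ZMod.card_units]
  set a := (g : ZMod p).val with ha
  have hag : ((a : ℕ) : ZMod p) = g := ZMod.natCast_zmod_val _
  have hpa : ¬ p ∣ a := by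
    intro h
    rw [← ZMod.natCast_eq_zero_iff, hag] at h
    exact g.ne_zero h
  refine ⟨a ^ (p ^ (n - 1)), ?_, ?_⟩
  · rw [← pow_mul, ← Nat.totient_prime_pow hp hn]
    exact Nat.ModEq.pow_totient (((Nat.Prime.coprime_iff_not_dvd hp).2 hpa).symm.pow_right n)
  · intro h
    rw [← ZMod.natCast_eq_natCast_iff] at h
    push_cast at h
    rw [hag, ZMod.pow_card_pow] at h
    have h1 : g ^ ((p - 1) / 2) = 1 := by
      apply Units.ext
      rw [Units.val_pow_eq_pow_val, h, Units.val_one]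
    have h2 := orderOf_dvd_of_pow_eq_one h1
    rw [ho] at h2
    have h3 := Nat.le_of_dvd (by omega) h2
    omega

variable {C H : Type*} [CommGroup C] [Group H]

theorem pow_eq_self_of_modEq {q D : ℕ} {x : C} (hx : x ^ q = 1) (hD : D ≡ 1 [MOD q]) :
    x ^ D = x := by
  have h1 : D ≡ 1 [MOD orderOf x] := hD.of_dvd (orderOf_dvd_of_pow_eq_one hx)
  have := pow_eq_pow_iff_modEq.2 h1
  rwa [pow_one] at this

/-- `((x, y), h) ↦ ((y ^ d, x), h)`. -/
def twistAut (q d d' : ℕ) (hC : ∀ x : C, x ^ q = 1) (hd : d * d' ≡ 1 [MOD q]) :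
    MulAut ((C × C) × H) where
  toFun z := ((z.1.2 ^ d, z.1.1), z.2)
  invFun z := ((z.1.2, z.1.1 ^ d'), z.2)
  left_inv := by
    rintro ⟨⟨x, y⟩, h⟩
    simp only
    rw [← pow_mul, pow_eq_self_of_modEq (hC y) hd]
  right_inv := by
    rintro ⟨⟨x, y⟩, h⟩
    simp only
    rw [← pow_mul, mul_comm, pow_eq_self_of_modEq (hC x) hd]
  map_mul' := by
    rintro ⟨⟨x, y⟩, h⟩ ⟨⟨x', y'⟩, h'⟩
    simp only [Prod.mk_mul_mk, mul_pow]

theorem twistAut_sq_pow (q d d' : ℕ) (hC : ∀ x : C, x ^ q = 1) (hd : d * d' ≡ 1 [MOD q]) (j : ℕ)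
    (x y : C) (h : H) :
    ((twistAut (H := H) q d d' hC hd ^ 2) ^ j) ((x, y), h) = ((x ^ (d ^ j), y ^ (d ^ j)), h) := by
  induction j with
  | zero => simp
  | succ j ih =>
    rw [pow_succ', MulAut.mul_apply, ih, pow_two, MulAut.mul_apply]
    show ((((x ^ d ^ j) ^ d), ((y ^ d ^ j) ^ d)), h) = _
    rw [← pow_mul, ← pow_mul, ← pow_succ]

theorem exists_bad_aut_odd {q r d : ℕ} (hr : 0 < r) (hC : ∀ x : C, x ^ q = 1) {c₀ : C}
    (hc₀ : orderOf c₀ = q) (h1 : d ^ (2 * r) ≡ 1 [MOD q]) (h2 : ¬ d ^ r ≡ 1 [MOD q]) :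
    ∃ γ : MulAut ((C × C) × H), γ ^ (2 * (2 * r)) = 1 ∧ γ ^ (2 * r) ≠ 1 := by
  have hd : d * d ^ (2 * r - 1) ≡ 1 [MOD q] := by
    rw [← pow_succ']
    have : 2 * r - 1 + 1 = 2 * r := by omega
    rw [this]
    exact h1
  refine ⟨twistAut q d (d ^ (2 * r - 1)) hC hd, ?_, ?_⟩
  · ext ⟨⟨x, y⟩, h⟩ : 1
    rw [pow_mul, twistAut_sq_pow, pow_eq_self_of_modEq (hC x) h1, pow_eq_self_of_modEq (hC y) h1]
    rfl
  · intro h
    have h3 : (twistAut (H := H) q d (d ^ (2 * r - 1)) hC hd ^ (2 * r)) ((c₀, 1), 1) =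
        (1 : MulAut ((C × C) × H)) ((c₀, 1), 1) := by rw [h]
    rw [pow_mul, twistAut_sq_pow] at h3
    have h4 : c₀ ^ (d ^ r) = c₀ := congrArg (fun z : (C × C) × H => z.1.1) h3
    apply h2
    rw [← hc₀]
    apply pow_eq_pow_iff_modEq.1
    rw [h4, pow_one]

/-- `((x, y), h) ↦ ((y⁻¹, x y⁻¹), h)`, of order three. -/
def threeAut : MulAut ((C × C) × H) where
  toFun z := ((z.1.2⁻¹, z.1.1 * z.1.2⁻¹), z.2)
  invFun z := ((z.1.2 * z.1.1⁻¹, z.1.1⁻¹), z.2)
  left_inv := by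
    rintro ⟨⟨x, y⟩, h⟩
    simp
  right_inv := by
    rintro ⟨⟨x, y⟩, h⟩
    simp
  map_mul' := by
    rintro ⟨⟨x, y⟩, h⟩ ⟨⟨x', y'⟩, h'⟩
    simp only [Prod.mk_mul_mk, mul_inv, Prod.mk.injEq, and_true, true_and]
    exact mul_mul_mul_comm _ _ _ _

theorem exists_bad_aut_two {c₀ : C} (hc₀ : c₀ ≠ 1) :
    ∃ γ : MulAut ((C × C) × H), γ ^ 3 = 1 ∧ γ ≠ 1 := by
  refine ⟨threeAut, ?_, ?_⟩
  · ext ⟨⟨x, y⟩, h⟩ : 1
    show threeAut (threeAut (threeAut ((x, y), h))) = ((x, y), h)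
    simp [threeAut]
  · intro h
    have h3 := congrArg (fun γ : MulAut ((C × C) × H) => γ ((c₀, 1), 1)) h
    have h4 : (1 : C)⁻¹ = c₀ := congrArg (fun z : (C × C) × H => z.1.1) h3
    rw [inv_one] at h4
    exact hc₀ h4.symm

theorem exists_bad_aut (p : ℕ) [Fact p.Prime] {n : ℕ} (hn : 0 < n) (H : Type*) [Group H] :
    ∃ (γ : MulAut ((Multiplicative (ZMod (p ^ n)) × Multiplicative (ZMod (p ^ n))) × H)) (m : ℕ),
      m.Coprime p ∧ γ ^ m = 1 ∧ γ ^ (p - 1) ≠ 1 := by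
  have hp : p.Prime := Fact.out
  have hc₀ : orderOf (Multiplicative.ofAdd (1 : ZMod (p ^ n))) = p ^ n := by
    rw [orderOf_ofAdd_eq_addOrderOf, ZMod.addOrderOf_one]
  have hC : ∀ x : Multiplicative (ZMod (p ^ n)), x ^ (p ^ n) = 1 := by
    intro x
    have := pow_card_eq_one' (x := x)
    rwa [show Nat.card (Multiplicative (ZMod (p ^ n))) = p ^ n from Nat.card_zmod _] at this
  by_cases hp2 : p = 2
  · subst hp2
    have hne : Multiplicative.ofAdd (1 : ZMod (2 ^ n)) ≠ 1 := by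
      intro h
      rw [h, orderOf_one] at hc₀
      have := Nat.one_lt_two_pow hn.ne'
      omega
    obtain ⟨γ, h1, h2⟩ := exists_bad_aut_two (H := H) hne
    exact ⟨γ, 3, by decide, h1, by simpa using h2⟩
  · obtain ⟨d, hd1, hd2⟩ := exists_nonresidue_lift hp2 hn
    have hodd : Odd p := hp.odd_of_ne_two hp2
    obtain ⟨r, hr⟩ := hodd
    have hr0 : 0 < r := by
      have := hp.two_le
      omega
    have e1 : p - 1 = 2 * r := by omega
    have e2 : (p - 1) / 2 = r := by omega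
    rw [e1] at hd1
    rw [e2] at hd2
    have hd2' : ¬ d ^ r ≡ 1 [MOD p ^ n] := fun h => hd2 (h.of_dvd (dvd_pow_self p hn.ne'))
    obtain ⟨γ, h1, h2⟩ := exists_bad_aut_odd (H := H) hr0 hC hc₀ hd1 hd2'
    refine ⟨γ, 2 * (2 * r), ?_, h1, by rw [e1]; exact h2⟩
    have h3 : Nat.Coprime (p - 1) p := by
      have := (Nat.coprime_self_sub_right (n := p) (m := 1) hp.one_lt.le).2 (Nat.coprime_one_right p)
      exact this.symm
    have h4 : Nat.Coprime 2 p := (Nat.coprime_primes Nat.prime_two hp).2 (Ne.symm hp2)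
    rw [← e1]
    exact Nat.Coprime.mul_left h4 h3

end automorphism

end Cfsg.Agent.Lib.Helper64
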