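import Cfsg.Agent.Lib.Helper99.AutPSU.Geom2
import Cfsg.Agent.Lib.Helper50.AutPSUGeom
import Cfsg.Agent.Lib.Helper17.UnitGen5

set_option autoImplicit false
set_option linter.unusedSectionVars false
set_option linter.unusedVariables false

/-!
Rung G of the ladder for the automorphisms of `PSU n F q`: for isotropic `a`, `b` with
`⟪a, b⟫ ≠ 0`, the groups `Q a` and `X b` generate `SU n F q`.
-/

namespace Cfsg.Agent.Lib.Helper64.AutPSUG

open Matrix MatrixGroups Cfsg.Agent.Lib.Helper17 Cfsg.Agent.Lib.Helper99.AutPSU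

variable {F : Type*} [Field F] [Fintype F] {n q : ℕ}

/-- moving a transvection group by an element of a subgroup -/
theorem X_le_of_conj {M : Subgroup ↥(Cfsg.SU n F q)} {s : ↥(Cfsg.SU n F q)} (hs : s ∈ M)
    {c : Fin n → F} (h : X q (mt s *ᵥ c) ≤ M) : X q c ≤ M := by
  intro g hg
  have h1 : s * g * s⁻¹ ∈ M := h (Cfsg.Agent.Lib.Helper50.AutPSUGeom.conj_mem_X s hg)
  have h2 : g = s⁻¹ * (s * g * s⁻¹) * s := by group
  rw [h2]
  exact M.mul_mem (M.mul_mem (M.inv_mem hs) h1) hs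

/-- step 1: isotropic vectors not orthogonal to `a` -/
theorem step1 (hF : Fintype.card F = q ^ 2) {a b : Fin n → F} (hp : HP q a b)
    {c : Fin n → F} (hc : Iso q c) (hca : Cfsg.hermForm n F q c a ≠ 0) :
    X q c ≤ Q q a ⊔ X q b := by
  obtain ⟨μ, hμ⟩ : ∃ μ, μ = Cfsg.hermForm n F q c a := ⟨_, rfl⟩
  have hμ0 : μ ≠ 0 := by rw [hμ]; exact hca
  obtain ⟨c', hc'⟩ : ∃ c', c' = μ⁻¹ • c := ⟨_, rfl⟩
  have hc'a : Cfsg.hermForm n F q c' a = 1 := by
    rw [hc', hermForm_smul_left, ← hμ, inv_mul_cancel₀ hμ0]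
  have hc'0 : Cfsg.hermForm n F q c' c' = 0 := by
    rw [hc', hermForm_smul_left, hermForm_smul_right, hc.2, mul_zero, mul_zero]
  obtain ⟨w, hw⟩ : ∃ w, w = pw q a b c' := ⟨_, rfl⟩
  obtain ⟨k, hk⟩ : ∃ k, k = Cfsg.hermForm n F q c' b := ⟨_, rfl⟩
  have hwa : Cfsg.hermForm n F q w a = 0 := by rw [hw]; exact pw_a hF hp c'
  have hwb : Cfsg.hermForm n F q w b = 0 := by rw [hw]; exact pw_b hF hp c'
  have hdec : c' = b + w + k • a := by
    have := decomp (q := q) a b c'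
    rw [hc'a, ← hk, ← hw, one_smul] at this
    rw [this]; abel
  have hkk : k + k ^ q + Cfsg.hermForm n F q w w = 0 := by
    have h1 := hc'0
    rw [hdec] at h1
    simp only [hermForm_add_left, hermForm_add_right hF, hermForm_smul_left, hermForm_smul_right,
      hp.a0, hp.b0, hp.ab, hp.ba hF, hwa, hwb, herm_zero_comm hF hwa, herm_zero_comm hF hwb] at h1
    linear_combination h1
  obtain ⟨g, hgQ, hgb⟩ := exists_Q hF hp w k hwa hwb hkk
  have hXc : X q c = X q c' := by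
    rw [hc', Cfsg.Agent.Lib.Helper99.AutPSU.X_smul (inv_ne_zero hμ0)]
  rw [hXc]
  have hg' : g⁻¹ ∈ Q q a ⊔ X q b := (Q q a ⊔ X q b).inv_mem (Subgroup.mem_sup_left hgQ)
  apply X_le_of_conj hg'
  rw [hdec, ← hgb, mt_inv_mulVec]
  exact le_sup_right

/-- an isotropic vector orthogonal neither to `a` nor to `c` -/
theorem exists_d (hF : Fintype.card F = q ^ 2) {a b : Fin n → F} (hp : HP q a b)
    {c : Fin n → F} (hc : c ≠ 0) (hca : Cfsg.hermForm n F q c a = 0) :
    ∃ d, Iso q d ∧ Cfsg.hermForm n F q d a ≠ 0 ∧ Cfsg.hermForm n F q c d ≠ 0 := by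
  by_cases hcb : Cfsg.hermForm n F q c b = 0
  · obtain ⟨z, hz⟩ : ∃ z, Cfsg.hermForm n F q c z ≠ 0 := by
      by_contra hcon
      push Not at hcon
      exact hc (hermForm_left_eq_zero hF n c hcon)
    obtain ⟨w, hw⟩ : ∃ w, w = pw q a b z := ⟨_, rfl⟩
    have hwa : Cfsg.hermForm n F q w a = 0 := by rw [hw]; exact pw_a hF hp z
    have hwb : Cfsg.hermForm n F q w b = 0 := by rw [hw]; exact pw_b hF hp z
    have hcw : Cfsg.hermForm n F q c w ≠ 0 := by
      rw [hw, pw, hermForm_sub_right hF, hermForm_sub_right hF, hermForm_smul_right,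
        hermForm_smul_right, hca, hcb, mul_zero, mul_zero, sub_zero, sub_zero]
      exact hz
    obtain ⟨k, hk⟩ := exists_trace_eq hF (-(Cfsg.hermForm n F q w w)) (by
      rw [neg_pow_q hF, hermForm_conj hF])
    obtain ⟨g, hgQ, hgb⟩ := exists_Q hF hp w k hwa hwb (by rw [hk]; ring)
    refine ⟨mt g *ᵥ b, Cfsg.Agent.Lib.Helper50.AutPSUGeom.iso_mulVec g (hp.isoB hF), ?_, ?_⟩
    · have h1 := mt_herm g b a
      rw [hgQ.1, hp.ba hF] at h1
      rw [h1]; exact one_ne_zero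
    · rw [hgb, hermForm_add_right hF, hermForm_add_right hF, hermForm_smul_right, hca, hcb,
        mul_zero, add_zero, zero_add]
      exact hcw
  · exact ⟨b, hp.isoB hF, by rw [hp.ba hF]; exact one_ne_zero, hcb⟩

/-- every transvection group lies in `Q a ⊔ X b` -/
theorem X_le (hF : Fintype.card F = q ^ 2) {a b : Fin n → F} (hp : HP q a b)
    {c : Fin n → F} (hc : Iso q c) : X q c ≤ Q q a ⊔ X q b := by
  by_cases hca : Cfsg.hermForm n F q c a = 0
  · obtain ⟨d, hd, hda, hcd⟩ := exists_d hF hp hc.1 hca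
    obtain ⟨l, hl0, hl⟩ := exists_trace_zero hF
    obtain ⟨t, htX, ht⟩ := exists_X hF hd.2 l (by rw [hl]; ring)
    have htM : t ∈ Q q a ⊔ X q b := step1 hF hp hd hda htX
    apply X_le_of_conj htM
    apply step1 hF hp (Cfsg.Agent.Lib.Helper50.AutPSUGeom.iso_mulVec t hc)
    rw [ht, hermForm_add_left, hermForm_smul_left, hca, zero_add]
    exact mul_ne_zero (mul_ne_zero hl0 hcd) hda
  · exact step1 hF hp hc hca

theorem gen_of_HP (hF : Fintype.card F = q ^ 2) (h32 : ¬(n = 3 ∧ q = 2)) {a b : Fin n → F}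
    (hp : HP q a b) : Q q a ⊔ X q b = ⊤ := by
  rw [eq_top_iff, ← TU_eq_top hF n h32, TU, Subgroup.closure_le]
  rintro A ⟨v, c, hv, hA⟩
  by_cases hv0 : v = 0
  · have : A = 1 := by
      apply Cfsg.Agent.Lib.Helper99.AutPSU.su_ext'
      intro x
      show ((A : Matrix.SpecialLinearGroup (Fin n) F) : Matrix (Fin n) (Fin n) F) *ᵥ x = _
      rw [hA, unitaryTransvection_mulVec, hv0, smul_zero, add_zero, mt_one, one_mulVec]
    rw [this]
    exact Subgroup.one_mem _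
  · apply X_le hF hp ⟨hv0, hv⟩
    intro x hx
    show ((A : Matrix.SpecialLinearGroup (Fin n) F) : Matrix (Fin n) (Fin n) F) *ᵥ x = _
    rw [hA, unitaryTransvection_mulVec, hx, mul_zero, zero_smul, add_zero]

/-- RUNG G -/
theorem genStmt (hF : Fintype.card F = q ^ 2) (hn : 3 ≤ n) (h32 : ¬(n = 3 ∧ q = 2)) :
    GenStmt n F q := by
  intro a b ha hb hab
  obtain ⟨ν, hν⟩ : ∃ ν, ν = ((Cfsg.hermForm n F q a b)⁻¹) ^ q := ⟨_, rfl⟩
  have hν0 : ν ≠ 0 := by rw [hν]; exact pow_ne_zero _ (inv_ne_zero hab)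
  have hp : HP q a (ν • b) := by
    refine ⟨ha.2, ?_, ?_⟩
    · rw [hermForm_smul_left, hermForm_smul_right, hb.2, mul_zero, mul_zero]
    · rw [hermForm_smul_right, hν, pow_q_pow_q hF, inv_mul_cancel₀ hab]
  have := gen_of_HP hF h32 hp
  rwa [Cfsg.Agent.Lib.Helper99.AutPSU.X_smul hν0] at this

end Cfsg.Agent.Lib.Helper64.AutPSUG
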