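import Cfsg.Agent.Lib.Helper64.BalOMXG

set_option autoImplicit false

/-! BAL-OM ladder: common part of the rungs C1H, C1R (eigenspaces of an orthogonal involution). -/

namespace Cfsg.Agent.Lib.Helper64.BalOM

open QuadraticMap Module Cfsg.Agent.Lib.Helper49 Cfsg.Agent.Lib.Helper95
  Cfsg.Agent.Lib.Helper95.AutO Cfsg.Agent.Lib.Helper95.BalOM

variable {k W : Type*} [Field k] [AddCommGroup W] [Module k W] {Q : QuadraticForm k W}

/-- the `ε`-eigenspace -/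
def c1E (g : W ≃ₗ[k] W) (ε : k) : Submodule k W :=
  LinearMap.ker ((g : W →ₗ[k] W) - ε • LinearMap.id)

theorem mem_c1E {g : W ≃ₗ[k] W} {ε : k} {v : W} : v ∈ c1E g ε ↔ g v = ε • v := by
  simp [c1E, sub_eq_zero]

theorem eigP_eq_c1E (g : W ≃ₗ[k] W) : eigP g = c1E g 1 := by
  ext v; rw [mem_eigP, mem_c1E, one_smul]

theorem eigM_eq_c1E (g : W ≃ₗ[k] W) : eigM g = c1E g (-1) := by
  ext v; rw [mem_eigM, mem_c1E, neg_one_smul]

theorem c1_gg {g : ↥(OG Q)} (hg : g * g = 1) (v : W) : g.1 (g.1 v) = v := by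
  have : (g * g).1 v = v := by rw [hg]; rfl
  exact this

/-- the `ε`-component (times two) -/
theorem c1_proj_mem {g : ↥(OG Q)} (hg : g * g = 1) {ε : k} (hε : ε * ε = 1) (u : W) :
    u + ε • g.1 u ∈ c1E g.1 ε := by
  rw [mem_c1E, map_add, map_smul, c1_gg hg, smul_add, smul_smul, hε, one_smul, add_comm]

theorem c1_decomp (h2 : (2 : k) ≠ 0) (g : ↥(OG Q)) (ε : k) (u : W) :
    u = (2 : k)⁻¹ • (u + ε • g.1 u) + (2 : k)⁻¹ • (u + (-ε) • g.1 u) := by
  have : (2 : k)⁻¹ • (u + ε • g.1 u) + (2 : k)⁻¹ • (u + (-ε) • g.1 u) = ((2 : k)⁻¹ * 2) • u := by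
    module
  rw [this, inv_mul_cancel₀ h2, one_smul]

theorem c1_ortho (h2 : (2 : k) ≠ 0) (g : ↥(OG Q)) {ε : k} (hε : ε * ε = 1) {v u : W}
    (hv : v ∈ c1E g.1 ε) (hu : u ∈ c1E g.1 (-ε)) : polar Q v u = 0 := by
  have h := OG_polar Q g v u
  rw [mem_c1E.1 hv, mem_c1E.1 hu, polar_smul_left, polar_smul_right, smul_eq_mul, smul_eq_mul] at h
  have h3 : 2 * polar Q v u = 0 := by linear_combination (-1 : k) * h - polar Q v u * hε
  exact (mul_eq_zero.1 h3).resolve_left h2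

theorem c1_nd (h2 : (2 : k) ≠ 0) (hQ : (polarBilin Q).Nondegenerate) {g : ↥(OG Q)}
    (hg : g * g = 1) {ε : k} (hε : ε * ε = 1) :
    c1E g.1 ε ⊓ LinearMap.BilinForm.orthogonal (polarBilin Q) (c1E g.1 ε) = ⊥ := by
  rw [eq_bot_iff]
  intro v hv
  obtain ⟨hv1, hv2⟩ := Submodule.mem_inf.1 hv
  rw [LinearMap.BilinForm.mem_orthogonal_iff] at hv2
  rw [Submodule.mem_bot]
  by_contra hv0
  obtain ⟨y, hy⟩ := qexists_dual Q hQ hv0
  have hε' : (-ε) * (-ε) = 1 := by rw [neg_mul_neg, hε]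
  rw [c1_decomp h2 g ε y, polar_add_right, polar_smul_right, polar_smul_right,
    c1_ortho h2 g hε hv1 (c1_proj_mem hg hε' y)] at hy
  have h3 : polar Q (y + ε • g.1 y) v = 0 := hv2 _ (c1_proj_mem hg hε y)
  rw [polar_comm, h3] at hy
  simp at hy

/-- the orthogonal complement of an eigenspace is the other one -/
theorem c1_mem_of_ortho (h2 : (2 : k) ≠ 0) (hQ : (polarBilin Q).Nondegenerate) {g : ↥(OG Q)}
    (hg : g * g = 1) {ε : k} (hε : ε * ε = 1) {z : W}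
    (hz : ∀ u ∈ c1E g.1 ε, polar Q u z = 0) : z ∈ c1E g.1 (-ε) := by
  have hε' : (-ε) * (-ε) = 1 := by rw [neg_mul_neg, hε]
  have h1 : z + ε • g.1 z ∈ c1E g.1 ε ⊓
      LinearMap.BilinForm.orthogonal (polarBilin Q) (c1E g.1 ε) := by
    refine Submodule.mem_inf.2 ⟨c1_proj_mem hg hε z, ?_⟩
    rw [LinearMap.BilinForm.mem_orthogonal_iff]
    intro u hu
    show polar Q u (z + ε • g.1 z) = 0
    have e : z + ε • g.1 z = (2 : k) • z - (z + (-ε) • g.1 z) := by module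
    rw [e, polar_sub_right, polar_smul_right, hz u hu, c1_ortho h2 g hε hu (c1_proj_mem hg hε' z)]
    simp
  rw [c1_nd h2 hQ hg hε, Submodule.mem_bot] at h1
  rw [mem_c1E]
  have : ε • (z + ε • g.1 z) = 0 := by rw [h1, smul_zero]
  rw [smul_add, smul_smul, hε, one_smul] at this
  rw [neg_smul]
  exact eq_neg_of_add_eq_zero_right this

theorem c1_comm_of_conj {g t : ↥(OG Q)} (h : g * t * g⁻¹ = t) (v : W) :
    t.1 (g.1 v) = g.1 (t.1 v) := by
  have h1 : g * t = t * g := mul_inv_eq_iff_eq_mul.1 h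
  have : (t * g).1 v = (g * t).1 v := by rw [h1]
  exact this

theorem c1_si_comm (g : ↥(OG Q)) {ε : k} (hε : ε * ε = 1) {e w : W}
    (he : e ∈ c1E g.1 ε) (hw : w ∈ c1E g.1 ε) (v : W) :
    (si Q e w).1 (g.1 v) = g.1 ((si Q e w).1 v) := by
  by_cases h : Q e = 0 ∧ polar Q e w = 0
  · apply c1_comm_of_conj
    rw [si_conj, mem_c1E.1 he, mem_c1E.1 hw,
      si_smul_left h.1 (by rw [polar_smul_right, h.2, smul_zero]), smul_smul, hε, one_smul]
  · rw [si, dif_neg h]; rfl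

theorem c1_refl_comm (g : ↥(OG Q)) {ε : k} (hε : ε * ε = 1) {u : W}
    (hu : u ∈ c1E g.1 ε) (v : W) :
    (refl Q u).1 (g.1 v) = g.1 ((refl Q u).1 v) := by
  apply c1_comm_of_conj
  rw [refl_conj, mem_c1E.1 hu, refl_smul Q u (left_ne_zero_of_mul_eq_one hε)]

theorem c1_map_mem {g : W ≃ₗ[k] W} {ε : k} {x : W → W} (hx : ∀ v, x (g v) = g (x v))
    (hsm : ∀ v, x (ε • v) = ε • x v) {v : W} (hv : v ∈ c1E g ε) : x v ∈ c1E g ε := by
  rw [mem_c1E, ← hx, mem_c1E.1 hv, hsm]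

/-- a non-zero non-degenerate subspace contains a non-singular vector -/
theorem c1_nonsing (X : Submodule k W)
    (hX : X ⊓ LinearMap.BilinForm.orthogonal (polarBilin Q) X = ⊥) {v : W} (hv : v ∈ X)
    (hv0 : v ≠ 0) : ∃ w ∈ X, Q w ≠ 0 := by
  obtain ⟨f, hf, hvf⟩ := xg_exists_ne X hX hv hv0
  by_cases h1 : Q v = 0
  · by_cases h3 : Q f = 0
    · refine ⟨v + f, X.add_mem hv hf, ?_⟩
      rw [qmap_add, h1, h3, zero_add, zero_add]; exact hvf
    · exact ⟨f, hf, h3⟩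
  · exact ⟨v, hv, h1⟩

end Cfsg.Agent.Lib.Helper64.BalOM
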