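import Cfsg.Agent.Lib.Helper64.BalOMC1
import Cfsg.Agent.Lib.Helper64.BalOMRR

set_option autoImplicit false

/-! BAL-OM ladder, rung C1R. -/

namespace Cfsg.Agent.Lib.Helper64.BalOM

open QuadraticMap Module Cfsg.Agent.Lib.Helper49 Cfsg.Agent.Lib.Helper95
  Cfsg.Agent.Lib.Helper95.AutO Cfsg.Agent.Lib.Helper95.BalOM

variable {k W : Type*} [Field k] [Fintype k] [AddCommGroup W] [Module k W] [FiniteDimensional k W]
  {Q : QuadraticForm k W}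

omit [Fintype k] [FiniteDimensional k W] in
theorem c1r_polar {Ψ : W → W} {τ : k ≃+* k} {e : k} (hadd : ∀ x y, Ψ (x + y) = Ψ x + Ψ y)
    (hQΨ : ∀ v, Q (Ψ v) = e * τ (Q v)) (u v : W) :
    polar Q (Ψ u) (Ψ v) = e * τ (polar Q u v) := by
  simp only [polar, ← hadd, hQΨ, map_sub]
  ring

theorem c1r_big (h2 : (2 : k) ≠ 0) (hQ : (polarBilin Q).Nondegenerate) (hd : 5 ≤ finrank k W)
    (g : ↥(OG Q)) (hg : g * g = 1) {ε : k} (hε : ε * ε = 1) (h3 : 3 ≤ finrank k (c1E g.1 ε))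
    {Ψ : W → W} {τ : k ≃+* k} {e : k} (he : e ≠ 0) (hadd : ∀ x y, Ψ (x + y) = Ψ x + Ψ y)
    (hsemi : ∀ (a : k) v, Ψ (a • v) = τ a • Ψ v) (hQΨ : ∀ v, Q (Ψ v) = e * τ (Q v))
    (hcomm : ∀ t ∈ commutator ↥(OG Q), (∀ v, t.1 (g.1 v) = g.1 (t.1 v)) →
      ∀ v, Ψ (t.1 v) = t.1 (Ψ v)) :
    ∃ φ : k, φ * φ = e ∧ τ = 1 ∧ ∀ v ∈ c1E g.1 ε, Ψ v = φ • v := by
  have hX := c1_nd h2 hQ hg hε
  obtain ⟨φ, hφ⟩ := rr h2 _ hX h3 Ψ hadd (fun e' he' w hw _ _ x =>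
    hcomm _ (si_mem_commutator hQ hd e' w) (c1_si_comm g hε he' hw) x)
  obtain ⟨c, hcX, hc0, -⟩ := xg_sing (Q := Q) _ h3
  obtain ⟨w, hwX, hQw⟩ := c1_nonsing _ hX hcX hc0
  have hw0 : w ≠ 0 := by
    intro h; apply hQw; rw [h, QuadraticMap.map_zero]
  have h1 := hQΨ w
  rw [hφ w hwX, QuadraticMap.map_smul, smul_eq_mul] at h1
  have hτQ : τ (Q w) ≠ 0 := by
    intro h; exact hQw ((map_eq_zero τ).1 h)
  have hφ0 : φ ≠ 0 := by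
    intro h
    rw [h, zero_mul, zero_mul] at h1
    exact (mul_ne_zero he hτQ) h1.symm
  have hτ : ∀ a, τ a = a := by
    intro a
    have e1 := hsemi a w
    rw [hφ w hwX, hφ _ (Submodule.smul_mem _ a hwX), smul_smul, smul_smul] at e1
    have e2 : φ * a = τ a * φ := smul_left_injective k hw0 e1
    exact mul_right_cancel₀ hφ0 (by rw [← e2, mul_comm])
  refine ⟨φ, ?_, RingEquiv.ext hτ, hφ⟩
  rw [hτ] at h1
  exact mul_right_cancel₀ hQw h1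

theorem c1r_other (h2 : (2 : k) ≠ 0) (hQ : (polarBilin Q).Nondegenerate) (hd : 5 ≤ finrank k W)
    (g : ↥(OG Q)) (hg : g * g = 1) {ε : k} (hε : ε * ε = 1)
    (hdim : finrank k (c1E g.1 (-ε)) ≠ 2)
    {Ψ : W → W} {τ : k ≃+* k} {e : k} (he : e ≠ 0) (hadd : ∀ x y, Ψ (x + y) = Ψ x + Ψ y)
    (hsemi : ∀ (a : k) v, Ψ (a • v) = τ a • Ψ v) (hQΨ : ∀ v, Q (Ψ v) = e * τ (Q v))
    (hcomm : ∀ t ∈ commutator ↥(OG Q), (∀ v, t.1 (g.1 v) = g.1 (t.1 v)) →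
      ∀ v, Ψ (t.1 v) = t.1 (Ψ v))
    (hτ : ∀ a, τ a = a) {φ : k} (hφe : φ * φ = e) (hφ : ∀ v ∈ c1E g.1 ε, Ψ v = φ • v) :
    ∃ φ' : k, φ' * φ' = e ∧ ∀ v ∈ c1E g.1 (-ε), Ψ v = φ' • v := by
  have hε' : (-ε) * (-ε) = 1 := by rw [neg_mul_neg, hε]
  have hX' := c1_nd h2 hQ hg hε'
  have hφ0 : φ ≠ 0 := by
    intro h; rw [h, zero_mul] at hφe; exact he hφe.symm
  rcases (by omega : finrank k (c1E g.1 (-ε)) = 0 ∨ finrank k (c1E g.1 (-ε)) = 1 ∨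
    3 ≤ finrank k (c1E g.1 (-ε))) with h0 | h1 | h3
  · have hbot : c1E g.1 (-ε) = ⊥ := Submodule.finrank_eq_zero.1 h0
    refine ⟨φ, hφe, fun v hv => ?_⟩
    rw [hbot, Submodule.mem_bot] at hv
    have := hsemi 0 0
    rw [zero_smul, map_zero, zero_smul] at this
    rw [hv, this, smul_zero]
  · obtain ⟨v0, hv0, hspan⟩ := finrank_eq_one_iff'.1 h1
    have hv0' : v0.1 ≠ 0 := fun h => hv0 (Subtype.ext h)
    have hmem : Ψ v0.1 ∈ c1E g.1 (-ε) := by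
      apply c1_mem_of_ortho h2 hQ hg hε
      intro u hu
      have h5 := c1r_polar hadd hQΨ u v0.1
      rw [c1_ortho h2 g hε hu v0.2, map_zero, mul_zero, hφ u hu, polar_smul_left, smul_eq_mul] at h5
      exact (mul_eq_zero.1 h5).resolve_left hφ0
    obtain ⟨φ', hφ'⟩ := hspan ⟨Ψ v0.1, hmem⟩
    have hφ'' : φ' • v0.1 = Ψ v0.1 := congrArg Subtype.val hφ'
    have hall : ∀ v ∈ c1E g.1 (-ε), Ψ v = φ' • v := by
      intro v hv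
      obtain ⟨a, ha⟩ := hspan ⟨v, hv⟩
      have ha' : a • v0.1 = v := congrArg Subtype.val ha
      rw [← ha', hsemi, hτ, ← hφ'', smul_comm]
    refine ⟨φ', ?_, hall⟩
    obtain ⟨w, hwX, hQw⟩ := c1_nonsing _ hX' v0.2 hv0'
    have h5 := hQΨ w
    rw [hall w hwX, QuadraticMap.map_smul, smul_eq_mul, hτ] at h5
    exact mul_right_cancel₀ hQw h5
  · obtain ⟨φ', h5, -, h6⟩ := c1r_big h2 hQ hd g hg hε' h3 he hadd hsemi hQΨ hcomm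
    exact ⟨φ', h5, h6⟩

theorem c1r_main (h2 : (2 : k) ≠ 0) (hQ : (polarBilin Q).Nondegenerate) (hd : 5 ≤ finrank k W)
    (g : ↥(OG Q)) (hg : g * g = 1) {ε : k} (hε : ε * ε = 1) (h3 : 3 ≤ finrank k (c1E g.1 ε))
    (hdim : finrank k (c1E g.1 (-ε)) ≠ 2)
    {Ψ : W → W} {τ : k ≃+* k} {e : k} (he : e ≠ 0) (hadd : ∀ x y, Ψ (x + y) = Ψ x + Ψ y)
    (hsemi : ∀ (a : k) v, Ψ (a • v) = τ a • Ψ v) (hQΨ : ∀ v, Q (Ψ v) = e * τ (Q v))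
    (hcomm : ∀ t ∈ commutator ↥(OG Q), (∀ v, t.1 (g.1 v) = g.1 (t.1 v)) →
      ∀ v, Ψ (t.1 v) = t.1 (Ψ v)) :
    τ = 1 ∧ ∃ φ : k, (∀ v, Ψ v = φ • v) ∨ (∀ v, Ψ v = φ • g.1 v) := by
  have hε' : (-ε) * (-ε) = 1 := by rw [neg_mul_neg, hε]
  obtain ⟨φ, hφe, hτ1, hφ⟩ := c1r_big h2 hQ hd g hg hε h3 he hadd hsemi hQΨ hcomm
  have hτ : ∀ a, τ a = a := fun a => by rw [hτ1]; rfl
  obtain ⟨φ', hφ'e, hφ'⟩ := c1r_other h2 hQ hd g hg hε hdim he hadd hsemi hQΨ hcomm hτ hφe hφ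
  refine ⟨hτ1, ?_⟩
  have hΨ : ∀ v, Ψ v = φ • (2 : k)⁻¹ • (v + ε • g.1 v) + φ' • (2 : k)⁻¹ • (v + (-ε) • g.1 v) := by
    intro v
    conv_lhs => rw [c1_decomp h2 g ε v]
    rw [hadd, hφ _ (Submodule.smul_mem _ _ (c1_proj_mem hg hε v)),
      hφ' _ (Submodule.smul_mem _ _ (c1_proj_mem hg hε' v))]
  have hprod : (φ' - φ) * (φ' + φ) = 0 := by linear_combination hφ'e - hφe
  rcases mul_eq_zero.1 hprod with h | h
  · have h' : φ' = φ := sub_eq_zero.1 h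
    refine ⟨φ, Or.inl fun v => ?_⟩
    rw [hΨ, h', ← smul_add, ← c1_decomp h2 g ε v]
  · have h' : φ' = -φ := eq_neg_of_add_eq_zero_left h
    refine ⟨φ * ε, Or.inr fun v => ?_⟩
    rw [hΨ, h']
    have : φ • (2 : k)⁻¹ • (v + ε • g.1 v) + -φ • (2 : k)⁻¹ • (v + (-ε) • g.1 v) =
        (φ * ε * ((2 : k)⁻¹ * 2)) • g.1 v := by module
    rw [this, inv_mul_cancel₀ h2, mul_one]

theorem caseI_AR (h2 : (2 : k) ≠ 0) (hQ : (polarBilin Q).Nondegenerate) (hd : 5 ≤ finrank k W)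
    (g : ↥(OG Q)) (hg : g * g = 1)
    (hp : finrank k (eigP g.1) ≠ 2) (hm : finrank k (eigM g.1) ≠ 2) : AR Q g.1 := by
  intro Ψ τ e he hadd hsemi hQΨ hcomm
  rw [eigP_eq_c1E] at hp
  rw [eigM_eq_c1E] at hm
  have h1 : (1 : k) * 1 = 1 := one_mul 1
  have h1' : (-1 : k) * (-1) = 1 := by rw [neg_mul_neg, one_mul]
  have htop : c1E g.1 1 ⊔ c1E g.1 (-1) = ⊤ := by
    rw [eq_top_iff]
    intro v _
    rw [c1_decomp h2 g 1 v]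
    exact Submodule.add_mem_sup (Submodule.smul_mem _ _ (c1_proj_mem hg h1 v))
      (Submodule.smul_mem _ _ (c1_proj_mem hg h1' v))
  have hsum : finrank k W ≤ finrank k (c1E g.1 1) + finrank k (c1E g.1 (-1)) := by
    rw [← finrank_top k W, ← htop]
    exact Submodule.finrank_add_le_finrank_add_finrank _ _
  by_cases h3 : 3 ≤ finrank k (c1E g.1 1)
  · exact c1r_main h2 hQ hd g hg h1 h3 hm he hadd hsemi hQΨ hcomm
  · have h3' : 3 ≤ finrank k (c1E g.1 (-1)) := by omega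
    exact c1r_main h2 hQ hd g hg h1' h3' (by rw [neg_neg]; exact hp) he hadd hsemi hQΨ hcomm

end Cfsg.Agent.Lib.Helper64.BalOM
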