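import Cfsg.Agent.Lib.Helper95.BalOM.Defs
import Cfsg.Agent.Lib.Helper49.GamO4
import Cfsg.Agent.Lib.Helper49.GamO6
import Cfsg.Agent.Lib.Helper49.GamO7
import Cfsg.Agent.Lib.Helper49.GamO11
import Cfsg.Agent.Lib.Helper49.StdForms
import Cfsg.Agent.Lib.Helper49.HypPairs
import Cfsg.Agent.Lib.Helper49.RankParity

set_option autoImplicit false

/-! BAL-OM ladder, rung CLSA: an involution of `Aut(PΩ⁻)` involves no field automorphism. -/

namespace Cfsg.Agent.Lib.Helper64.BalOM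

open QuadraticMap Module Matrix Cfsg.Agent.Lib.Helper49 Cfsg.Agent.Lib.Helper95
  Cfsg.Agent.Lib.Helper95.AutO

variable {F : Type*} [Field F] [Fintype F]

omit [Fintype F] in
theorem clsa_pow_apply (φ : F ≃+* F) (p : ℕ) (hφ : ∀ x, φ x = x ^ p) (n : ℕ) (t : F) :
    (φ ^ n) t = t ^ (p ^ n) := by
  induction n generalizing t with
  | zero => simp
  | succ n ih =>
    rw [pow_succ', RingAut.mul_apply, ih, hφ, ← pow_mul, pow_succ]

/-- an involutory automorphism of a finite field is `t ↦ t ^ q₀` with `q = q₀ ^ 2` -/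
theorem clsa_field (σ : F ≃+* F) (hσσ : σ * σ = 1) (hσ : σ ≠ 1) :
    ∃ q₀ : ℕ, Fintype.card F = q₀ ^ 2 ∧ ∀ t, σ t = t ^ q₀ := by
  obtain ⟨p, _, f, hp, hF⟩ := FiniteField.card' F
  have : Fact p.Prime := ⟨hp⟩
  obtain ⟨φ, hφ, hord, hall, -⟩ := exists_frob (F := F) hF
  obtain ⟨j, hj⟩ := hall σ
  have hj' : σ = φ ^ (j % (f : ℕ)) := by rw [hj, ← hord, pow_mod_orderOf]
  set j' := j % (f : ℕ) with hj'd
  have hlt : j' < (f : ℕ) := Nat.mod_lt _ f.pos
  have hne : j' ≠ 0 := by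
    intro h0
    rw [h0, pow_zero] at hj'
    exact hσ hj'
  have hdvd : (f : ℕ) ∣ j' + j' := by
    rw [← hord]
    apply orderOf_dvd_of_pow_eq_one
    rw [pow_add, ← hj', hσσ]
  have h2j : j' + j' = (f : ℕ) := by
    obtain ⟨r, hr⟩ := hdvd
    have hr1 : r = 1 := by
      rcases r with _ | _ | r
      · omega
      · rfl
      · exfalso
        have : (f : ℕ) * (r + 1 + 1) = (f : ℕ) * r + f + f := by ring
        have h0 : 0 ≤ (f : ℕ) * r := Nat.zero_le _
        omega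
    rw [hr, hr1, mul_one]
  refine ⟨p ^ j', ?_, fun t => ?_⟩
  · rw [hF, ← h2j, pow_add, pow_two]
  · rw [hj', clsa_pow_apply φ p hφ]

theorem clsa_gen {ι : Type} [Fintype ι] [DecidableEq ι] (Q : QuadraticForm F (ι → F))
    (h2 : (2 : F) ≠ 0) (hQ : (polarBilin Q).Nondegenerate) (hd : 7 ≤ Fintype.card ι) (n : ℕ)
    (hcard : Fintype.card ι = 2 * n) (y : ↥(GamO ⇑Q)) (hy : cGam ⇑Q y ^ 2 = 1)
    (hσ : y.1.right ≠ 1) : IsSquare (gramM Q).det ∧ IsSquare (-1 : F) := by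
  obtain ⟨hr, l, hl⟩ := ker_cGam Q hQ hd (y ^ 2) (by rw [map_pow]; exact hy)
  have hyy : (y ^ 2).1 = y.1 * y.1 := by rw [pow_two]; rfl
  rw [hyy] at hr hl
  rw [SemidirectProduct.mul_right] at hr
  obtain ⟨q₀, hq, hσq⟩ := clsa_field y.1.right hr hσ
  obtain ⟨c, hc⟩ := (mem_GamO ⇑Q).1 y.2
  -- (1)
  have e1 := det_sq_mul Q y.1 c hc
  -- (2)
  have e2 := det_mul_left y.1 y.1
  rw [hl, Matrix.det_smul, Matrix.det_one, mul_one] at e2
  -- (3)
  have e3 : (c : F) * y.1.right c = (l : F) ^ 2 := by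
    obtain ⟨z, -, hz⟩ := qexists_perp_nonsing Q hQ (![] : Fin 0 → _)
      (by rw [Module.finrank_fintype_fun_eq_card]; omega)
    have h1 : semiFun (y.1 * y.1) z = (l : F) • z := by
      unfold semiFun
      rw [hl, SemidirectProduct.mul_right, hr]
      simp [Matrix.smul_mulVec]
    have h3 : Q (semiFun (y.1 * y.1) z) = (c : F) * y.1.right c * Q z := by
      rw [semiFun_mul, hc, hc, map_mul]
      have : y.1.right (y.1.right (Q z)) = Q z := by
        have : (y.1.right * y.1.right) (Q z) = Q z := by rw [hr]; rfl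
        exact this
      rw [this, mul_assoc]
    rw [h1, QuadraticMap.map_smul, smul_eq_mul] at h3
    have := mul_right_cancel₀ hz h3
    rw [← this, pow_two]
  set D := ((y.1.left : GL ι F) : Matrix ι ι F).det with hD
  set Δ := (gramM Q).det with hΔ
  have hΔ0 : Δ ≠ 0 := gram_std_det_ne_zero Q hQ
  have hl0 : (l : F) ≠ 0 := l.ne_zero
  rw [hσq] at e1 e2 e3
  rw [hcard] at e1 e2
  -- parity
  have hchar : ringChar F ≠ 2 := by
    intro h
    have : CharP F 2 := ringChar.of_eq h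
    exact h2 (CharTwo.two_eq_zero)
  have hodd := FiniteField.odd_card_of_char_ne_two hchar
  have hq₀ : Odd q₀ := by
    rcases Nat.even_or_odd q₀ with he | ho
    · exfalso
      have : Even (q₀ ^ 2) := Nat.even_pow.2 ⟨he, two_ne_zero⟩
      rw [← hq] at this
      have := Nat.even_iff.1 this
      omega
    · exact ho
  obtain ⟨r, hr'⟩ := hq₀
  subst hr'
  have hhalf : Fintype.card F / 2 = 2 * r * (r + 1) := by
    have : (2 * r + 1) ^ 2 = 2 * (2 * r * (r + 1)) + 1 := by ring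
    rw [hq, this]; omega
  have hmod4 : Fintype.card F % 4 ≠ 3 := by
    have : (2 * r + 1) ^ 2 = 4 * (r * (r + 1)) + 1 := by ring
    rw [hq, this]; omega
  -- the computation
  have f2 : D ^ (2 * (r + 1)) = (l : F) ^ (2 * n) := by
    rw [e2]; ring
  have f3 : (c : F) ^ (2 * (r + 1)) = (l : F) ^ 2 := by
    rw [← e3]; ring
  have f1 : (D ^ 2 * Δ) ^ (r + 1) = ((c : F) ^ (2 * n) * Δ ^ (2 * r + 1)) ^ (r + 1) := by
    rw [e1]
  have g1 : (D ^ 2 * Δ) ^ (r + 1) = (l : F) ^ (2 * n) * Δ ^ (r + 1) := by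
    rw [← f2]; ring
  have g2 : ((c : F) ^ (2 * n) * Δ ^ (2 * r + 1)) ^ (r + 1) =
      (l : F) ^ (2 * n) * (Δ ^ (r + 1) * Δ ^ (2 * r * (r + 1))) := by
    have : (l : F) ^ (2 * n) = ((c : F) ^ (2 * (r + 1))) ^ n := by
      rw [f3, ← pow_mul]
    rw [this]; ring
  rw [g1, g2] at f1
  have f4 := mul_left_cancel₀ (pow_ne_zero _ hl0) f1
  have f5 : Δ ^ (2 * r * (r + 1)) = 1 := by
    have : Δ ^ (r + 1) * 1 = Δ ^ (r + 1) * Δ ^ (2 * r * (r + 1)) := by rw [mul_one]; exact f4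
    exact (mul_left_cancel₀ (pow_ne_zero _ hΔ0) this).symm
  exact ⟨(FiniteField.isSquare_iff hchar hΔ0).2 (by rw [hhalf]; exact f5),
    FiniteField.isSquare_neg_one_iff.2 hmod4⟩

theorem sigma_eq_one (h2 : (2 : F) ≠ 0) {m : ℕ} (hm : 3 ≤ m) (a b : F)
    (hab : ∀ z₁ z₂ : F, z₁ ^ 2 + a * z₁ * z₂ + b * z₂ ^ 2 = 0 → z₁ = 0 ∧ z₂ = 0)
    (y : ↥(GamO ⇑(minusQF m F a b))) (hy : cGam ⇑(minusQF m F a b) y ^ 2 = 1) :
    y.1.right = 1 := by
  by_contra hσ
  have hQ : (polarBilin (minusQF m F a b)).Nondegenerate :=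
    minusQF_nondegenerate m F a b (minus_disc_ne_zero a b hab)
  have hcard : Fintype.card ((Fin m ⊕ Fin m) ⊕ Fin 2) = 2 * (m + 1) := by
    simp only [Fintype.card_sum, Fintype.card_fin]; ring
  have hd : 7 ≤ Fintype.card ((Fin m ⊕ Fin m) ⊕ Fin 2) := by rw [hcard]; omega
  obtain ⟨hsq, hneg⟩ := clsa_gen (minusQF m F a b) h2 hQ hd (m + 1) hcard y hy hσ
  have hΔv : (gramM (minusQF m F a b)).det = (-1) ^ m * (4 * b - a ^ 2) := by
    rw [gramM, minusQF_coe, gram_quadFormMinus_det]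
  have hdisc : IsSquare (a ^ 2 - 4 * b) := by
    have : a ^ 2 - 4 * b = (-1) ^ (m + 1) * (gramM (minusQF m F a b)).det := by
      rw [hΔv, ← mul_assoc, ← pow_add]
      have : (-1 : F) ^ (m + 1 + m) = -1 := by
        rw [show m + 1 + m = 2 * m + 1 by ring, pow_succ, pow_mul]; simp
      rw [this]; ring
    rw [this]
    exact (hneg.pow _).mul hsq
  obtain ⟨s, hs⟩ := hdisc
  have := (hab ((s - a) / 2) 1 (by
    field_simp
    linear_combination (-1 : F) * hs)).2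
  exact one_ne_zero this

end Cfsg.Agent.Lib.Helper64.BalOM
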