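import Mathlib
import Cfsg.Agent.S2716
import Cfsg.Agent.Lib.Helper49.GamO7

set_option autoImplicit false

/-! BAL-OM ladder, rung T5: a field automorphism (class) of the minus type group never has
order two. -/

namespace Cfsg.Agent.Lib.Helper64.BalOM

theorem not_field_class_two {F : Type*} [Field F] [Fintype F] {m : ℕ} (hm : 3 ≤ m) (a b : F)
    (hab : ∀ z₁ z₂ : F, z₁ ^ 2 + a * z₁ * z₂ + b * z₂ ^ 2 = 0 → z₁ = 0 ∧ z₂ = 0)
    (x : MulAut (Cfsg.POmega F (Cfsg.quadFormMinus m F a b))) (hord : orderOf x = 2) :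
    ¬ Cfsg.IsFieldAutClassPOmegaMinus m x := by
  intro hx
  obtain ⟨p, _, f, hp, hF⟩ := FiniteField.card' F
  have : Fact p.Prime := ⟨hp⟩
  have hf : 1 ≤ (f : ℕ) := f.pos
  by_cases h2 : (f : ℕ) / 2 = 0
  · -- the field is prime: no nontrivial automorphism
    have hf1 : (f : ℕ) = 1 := by omega
    obtain ⟨_, _, _, _, hcard⟩ := Cfsg.Agent.Lib.Helper49.exists_frob (F := F) hF
    rw [hf1] at hcard
    obtain ⟨a', b', ψ, σ, _, hσ, _⟩ := hx
    have hss : Subsingleton (F ≃+* F) := (Nat.card_eq_one_iff_unique.1 hcard).1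
    exact hσ (Subsingleton.elim _ _)
  · let _ : Fintype (GaloisField p ((f : ℕ) / 2)) := Fintype.ofFinite _
    have hF₀ : Fintype.card (GaloisField p ((f : ℕ) / 2)) = p ^ ((f : ℕ) / 2) := by
      rw [← Nat.card_eq_fintype_card]
      exact GaloisField.card p _ h2
    have := (Cfsg.Agent.S2716.result hF hf hm a b hab x hx Nat.prime_two hord
      (GaloisField p ((f : ℕ) / 2)) hF₀).1
    exact absurd this (by decide)

end Cfsg.Agent.Lib.Helper64.BalOM
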