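import Cfsg.Agent.Lib.Helper95.BalOM.Defs
import Cfsg.Agent.Lib.Helper50.QuadClass

set_option autoImplicit false

/-! BAL-OM ladder, rung XG: geometry inside a non-degenerate subspace `X`. -/

namespace Cfsg.Agent.Lib.Helper64.BalOM

open QuadraticMap Module Cfsg.Agent.Lib.Helper49 Cfsg.Agent.Lib.Helper95
  Cfsg.Agent.Lib.Helper95.AutO

section gen

variable {k W : Type*} [Field k] [AddCommGroup W] [Module k W] {Q : QuadraticForm k W}

/-- a non-zero vector of a non-degenerate subspace is not orthogonal to it -/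
theorem xg_exists_ne (X : Submodule k W)
    (hX : X ⊓ LinearMap.BilinForm.orthogonal (polarBilin Q) X = ⊥)
    {c : W} (hc : c ∈ X) (hc0 : c ≠ 0) : ∃ f ∈ X, polar Q c f ≠ 0 := by
  by_contra hcon
  push Not at hcon
  have h1 : c ∈ X ⊓ LinearMap.BilinForm.orthogonal (polarBilin Q) X := by
    refine Submodule.mem_inf.2 ⟨hc, ?_⟩
    rw [LinearMap.BilinForm.mem_orthogonal_iff]
    intro n hn
    show polar Q n c = 0
    rw [polar_comm]
    exact hcon n hn
  rw [hX] at h1
  exact hc0 ((Submodule.mem_bot k).1 h1)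

theorem xg_exists_one (X : Submodule k W)
    (hX : X ⊓ LinearMap.BilinForm.orthogonal (polarBilin Q) X = ⊥)
    {c : W} (hc : c ∈ X) (hc0 : c ≠ 0) : ∃ f ∈ X, polar Q c f = 1 := by
  obtain ⟨f, hf, hcf⟩ := xg_exists_ne X hX hc hc0
  refine ⟨(polar Q c f)⁻¹ • f, X.smul_mem _ hf, ?_⟩
  rw [polar_smul_right, smul_eq_mul, inv_mul_cancel₀ hcf]

/-- the component of `v` orthogonal to the hyperbolic pair `c, d` -/
def xgP (Q : QuadraticForm k W) (c d v : W) : W := v - polar Q v d • c - polar Q v c • d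

theorem xgP_mem {X : Submodule k W} {c d v : W} (hc : c ∈ X) (hd : d ∈ X) (hv : v ∈ X) :
    xgP Q c d v ∈ X :=
  X.sub_mem (X.sub_mem hv (X.smul_mem _ hc)) (X.smul_mem _ hd)

theorem xgP_left {c d : W} (hQc : Q c = 0) (hcd : polar Q c d = 1) (v : W) :
    polar Q c (xgP Q c d v) = 0 := by
  rw [xgP, polar_sub_right, polar_sub_right, polar_smul_right, polar_smul_right,
    polar_self_of_Q hQc, hcd, polar_comm Q v c]
  simp

theorem xgP_right {c d : W} (hQd : Q d = 0) (hcd : polar Q c d = 1) (v : W) :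
    polar Q d (xgP Q c d v) = 0 := by
  rw [xgP, polar_sub_right, polar_sub_right, polar_smul_right, polar_smul_right,
    polar_self_of_Q hQd, polar_comm Q d c, hcd, polar_comm Q v d]
  simp

theorem xgP_decomp (c d v : W) :
    v = polar Q v d • c + polar Q v c • d + xgP Q c d v := by
  rw [xgP]; abel

theorem xgP_polar {c d w : W} (hcw : polar Q c w = 0) (hdw : polar Q d w = 0) (v : W) :
    polar Q w (xgP Q c d v) = polar Q w v := by
  rw [xgP, polar_sub_right, polar_sub_right, polar_smul_right, polar_smul_right,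
    polar_comm Q w c, polar_comm Q w d, hcw, hdw]
  simp

theorem xg_partner (X : Submodule k W)
    (hX : X ⊓ LinearMap.BilinForm.orthogonal (polarBilin Q) X = ⊥)
    {c : W} (hc : c ∈ X) (hc0 : c ≠ 0) (hQc : Q c = 0) : ∃ d ∈ X, Q d = 0 ∧ polar Q c d = 1 := by
  obtain ⟨f, hf, hcf⟩ := xg_exists_one X hX hc hc0
  refine ⟨f - Q f • c, X.sub_mem hf (X.smul_mem _ hc), ?_, ?_⟩
  · rw [qmap_sub, QuadraticMap.map_smul, hQc, polar_smul_right, polar_comm Q f c, hcf]
    simp
  · rw [polar_sub_right, polar_smul_right, polar_self_of_Q hQc, hcf]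
    simp

theorem xg_dual (X : Submodule k W)
    (hX : X ⊓ LinearMap.BilinForm.orthogonal (polarBilin Q) X = ⊥)
    {c c' : W} (hc : c ∈ X) (hc' : c' ∈ X) (hc0 : c ≠ 0) (hind : ∀ l : k, c' ≠ l • c) :
    ∃ f ∈ X, polar Q c f = 0 ∧ polar Q c' f = 1 := by
  obtain ⟨f0, hf0, hcf0⟩ := xg_exists_one X hX hc hc0
  have hc'' : c' - polar Q c' f0 • c ∈ X := X.sub_mem hc' (X.smul_mem _ hc)
  have hc''0 : c' - polar Q c' f0 • c ≠ 0 := fun h => hind _ (sub_eq_zero.1 h)
  obtain ⟨f1, hf1, hcf1⟩ := xg_exists_one X hX hc'' hc''0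
  refine ⟨f1 - polar Q c f1 • f0, X.sub_mem hf1 (X.smul_mem _ hf0), ?_, ?_⟩
  · rw [polar_sub_right, polar_smul_right, hcf0]
    simp
  · rw [polar_sub_left, polar_smul_left, smul_eq_mul] at hcf1
    rw [polar_sub_right, polar_smul_right, smul_eq_mul]
    linear_combination hcf1

end gen

variable {k W : Type*} [Field k] [Fintype k] [AddCommGroup W] [Module k W] [FiniteDimensional k W]
  {Q : QuadraticForm k W}

theorem xg_sing (X : Submodule k W) (hd : 3 ≤ finrank k X) : ∃ c ∈ X, c ≠ 0 ∧ Q c = 0 := by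
  apply Cfsg.Agent.Lib.Helper50.Quad.exists_singular X
  rw [Module.natCard_eq_pow_finrank (K := k) (V := X), Nat.card_eq_fintype_card]
  exact Nat.pow_lt_pow_right Fintype.one_lt_card (by omega)

theorem xg_perp (h2 : (2 : k) ≠ 0) (X : Submodule k W)
    (hX : X ⊓ LinearMap.BilinForm.orthogonal (polarBilin Q) X = ⊥) (hd : 3 ≤ finrank k X)
    {c d : W} (hc : c ∈ X) (hdX : d ∈ X) (hQc : Q c = 0) (hQd : Q d = 0) (hcd : polar Q c d = 1) :
    ∃ w ∈ X, polar Q c w = 0 ∧ polar Q d w = 0 ∧ Q w ≠ 0 := by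
  have h0 : ∃ v ∈ X, xgP Q c d v ≠ 0 := by
    by_contra hcon
    push Not at hcon
    have hle : X ≤ Submodule.span k (Set.range ![c, d]) := by
      intro v hv
      rw [xgP_decomp (Q := Q) c d v, hcon v hv, add_zero]
      refine Submodule.add_mem _ (Submodule.smul_mem _ _ (Submodule.subset_span ⟨0, rfl⟩))
        (Submodule.smul_mem _ _ (Submodule.subset_span ⟨1, rfl⟩))
    have h1 := Submodule.finrank_mono hle
    have h3 : finrank k (Submodule.span k (Set.range ![c, d])) ≤ 2 := by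
      have := finrank_range_le_card (R := k) ![c, d]
      simpa [Set.finrank] using this
    omega
  obtain ⟨v0, hv0, hw0⟩ := h0
  set w0 := xgP Q c d v0 with hw0d
  have hw0X : w0 ∈ X := xgP_mem hc hdX hv0
  have hcw0 : polar Q c w0 = 0 := xgP_left hQc hcd v0
  have hdw0 : polar Q d w0 = 0 := xgP_right hQd hcd v0
  obtain ⟨v1, hv1, hw01⟩ := xg_exists_ne X hX hw0X hw0
  set w1 := xgP Q c d v1 with hw1d
  have hw1X : w1 ∈ X := xgP_mem hc hdX hv1
  have hcw1 : polar Q c w1 = 0 := xgP_left hQc hcd v1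
  have hdw1 : polar Q d w1 = 0 := xgP_right hQd hcd v1
  have hB : polar Q w0 w1 ≠ 0 := by rw [hw1d, xgP_polar hcw0 hdw0]; exact hw01
  by_cases hq0 : Q w0 = 0
  · by_cases hq1 : Q w1 = 0
    · refine ⟨w0 + w1, X.add_mem hw0X hw1X, ?_, ?_, ?_⟩
      · rw [polar_add_right, hcw0, hcw1, add_zero]
      · rw [polar_add_right, hdw0, hdw1, add_zero]
      · rw [qmap_add, hq0, hq1, zero_add, zero_add]; exact hB
    · exact ⟨w1, hw1X, hcw1, hdw1, hq1⟩
  · exact ⟨w0, hw0X, hcw0, hdw0, hq0⟩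

end Cfsg.Agent.Lib.Helper64.BalOM
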