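import Mathlib
import Cfsg.Agent.Lib.Helper64.AbInv
import Cfsg.Agent.Lib.Helper89.MetaOmega
import Cfsg.Agent.S0638

set_option autoImplicit false

namespace Cfsg.Agent.Lib.Helper64

open Subgroup
open scoped commutatorElement

universe u

/-- Chains of characteristic subgroups with cyclic steps. -/
inductive CharChain (G : Type*) [Group G] : Subgroup G → Prop
  | bot : CharChain G ⊥
  | step {K : Subgroup G} (g : G) : CharChain G K → (K ⊔ zpowers g).Characteristic →
      CharChain G (K ⊔ zpowers g)

section basic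

variable {G : Type*} [Group G]

theorem CharChain.characteristic {K : Subgroup G} (h : CharChain G K) : K.Characteristic := by
  cases h with
  | bot => exact Subgroup.botCharacteristic
  | step g _ hn => exact hn

theorem characteristic_of_forall {K : Subgroup G} (h : ∀ α : MulAut G, ∀ x ∈ K, α x ∈ K) :
    K.Characteristic :=
  Subgroup.characteristic_iff_le_comap.2 (fun α x hx => h α x hx)

theorem aut_mem_of_characteristic {K : Subgroup G} (h : K.Characteristic) (α : MulAut G) {x : G}
    (hx : x ∈ K) : α x ∈ K :=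
  (Subgroup.characteristic_iff_le_comap.1 h α) hx

theorem characteristic_comap_mk (N : Subgroup G) [N.Normal] (hN : N.Characteristic)
    {L : Subgroup (G ⧸ N)} (hL : L.Characteristic) :
    (L.comap (QuotientGroup.mk' N)).Characteristic := by
  apply characteristic_of_forall
  intro α x hx
  have hmap : N.map α.toMonoidHom = N := Subgroup.characteristic_iff_map_eq.1 hN α
  exact aut_mem_of_characteristic hL (QuotientGroup.congr N N α hmap) hx

theorem CharChain.comap (N : Subgroup G) [N.Normal] (hN : CharChain G N) {L : Subgroup (G ⧸ N)}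
    (h : CharChain (G ⧸ N) L) : CharChain G (L.comap (QuotientGroup.mk' N)) := by
  induction h with
  | bot =>
    rw [MonoidHom.comap_bot, QuotientGroup.ker_mk']
    exact hN
  | @step K g hK hn ih =>
    obtain ⟨g, rfl⟩ := QuotientGroup.mk'_surjective N g
    have hNK : N ≤ K.comap (QuotientGroup.mk' N) := by
      intro x hx
      show QuotientGroup.mk' N x ∈ K
      have : QuotientGroup.mk' N x = 1 := (QuotientGroup.eq_one_iff x).2 hx
      rw [this]
      exact K.one_mem
    have e : (K ⊔ zpowers (QuotientGroup.mk' N g)).comap (QuotientGroup.mk' N) =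
        K.comap (QuotientGroup.mk' N) ⊔ zpowers g := by
      rw [← Subgroup.comap_sup_eq _ _ _ (QuotientGroup.mk'_surjective N), ← MonoidHom.map_zpowers,
        Subgroup.comap_map_eq, QuotientGroup.ker_mk', sup_comm (zpowers g) N, ← sup_assoc,
        sup_eq_left.2 hNK]
    rw [e]
    exact CharChain.step g ih (e ▸ characteristic_comap_mk N hN.characteristic hn)

theorem CharChain.top_of_quotient (N : Subgroup G) [N.Normal] (hN : CharChain G N)
    (h : CharChain (G ⧸ N) ⊤) : CharChain G ⊤ := by
  have := CharChain.comap N hN h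
  rwa [Subgroup.comap_top] at this

theorem charChain_of_cyclic {K : Subgroup G} (hK : K.Characteristic) (hc : IsCyclic K) :
    CharChain G K := by
  obtain ⟨c, hc⟩ := hc
  have e : K = ⊥ ⊔ zpowers (c : G) := by
    rw [bot_sup_eq]
    apply le_antisymm
    · intro x hx
      obtain ⟨k, hk⟩ := hc ⟨x, hx⟩
      exact ⟨k, by simpa using congrArg Subtype.val hk⟩
    · exact zpowers_le.2 c.2
  rw [e]
  exact CharChain.step _ CharChain.bot (e ▸ hK)

theorem exists_sup_zpowers_of_card [Finite G] {p : ℕ} [Fact p.Prime] (hG : IsPGroup p G)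
    {K O : Subgroup G} (hKO : K ≤ O) (hcard : Nat.card O ≤ p * Nat.card K) :
    ∃ y : G, O = K ⊔ zpowers y := by
  have hp : p.Prime := Fact.out
  by_cases h : O ≤ K
  · exact ⟨1, by rw [zpowers_one_eq_bot, sup_bot_eq]; exact le_antisymm h hKO⟩
  · obtain ⟨y, hyO, hyK⟩ := SetLike.not_le_iff_exists.1 h
    refine ⟨y, (Subgroup.eq_of_le_of_card_ge (sup_le hKO (zpowers_le.2 hyO)) ?_).symm⟩
    obtain ⟨a, ha⟩ := (hG.to_subgroup K).exists_card_eq
    obtain ⟨b, hb⟩ := (hG.to_subgroup (K ⊔ zpowers y)).exists_card_eq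
    have hlt : Nat.card K < Nat.card (K ⊔ zpowers y : Subgroup G) := by
      by_contra hcon
      rw [not_lt] at hcon
      have he := Subgroup.eq_of_le_of_card_ge (le_sup_left : K ≤ K ⊔ zpowers y) hcon
      apply hyK
      rw [he]
      exact mem_sup_right (mem_zpowers y)
    rw [ha, hb] at hlt
    have hab : a < b := (Nat.pow_lt_pow_iff_right hp.one_lt).1 hlt
    calc Nat.card O ≤ p * Nat.card K := hcard
      _ = p ^ (a + 1) := by rw [ha, pow_succ']
      _ ≤ p ^ b := Nat.pow_le_pow_right hp.pos hab
      _ = Nat.card (K ⊔ zpowers y : Subgroup G) := hb.symm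

end basic

/-- Homocyclic of rank two. -/
def Homo2 (p : ℕ) (G : Type*) [Group G] : Prop :=
  ∃ k : ℕ, 0 < k ∧ Nonempty (G ≃* Multiplicative (ZMod (p ^ k)) × Multiplicative (ZMod (p ^ k)))

theorem Homo2.comm {p : ℕ} {G : Type*} [Group G] (h : Homo2 p G) (a b : G) : a * b = b * a := by
  obtain ⟨k, -, ⟨e⟩⟩ := h
  apply e.injective
  rw [map_mul, map_mul, mul_comm]

theorem Homo2.card {p : ℕ} {G : Type*} [Group G] (h : Homo2 p G) :
    ∃ k : ℕ, Nat.card G = p ^ (2 * k) := by
  obtain ⟨k, -, ⟨e⟩⟩ := h
  refine ⟨k, ?_⟩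
  rw [Nat.card_congr e.toEquiv, Nat.card_prod,
    show Nat.card (Multiplicative (ZMod (p ^ k))) = p ^ k from Nat.card_zmod _, ← pow_add, two_mul]

section metacyclic

theorem charChain_of_dd {G : Type*} [Group G] [Finite G] (hc : ∀ a b : G, a * b = b * a) {p : ℕ}
    [Fact p.Prime] (hG : IsPGroup p G) (hD : DD p G) : CharChain G ⊤ :=
  char_chain_induction hc hG hD (CharChain G) CharChain.bot
    (fun _ x hT hinv => CharChain.step x hT (characteristic_of_forall hinv))

/-- A metacyclic abelian `p`-group has no direct factor `C × C` with a nontrivial complement. -/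
theorem homo2_of_repeat {G : Type*} [Group G] [Finite G] {p : ℕ} [Fact p.Prime]
    (hG : IsPGroup p G) (hm : Cfsg.IsMetacyclic G)
    (h : ∃ (n : ℕ) (H : Type) (_ : CommGroup H), 0 < n ∧
      Nonempty (G ≃* (Multiplicative (ZMod (p ^ n)) × Multiplicative (ZMod (p ^ n))) × H)) :
    Homo2 p G := by
  have hp : p.Prime := Fact.out
  obtain ⟨n, H, _, hn, ⟨E⟩⟩ := h
  by_cases hH : Subsingleton H
  · have : Unique H := ⟨⟨1⟩, fun a => Subsingleton.elim _ _⟩
    exact ⟨n, hn, ⟨E.trans MulEquiv.prodUnique⟩⟩
  · exfalso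
    rw [not_subsingleton_iff_nontrivial] at hH
    let f : G →* H := (MonoidHom.snd _ H).comp E.toMonoidHom
    have hf : Function.Surjective f := by
      intro h
      exact ⟨E.symm (1, h), by simp [f]⟩
    have : Finite H := Finite.of_surjective f hf
    have hHp : IsPGroup p H := hG.of_surjective f hf
    obtain ⟨k, hk0, hk⟩ := hHp.nontrivial_iff_card.1 hH
    obtain ⟨h, hh⟩ := exists_prime_orderOf_dvd_card' (G := H) p (hk ▸ dvd_pow_self p hk0.ne')
    set c : Multiplicative (ZMod (p ^ n)) := Multiplicative.ofAdd (1 : ZMod (p ^ n)) ^ (p ^ (n - 1))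
      with hc
    have hc₀ : orderOf (Multiplicative.ofAdd (1 : ZMod (p ^ n))) = p ^ n := by
      rw [orderOf_ofAdd_eq_addOrderOf, ZMod.addOrderOf_one]
    have hco : orderOf c = p := by
      rw [hc, orderOf_pow_of_dvd (pow_ne_zero _ hp.ne_zero) (by
        rw [hc₀]; exact pow_dvd_pow p (Nat.sub_le n 1)), hc₀]
      obtain ⟨m, rfl⟩ : ∃ m, n = m + 1 := ⟨n - 1, by omega⟩
      rw [Nat.add_sub_cancel, pow_succ, Nat.mul_div_cancel_left _ (pow_pos hp.pos m)]
    let V' : Subgroup ((Multiplicative (ZMod (p ^ n)) × Multiplicative (ZMod (p ^ n))) × H) :=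
      ((zpowers c).prod (zpowers c)).prod (zpowers h)
    have hV'card : Nat.card V' = p * p * p := by
      rw [Nat.card_congr (Subgroup.prodEquiv _ _).toEquiv, Nat.card_prod,
        Nat.card_congr (Subgroup.prodEquiv _ _).toEquiv, Nat.card_prod, Nat.card_zpowers,
        Nat.card_zpowers, hco, hh]
    have hpow : ∀ {A : Type} [Group A] {a x : A}, orderOf a = p → x ∈ zpowers a → x ^ p = 1 := by
      intro A _ a x ha hx
      obtain ⟨j, rfl⟩ := hx
      show (a ^ j) ^ p = 1
      rw [← zpow_natCast, ← zpow_mul, mul_comm, zpow_mul, zpow_natCast, ← ha, pow_orderOf_eq_one,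
        one_zpow]
    have hV'exp : ∀ v ∈ V', v ^ p = 1 := by
      rintro ⟨⟨a, b⟩, d⟩ ⟨⟨ha, hb⟩, hd⟩
      simp only at ha hb hd
      have h1 := hpow hco ha
      have h2 := hpow hco hb
      have h3 := hpow hh hd
      simp only [Prod.pow_mk, h1, h2, h3]
      rfl
    have h1 := Cfsg.Agent.Lib.Helper89.card_le_of_exponent_of_metacyclic hp.pos hm
      (V'.map E.symm.toMonoidHom) (by
        rintro _ ⟨v, hv, rfl⟩
        rw [← map_pow, hV'exp v hv, map_one])
    rw [Subgroup.card_map_of_injective E.symm.injective, hV'card] at h1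
    have : p ^ 2 < p * p * p := by
      have := hp.two_le
      nlinarith [Nat.mul_le_mul this this]
    omega

theorem omegaOne_top_characteristic (p : ℕ) (G : Type*) [Group G] :
    (Cfsg.omegaOne p (⊤ : Subgroup G)).Characteristic := by
  apply characteristic_of_forall
  intro α x hx
  unfold Cfsg.omegaOne at hx ⊢
  induction hx using Subgroup.closure_induction with
  | mem y hy => exact Subgroup.subset_closure ⟨trivial, by rw [← map_pow, hy.2, map_one]⟩
  | one => rw [map_one]; exact one_mem _
  | mul a b _ _ ha hb => rw [map_mul]; exact mul_mem ha hb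
  | inv a _ ha => rw [map_inv]; exact inv_mem ha

theorem charChain_metacyclic (p : ℕ) [Fact p.Prime] (hp2 : p ≠ 2) :
    ∀ (n : ℕ) (G : Type u) [Group G] [Finite G], Nat.card G = n → IsPGroup p G →
      Cfsg.IsMetacyclic G → ¬ Homo2 p G → CharChain G ⊤ := by
  have hp : p.Prime := Fact.out
  intro n
  induction n using Nat.strong_induction_on with
  | _ n ih =>
  intro G _ _ hn hG hm hno
  by_cases hc : ∀ a b : G, a * b = b * a
  · exact charChain_of_dd hc hG (dd_of_no_repeat hc hG (fun h => hno (homo2_of_repeat hG hm h)))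
  -- the derived subgroup
  have hm' := hm
  obtain ⟨N, hN, hcN, hcQ⟩ := hm'
  have hDN : commutator G ≤ N := by
    apply Subgroup.Normal.quotient_commutative_iff_commutator_le.1
    exact ⟨⟨fun a b => (IsCyclic.commGroup (α := G ⧸ N)).mul_comm a b⟩⟩
  have hDc : IsCyclic (commutator G) := Subgroup.isCyclic_of_le hDN
  have hDchar : (commutator G).Characteristic := by
    unfold _root_.commutator
    infer_instance
  have hDne : commutator G ≠ ⊥ := by
    intro h
    apply hc
    intro a b
    have h1 : ⁅a, b⁆ ∈ commutator G := Subgroup.commutator_mem_commutator (mem_top a) (mem_top b)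
    rw [h, mem_bot] at h1
    exact commutatorElement_eq_one_iff_mul_comm.1 h1
  have hcardlt : ∀ K : Subgroup G, [K.Normal] → K ≠ ⊥ → Nat.card (G ⧸ K) < n := by
    intro K _ hK
    have h1 := Subgroup.card_eq_card_quotient_mul_card_subgroup K
    have h2 : 1 < Nat.card K := by
      rw [Finite.one_lt_card_iff_nontrivial]
      exact (Subgroup.nontrivial_iff_ne_bot K).2 hK
    have h3 : 0 < Nat.card (G ⧸ K) := Nat.card_pos
    rw [hn] at h1
    nlinarith
  by_cases h1 : Homo2 p (G ⧸ commutator G)
  swap
  · exact CharChain.top_of_quotient (commutator G) (charChain_of_cyclic hDchar hDc)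
      (ih _ (hcardlt _ hDne) (G ⧸ commutator G) rfl (hG.to_quotient _)
        (Cfsg.Agent.Lib.Helper89.isMetacyclic_quotient hm _) h1)
  -- second route
  have hnc : ¬ IsCyclic G := fun h => hc (fun a b => (IsCyclic.commGroup (α := G)).mul_comm a b)
  obtain ⟨⟨-, hOexp⟩, hOcard⟩ := Cfsg.Agent.S0638.result hp2 hG hm hnc
  set O := Cfsg.omegaOne p (⊤ : Subgroup G) with hO
  have hOchar : O.Characteristic := omegaOne_top_characteristic p G
  have hOn : O.Normal := inferInstance
  have hOne : O ≠ ⊥ := by
    intro h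
    rw [h, Subgroup.card_bot] at hOcard
    have := hp.two_le
    nlinarith
  by_cases h2 : Homo2 p (G ⧸ O)
  swap
  · have hZchar : (commutator G ⊓ O).Characteristic := by
      apply characteristic_of_forall
      intro α x hx
      exact ⟨aut_mem_of_characteristic hDchar α hx.1, aut_mem_of_characteristic hOchar α hx.2⟩
    have hZc : IsCyclic (commutator G ⊓ O : Subgroup G) := Subgroup.isCyclic_of_le inf_le_left
    have hZcard : p ≤ Nat.card (commutator G ⊓ O : Subgroup G) := by
      have hnt : Nontrivial (commutator G) := (Subgroup.nontrivial_iff_ne_bot _).2 hDne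
      obtain ⟨k, hk0, hk⟩ := (hG.to_subgroup (commutator G)).nontrivial_iff_card.1 hnt
      obtain ⟨d, hd⟩ := exists_prime_orderOf_dvd_card' (G := commutator G) p
        (hk ▸ dvd_pow_self p hk0.ne')
      have hd' : orderOf (d : G) = p := by rw [Subgroup.orderOf_coe, hd]
      have hdO : (d : G) ∈ O := Subgroup.subset_closure ⟨trivial, by rw [← hd', pow_orderOf_eq_one]⟩
      have hle : zpowers (d : G) ≤ commutator G ⊓ O := zpowers_le.2 ⟨d.2, hdO⟩
      calc p = Nat.card (zpowers (d : G)) := by rw [Nat.card_zpowers, hd']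
        _ ≤ _ := Subgroup.card_le_of_le hle
    obtain ⟨y, hy⟩ := exists_sup_zpowers_of_card hG (inf_le_right : commutator G ⊓ O ≤ O) (by
      rw [hOcard, pow_two]
      exact Nat.mul_le_mul_left p hZcard)
    have hOchain : CharChain G O := by
      rw [hy]
      exact CharChain.step y (charChain_of_cyclic hZchar hZc) (hy ▸ hOchar)
    exact CharChain.top_of_quotient O hOchain
      (ih _ (hcardlt _ hOne) (G ⧸ O) rfl (hG.to_quotient _)
        (Cfsg.Agent.Lib.Helper89.isMetacyclic_quotient hm _) h2)
  -- both quotients homocyclic: parity contradiction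
  exfalso
  have hDO : commutator G ≤ O := by
    apply Subgroup.Normal.quotient_commutative_iff_commutator_le.1
    exact ⟨⟨fun a b => h2.comm a b⟩⟩
  have hDcard : Nat.card (commutator G) = p := by
    obtain ⟨d, hd⟩ := hDc
    have hd1 : d ≠ 1 := by
      rintro rfl
      apply hDne
      rw [eq_bot_iff]
      intro x hx
      obtain ⟨k, hk⟩ := hd ⟨x, hx⟩
      simp only [one_zpow] at hk
      exact congrArg Subtype.val hk.symm
    have hdp : d ^ p = 1 := Subtype.ext (hOexp d (hDO d.2))
    rw [← orderOf_eq_card_of_forall_mem_zpowers hd]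
    exact orderOf_eq_prime hdp hd1
  obtain ⟨k, hk⟩ := h1.card
  obtain ⟨l, hl⟩ := h2.card
  have e1 := Subgroup.card_eq_card_quotient_mul_card_subgroup (commutator G)
  have e2 := Subgroup.card_eq_card_quotient_mul_card_subgroup O
  rw [hk, hDcard, ← pow_succ] at e1
  rw [hl, hOcard, ← pow_add] at e2
  have := Nat.pow_right_injective hp.two_le (e1.symm.trans e2)
  omega

end metacyclic

end Cfsg.Agent.Lib.Helper64
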