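import Mathlib

set_option autoImplicit false

/-! An operator `T` of prime order `q` on a finite `ZMod p`-module, without fixed vectors, whose
"semilinear normalizer" is transitive on nonzero vectors and realizes all powers `T ^ j`:
then `p` is a primitive root modulo `q`. -/

namespace Cfsg.Agent.Lib.Helper64

open Polynomial

section

variable {p q : ℕ} [Fact p.Prime] [Fact q.Prime] {V : Type*} [AddCommGroup V] [Module (ZMod p) V]

theorem aeval_cyclotomic_eq_zero (T : Module.End (ZMod p) V) (hT : T ^ q = 1)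
    (hfix : ∀ v, T v = v → v = 0) : aeval T (cyclotomic q (ZMod p)) = 0 := by
  have h1 : aeval T ((X - 1) * cyclotomic q (ZMod p)) = 0 := by
    rw [mul_comm, cyclotomic_prime_mul_X_sub_one]
    simp [hT]
  ext v
  have h2 := LinearMap.congr_fun h1 v
  rw [map_mul] at h2
  simp only [map_sub, aeval_X, map_one, Module.End.mul_apply, LinearMap.sub_apply,
    Module.End.one_apply, LinearMap.zero_apply] at h2
  exact hfix _ (sub_eq_zero.1 h2)

/-- `W` is `T`-invariant. -/
def TInv (T : Module.End (ZMod p) V) (W : Submodule (ZMod p) V) : Prop := ∀ v ∈ W, T v ∈ W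

theorem TInv.pow_mem {T : Module.End (ZMod p) V} {W : Submodule (ZMod p) V} (h : TInv T W)
    (n : ℕ) {v : V} (hv : v ∈ W) : (T ^ n) v ∈ W := by
  induction n with
  | zero => simpa using hv
  | succ n ih => rw [pow_succ', Module.End.mul_apply]; exact h _ ih

theorem TInv.aeval_mem {T : Module.End (ZMod p) V} {W : Submodule (ZMod p) V} (h : TInv T W)
    (f : (ZMod p)[X]) {v : V} (hv : v ∈ W) : aeval T f v ∈ W := by
  rw [aeval_endomorphism]
  exact Submodule.sum_mem _ fun n _ => W.smul_mem _ (h.pow_mem n hv)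

/-- the smallest `T`-invariant submodule containing `u`. -/
def TGen (T : Module.End (ZMod p) V) (u : V) : Submodule (ZMod p) V :=
  sInf {W | TInv T W ∧ u ∈ W}

theorem mem_TGen (T : Module.End (ZMod p) V) (u : V) : u ∈ TGen T u := by
  rw [TGen, Submodule.mem_sInf]
  exact fun W hW => hW.2

theorem TGen_inv (T : Module.End (ZMod p) V) (u : V) : TInv T (TGen T u) := by
  intro v hv
  rw [TGen, Submodule.mem_sInf] at hv ⊢
  exact fun W hW => hW.1 _ (hv W hW)

theorem TGen_le {T : Module.End (ZMod p) V} {u : V} {W : Submodule (ZMod p) V} (h : TInv T W)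
    (hu : u ∈ W) : TGen T u ≤ W := sInf_le ⟨h, hu⟩

/-- turn an additive equivalence into a `ZMod p`-linear one. -/
noncomputable def toLin (σ : V ≃+ V) : V ≃ₗ[ZMod p] V :=
  { σ with map_smul' := fun c x => ZMod.map_smul σ c x }

@[simp] theorem toLin_apply (σ : V ≃+ V) (v : V) : (toLin (p := p) σ) v = σ v := rfl

theorem semiconj_pow {T S : Module.End (ZMod p) V} {σ : V ≃+ V}
    (h : ∀ u, σ (T u) = S (σ u)) (m : ℕ) (u : V) : σ ((T ^ m) u) = (S ^ m) (σ u) := by
  induction m generalizing u with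
  | zero => simp
  | succ m ih => rw [pow_succ, Module.End.mul_apply, ih, h, pow_succ, Module.End.mul_apply]

theorem card_TGen_le [Finite V] {T : Module.End (ZMod p) V} (hT : T ^ q = 1) {v w : V}
    {σ : V ≃+ V} {j : ℕ} (hj : ¬ q ∣ j) (hvw : σ v = w)
    (h : ∀ u, σ (T u) = (T ^ j) (σ u)) :
    Nat.card (TGen T w) ≤ Nat.card (TGen T v) := by
  have hq : q.Prime := Fact.out
  have hcop : Nat.Coprime j q := ((Nat.Prime.coprime_iff_not_dvd hq).2 hj).symm
  obtain ⟨j', -, hj'⟩ := Nat.exists_mul_mod_eq_one_of_coprime hcop hq.one_lt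
  have hTT : (T ^ j) ^ j' = T := by
    rw [← pow_mul, ← Nat.div_add_mod (j * j') q, hj', pow_add, pow_mul, hT]
    simp
  have hinv : TInv T ((TGen T v).map (toLin (p := p) σ).toLinearMap) := by
    rintro _ ⟨a, ha, rfl⟩
    refine ⟨(T ^ j') a, (TGen_inv T v).pow_mem j' ha, ?_⟩
    change σ ((T ^ j') a) = T (σ a)
    rw [semiconj_pow h j' a, hTT]
  have hle : TGen T w ≤ (TGen T v).map (toLin (p := p) σ).toLinearMap :=
    TGen_le hinv ⟨v, mem_TGen T v, hvw⟩
  calc Nat.card (TGen T w) ≤ Nat.card ((TGen T v).map (toLin (p := p) σ).toLinearMap) :=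
        Nat.card_le_card_of_injective _ (Submodule.inclusion_injective hle)
    _ = Nat.card (TGen T v) :=
        (Nat.card_congr ((toLin (p := p) σ).submoduleMap (TGen T v)).toEquiv).symm

theorem TGen_eq_of_mem [Finite V] {T : Module.End (ZMod p) V} (hT : T ^ q = 1)
    (h1 : ∀ v w : V, v ≠ 0 → w ≠ 0 → ∃ (σ : V ≃+ V) (j : ℕ), ¬ q ∣ j ∧ σ v = w ∧
      ∀ u, σ (T u) = (T ^ j) (σ u))
    {u w : V} (hu : u ≠ 0) (hw : w ≠ 0) (hwu : w ∈ TGen T u) : TGen T w = TGen T u := by
  have hle : TGen T w ≤ TGen T u := TGen_le (TGen_inv T u) hwu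
  obtain ⟨σ, j, hj, hσ, hc⟩ := h1 w u hw hu
  have hcard := card_TGen_le hT hj hσ hc
  apply Submodule.toAddSubgroup_injective
  exact AddSubgroup.eq_of_le_of_card_ge (Submodule.toAddSubgroup_mono hle) hcard

theorem minpoly_irreducible [Finite V] [Nontrivial V] {T : Module.End (ZMod p) V} (hT : T ^ q = 1)
    (h1 : ∀ v w : V, v ≠ 0 → w ≠ 0 → ∃ (σ : V ≃+ V) (j : ℕ), ¬ q ∣ j ∧ σ v = w ∧
      ∀ u, σ (T u) = (T ^ j) (σ u)) :
    Irreducible (minpoly (ZMod p) T) := by
  have hint : IsIntegral (ZMod p) T := LinearMap.isIntegral T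
  set g := minpoly (ZMod p) T with hg
  have hg0 : g ≠ 0 := minpoly.ne_zero hint
  have hgu : ¬ IsUnit g := minpoly.not_isUnit _ _
  obtain ⟨a, ha, b, hab⟩ := WfDvdMonoid.exists_irreducible_factor hgu hg0
  have hb0 : b ≠ 0 := by rintro rfl; simp at hab; exact hg0 hab
  set W := LinearMap.ker (aeval T a) with hW
  have hWinv : TInv T W := by
    intro v hv
    rw [hW, LinearMap.mem_ker] at hv ⊢
    have hcomm : aeval T a * T = T * aeval T a := by
      have : aeval T (a * X) = aeval T (X * a) := by rw [mul_comm]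
      simpa using this
    have := LinearMap.congr_fun hcomm v
    simp only [Module.End.mul_apply] at this
    rw [this, hv, map_zero]
  have hWne : W ≠ ⊥ := by
    intro hbot
    have hinj : Function.Injective (aeval T a) := LinearMap.ker_eq_bot.1 hbot
    have hb : aeval T b = 0 := by
      ext v
      apply hinj
      have : aeval T g = 0 := minpoly.aeval _ _
      rw [hab, map_mul] at this
      have h2 := LinearMap.congr_fun this v
      simpa using h2
    obtain ⟨c, hc⟩ := minpoly.dvd (ZMod p) T hb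
    rw [← hg, hab] at hc
    have : a * c = 1 := by
      apply mul_left_cancel₀ hb0
      rw [mul_one]
      calc b * (a * c) = a * b * c := by ring
        _ = b := hc.symm
    exact ha.not_isUnit (IsUnit.of_mul_eq_one _ this)
  obtain ⟨v, hvW, hv0⟩ := Submodule.exists_mem_ne_zero_of_ne_bot hWne
  have hWtop : W = ⊤ := by
    by_contra hne
    obtain ⟨w, hw⟩ : ∃ w, w ∉ W := by
      by_contra hall
      push Not at hall
      exact hne (eq_top_iff.2 fun x _ => hall x)
    have hw0 : w ≠ 0 := by rintro rfl; exact hw W.zero_mem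
    set w' := aeval T a w with hw'
    have hw'0 : w' ≠ 0 := fun h => hw (LinearMap.mem_ker.2 h)
    have hvw0 : v + w ≠ 0 := by
      intro h
      apply hw
      have : w = -v := by rw [eq_neg_iff_add_eq_zero, add_comm]; exact h
      rw [this]; exact W.neg_mem hvW
    have e1 : aeval T a (v + w) = w' := by
      rw [map_add, LinearMap.mem_ker.1 hvW, zero_add]
    have m1 : w' ∈ TGen T (v + w) := e1 ▸ (TGen_inv T _).aeval_mem a (mem_TGen T _)
    have m2 : w' ∈ TGen T w := (TGen_inv T _).aeval_mem a (mem_TGen T _)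
    have e2 := TGen_eq_of_mem hT h1 hvw0 hw'0 m1
    have e3 := TGen_eq_of_mem hT h1 hw0 hw'0 m2
    have m3 : v + w ∈ TGen T w := by rw [← e3, e2]; exact mem_TGen T _
    have m4 : v ∈ TGen T w := by
      have := (TGen T w).sub_mem m3 (mem_TGen T w)
      simpa using this
    have e4 := TGen_eq_of_mem hT h1 hw0 hv0 m4
    have : TGen T v ≤ W := TGen_le hWinv hvW
    exact hw (this (e4 ▸ mem_TGen T w))
  have ha0 : aeval T a = 0 := LinearMap.ker_eq_top.1 hWtop
  have hdvd : g ∣ a := minpoly.dvd (ZMod p) T ha0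
  exact (associated_of_dvd_dvd ⟨b, hab⟩ hdvd).irreducible ha

theorem aeval_pow_eq_zero {T : Module.End (ZMod p) V} {σ : V ≃+ V} {j : ℕ}
    (h : ∀ u, σ (T u) = (T ^ j) (σ u)) (f : (ZMod p)[X]) (hf : aeval T f = 0) :
    aeval (T ^ j) f = 0 := by
  have e : (toLin (p := p) σ).conjAlgEquiv (ZMod p) T = T ^ j := by
    ext u
    change σ (T (σ.symm u)) = (T ^ j) u
    rw [h]
    simp
  rw [← e, aeval_algHom_apply, hf, map_zero]

theorem orderOf_eq_of_transitive (hpq : p ≠ q) [Finite V] [Nontrivial V]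
    (T : Module.End (ZMod p) V) (hT : T ^ q = 1) (hfix : ∀ v, T v = v → v = 0)
    (h1 : ∀ v w : V, v ≠ 0 → w ≠ 0 → ∃ (σ : V ≃+ V) (j : ℕ), ¬ q ∣ j ∧ σ v = w ∧
      ∀ u, σ (T u) = (T ^ j) (σ u))
    (h2 : ∀ j : ℕ, ¬ q ∣ j → ∃ σ : V ≃+ V, ∀ u, σ (T u) = (T ^ j) (σ u)) :
    orderOf (p : ZMod q) = q - 1 := by
  have hp : p.Prime := Fact.out
  have hq : q.Prime := Fact.out
  have hirr := minpoly_irreducible hT h1
  set g := minpoly (ZMod p) T with hg
  have hdvd : g ∣ cyclotomic q (ZMod p) :=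
    minpoly.dvd _ _ (aeval_cyclotomic_eq_zero T hT hfix)
  have hcop : p.Coprime q := (Nat.coprime_primes hp hq).2 hpq
  have hdeg := natDegree_of_dvd_cyclotomic_of_irreducible (K := ZMod p) (p := p) (f := 1)
    (n := q) (by simp) hcop hdvd hirr
  have hord : orderOf (ZMod.unitOfCoprime (p ^ 1) (hcop.pow_left 1)) = orderOf (p : ZMod q) := by
    rw [← orderOf_units]
    simp
  rw [hord] at hdeg
  have hle : g.natDegree ≤ q - 1 := by
    have := natDegree_le_of_dvd hdvd (cyclotomic_ne_zero q (ZMod p))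
    rwa [natDegree_cyclotomic, Nat.totient_prime hq] at this
  have : Fact (Irreducible g) := ⟨hirr⟩
  have hζ : IsPrimitiveRoot (AdjoinRoot.root g) q := by
    have : NeZero (q : AdjoinRoot g) := by
      suffices NeZero (q : ZMod p) by
        simpa using! NeZero.of_injective (algebraMap (ZMod p) (AdjoinRoot g)).injective
      refine ⟨fun h0 => ?_⟩
      rw [ZMod.natCast_eq_zero_iff] at h0
      exact hpq ((Nat.prime_dvd_prime_iff_eq hp hq).1 h0)
    simpa [← isRoot_cyclotomic_iff] using! (AdjoinRoot.isRoot_root g).dvd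
      (by simpa using! map_dvd (algebraMap (ZMod p) (AdjoinRoot g)) hdvd)
  have hroot : ∀ j ∈ Finset.Icc 1 (q - 1),
      (AdjoinRoot.root g) ^ j ∈ (g.map (algebraMap (ZMod p) (AdjoinRoot g))).roots.toFinset := by
    intro j hj
    rw [Finset.mem_Icc] at hj
    have hj' : ¬ q ∣ j := fun h => by
      have := Nat.le_of_dvd (by omega) h
      have := hq.two_le
      omega
    obtain ⟨σ, hσ⟩ := h2 j hj'
    have h0 : aeval (T ^ j) g = 0 := aeval_pow_eq_zero hσ g (minpoly.aeval _ _)
    have h3 : g ∣ g.comp (X ^ j) := by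
      apply minpoly.dvd
      rw [aeval_comp]
      simpa using h0
    rw [Multiset.mem_toFinset, mem_roots (map_ne_zero hirr.ne_zero), IsRoot.def, eval_map,
      ← aeval_def]
    obtain ⟨c, hc⟩ := h3
    have h4 : aeval (AdjoinRoot.root g) (g.comp (X ^ j)) = 0 := by
      rw [hc, map_mul, AdjoinRoot.aeval_eq, AdjoinRoot.mk_self, zero_mul]
    rw [aeval_comp] at h4
    simpa using h4
  have hcard : q - 1 ≤ g.natDegree := by
    have hinj : Set.InjOn (fun j : ℕ => (AdjoinRoot.root g) ^ j) (Finset.Icc 1 (q - 1)) := by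
      intro i hi j hj hij
      simp only [Finset.coe_Icc, Set.mem_Icc] at hi hj
      have := hq.two_le
      exact hζ.pow_inj (by omega) (by omega) hij
    have h5 := Finset.card_le_card_of_injOn _ hroot hinj
    rw [Nat.card_Icc] at h5
    calc q - 1 = q - 1 + 1 - 1 := by omega
      _ ≤ _ := h5
      _ ≤ Multiset.card (g.map (algebraMap (ZMod p) (AdjoinRoot g))).roots :=
          Multiset.toFinset_card_le _
      _ ≤ (g.map (algebraMap (ZMod p) (AdjoinRoot g))).natDegree := card_roots' _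
      _ = g.natDegree := natDegree_map _
  omega

end

end Cfsg.Agent.Lib.Helper64
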