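import Mathlib

set_option autoImplicit false

/-! Modules over `ZMod p` with an operator `T` killed by an irreducible polynomial:
they are vector spaces over `AdjoinRoot f`; consequences for intertwining maps. -/

namespace Cfsg.Agent.Lib.Helper64

open Polynomial

section general

variable {k : Type*} [Field k] {V : Type*} [AddCommGroup V] [Module k V]

theorem isTorsionBySet_aeval (f : k[X]) (T : Module.End k V) (h : aeval T f = 0) :
    Module.IsTorsionBySet k[X] (Module.AEval' T) ((Ideal.span {f} : Ideal k[X]) : Set k[X]) := by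
  rw [Ideal.span, Module.isTorsionBySet_span_singleton_iff]
  intro x
  obtain ⟨m, rfl⟩ := (Module.AEval'.of T).surjective x
  have := Module.AEval.of_aeval_smul (R := k) (M := V) T f m
  rw [Module.AEval'.of, ← this, h]
  simp

/-- the `AdjoinRoot f`-module structure on `V` with `X` acting as `T`. -/
noncomputable def adjoinRootModule (f : k[X]) (T : Module.End k V) (h : aeval T f = 0) :
    Module (AdjoinRoot f) (Module.AEval' T) :=
  Module.IsTorsionBySet.module (isTorsionBySet_aeval f T h)

theorem root_smul_of (f : k[X]) (T : Module.End k V) (h : aeval T f = 0) (m : V) :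
    letI := adjoinRootModule f T h
    (AdjoinRoot.root f) • (Module.AEval'.of T m) = Module.AEval'.of T (T m) := by
  let _ := adjoinRootModule f T h
  have h1 := Module.IsTorsionBySet.mk_smul (isTorsionBySet_aeval f T h) X (Module.AEval'.of T m)
  rw [Module.AEval'.X_smul_of] at h1
  exact h1

theorem exists_intertwiner [Finite k] [Finite V] (f : k[X]) (hf : Irreducible f) (hm : f.Monic)
    (T T' : Module.End k V) (h : aeval T f = 0) (h' : aeval T' f = 0) :
    ∃ σ : V ≃+ V, ∀ u, σ (T u) = T' (σ u) := by
  have : Fact (Irreducible f) := ⟨hf⟩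
  let m1 := adjoinRootModule f T h
  let m2 := adjoinRootModule f T' h'
  have := hm.finite_adjoinRoot
  have hF : Finite (AdjoinRoot f) := Module.finite_of_finite k
  have f1 : Finite (Module.AEval' T) := (Module.AEval'.of T).toEquiv.finite_iff.1 inferInstance
  have f2 : Finite (Module.AEval' T') := (Module.AEval'.of T').toEquiv.finite_iff.1 inferInstance
  have c1 : Nat.card (Module.AEval' T) = Nat.card V :=
    (Nat.card_congr (Module.AEval'.of T).toEquiv).symm
  have c2 : Nat.card (Module.AEval' T') = Nat.card V :=
    (Nat.card_congr (Module.AEval'.of T').toEquiv).symm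
  have e1 := Module.natCard_eq_pow_finrank (K := AdjoinRoot f) (V := Module.AEval' T)
  have e2 := Module.natCard_eq_pow_finrank (K := AdjoinRoot f) (V := Module.AEval' T')
  have hlt : 1 < Nat.card (AdjoinRoot f) := Finite.one_lt_card
  have heq : Module.finrank (AdjoinRoot f) (Module.AEval' T)
      = Module.finrank (AdjoinRoot f) (Module.AEval' T') := by
    apply Nat.pow_right_injective hlt
    change Nat.card (AdjoinRoot f) ^ _ = Nat.card (AdjoinRoot f) ^ _
    rw [← e1, ← e2, c1, c2]
  let e := LinearEquiv.ofFinrankEq (R := AdjoinRoot f) (Module.AEval' T) (Module.AEval' T') heq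
  refine ⟨(Module.AEval'.of T).toAddEquiv.trans
    (e.toAddEquiv.trans (Module.AEval'.of T').symm.toAddEquiv), fun u => ?_⟩
  change (Module.AEval'.of T').symm (e (Module.AEval'.of T (T u)))
    = T' ((Module.AEval'.of T').symm (e (Module.AEval'.of T u)))
  rw [← root_smul_of f T h u, map_smul]
  obtain ⟨m, hm'⟩ := (Module.AEval'.of T').surjective (e (Module.AEval'.of T u))
  rw [← hm', root_smul_of f T' h' m]
  simp

theorem exists_commuting_equiv (f : k[X]) (hf : Irreducible f)
    (T : Module.End k V) (h : aeval T f = 0) {v w : V} (hv : v ≠ 0) (hw : w ≠ 0) :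
    ∃ σ : V ≃+ V, σ v = w ∧ ∀ u, σ (T u) = T (σ u) := by
  have : Fact (Irreducible f) := ⟨hf⟩
  let m1 := adjoinRootModule f T h
  have hv' : Module.AEval'.of T v ≠ 0 := by simpa using hv
  have hw' : Module.AEval'.of T w ≠ 0 := by simpa using hw
  let e0 := (LinearEquiv.toSpanNonzeroSingleton (AdjoinRoot f) _ _ hv').symm.trans
    (LinearEquiv.toSpanNonzeroSingleton (AdjoinRoot f) _ _ hw')
  obtain ⟨g, hg⟩ := Submodule.exists_linearEquiv_restrict_eq e0
  refine ⟨(Module.AEval'.of T).toAddEquiv.trans
    (g.toAddEquiv.trans (Module.AEval'.of T).symm.toAddEquiv), ?_, fun u => ?_⟩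
  · change (Module.AEval'.of T).symm (g (Module.AEval'.of T v)) = w
    have h1 := hg ⟨Module.AEval'.of T v, Submodule.mem_span_singleton_self _⟩
    have h2 : e0 ⟨Module.AEval'.of T v, Submodule.mem_span_singleton_self _⟩
        = ⟨Module.AEval'.of T w, Submodule.mem_span_singleton_self _⟩ := by
      have h3 := LinearEquiv.coord_self (AdjoinRoot f) _ _ hv'
      simp only [e0, LinearEquiv.trans_apply]
      rw [h3]
      simp
    rw [h2] at h1
    simp only at h1
    rw [← h1]
    simp
  · change (Module.AEval'.of T).symm (g (Module.AEval'.of T (T u)))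
      = T ((Module.AEval'.of T).symm (g (Module.AEval'.of T u)))
    rw [← root_smul_of f T h u, map_smul]
    obtain ⟨m, hm'⟩ := (Module.AEval'.of T).surjective (g (Module.AEval'.of T u))
    rw [← hm', root_smul_of f T h m]
    simp

end general

end Cfsg.Agent.Lib.Helper64
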