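import Cfsg.Agent.Lib.Helper64.CycMod
import Cfsg.Agent.Lib.Helper64.CycFwd

set_option autoImplicit false

/-! Multiplicative wrappers: an automorphism `τ` of prime order `q`, without fixed points, of a
finite elementary abelian `p`-group `W`. -/

namespace Cfsg.Agent.Lib.Helper64

open Polynomial

section

variable {p q : ℕ} [Fact p.Prime] [Fact q.Prime] {W : Type*} [CommGroup W]

/-- the `ZMod p`-module structure on `Additive W`. -/
noncomputable def addModule (hexp : ∀ w : W, w ^ p = 1) : Module (ZMod p) (Additive W) :=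
  AddCommGroup.zmodModule (n := p) (fun x => by
    induction x using Additive.rec with
    | ofMul w => rw [← ofMul_pow, hexp]; rfl)

/-- the operator on `Additive W` given by `τ`. -/
noncomputable def addOp (hexp : ∀ w : W, w ^ p = 1) (τ : MulAut W) :
    letI := addModule hexp
    Module.End (ZMod p) (Additive W) :=
  letI := addModule hexp
  AddMonoidHom.toZModLinearMap p (MonoidHom.toAdditive τ.toMonoidHom)

theorem addOp_apply (hexp : ∀ w : W, w ^ p = 1) (τ : MulAut W) (w : W) :
    letI := addModule hexp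
    addOp hexp τ (Additive.ofMul w) = Additive.ofMul (τ w) := rfl

theorem addOp_pow_apply (hexp : ∀ w : W, w ^ p = 1) (τ : MulAut W) (n : ℕ) (w : W) :
    letI := addModule hexp
    (addOp hexp τ ^ n) (Additive.ofMul w) = Additive.ofMul ((τ ^ n) w) := by
  letI := addModule hexp
  induction n generalizing w with
  | zero => simp
  | succ n ih =>
    rw [pow_succ, Module.End.mul_apply, addOp_apply, ih, pow_succ, MulAut.mul_apply]

theorem addOp_pow (hexp : ∀ w : W, w ^ p = 1) (τ : MulAut W) (n : ℕ) :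
    letI := addModule hexp
    addOp hexp τ ^ n = addOp hexp (τ ^ n) := by
  letI := addModule hexp
  ext x
  induction x using Additive.rec with
  | ofMul w => rw [addOp_pow_apply, addOp_apply]

theorem orderOf_eq_of_transitive_mul (hpq : p ≠ q) [Finite W] [Nontrivial W]
    (hexp : ∀ w : W, w ^ p = 1) (τ : MulAut W) (hτ : τ ^ q = 1) (hfix : ∀ w, τ w = w → w = 1)
    (h1 : ∀ v w : W, v ≠ 1 → w ≠ 1 → ∃ (σ : MulAut W) (j : ℕ), ¬ q ∣ j ∧ σ v = w ∧
      ∀ u, σ (τ u) = (τ ^ j) (σ u))
    (h2 : ∀ j : ℕ, ¬ q ∣ j → ∃ σ : MulAut W, ∀ u, σ (τ u) = (τ ^ j) (σ u)) :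
    orderOf (p : ZMod q) = q - 1 := by
  letI := addModule hexp
  apply orderOf_eq_of_transitive hpq (addOp hexp τ)
  · rw [addOp_pow, hτ]
    ext x
    rfl
  · intro x hx
    induction x using Additive.rec with
    | ofMul w =>
      rw [addOp_apply] at hx
      rw [hfix w (Additive.ofMul.injective hx)]
      rfl
  · intro v w hv hw
    obtain ⟨σ, j, hj, hσ, hc⟩ := h1 v.toMul w.toMul (fun h => hv (by
      rw [← ofMul_toMul v, h]; rfl)) (fun h => hw (by rw [← ofMul_toMul w, h]; rfl))
    refine ⟨MulEquiv.toAdditive σ, j, hj, ?_, ?_⟩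
    · change Additive.ofMul (σ v.toMul) = w
      rw [hσ]; rfl
    · intro u
      induction u using Additive.rec with
      | ofMul u =>
        change Additive.ofMul (σ (τ u)) = (addOp hexp τ ^ j) (Additive.ofMul (σ u))
        rw [addOp_pow_apply, hc]
  · intro j hj
    obtain ⟨σ, hc⟩ := h2 j hj
    refine ⟨MulEquiv.toAdditive σ, ?_⟩
    intro u
    induction u using Additive.rec with
    | ofMul u =>
      change Additive.ofMul (σ (τ u)) = (addOp hexp τ ^ j) (Additive.ofMul (σ u))
      rw [addOp_pow_apply, hc]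

theorem cyclotomic_irreducible_of_orderOf (hpq : p ≠ q) (hord : orderOf (p : ZMod q) = q - 1) :
    Irreducible (cyclotomic q (ZMod p)) := by
  have hp : p.Prime := Fact.out
  have hq : q.Prime := Fact.out
  have hnd : ¬ p ∣ q := fun h => hpq ((Nat.prime_dvd_prime_iff_eq hp hq).1 h)
  apply ZMod.irreducible_of_dvd_cyclotomic_of_natDegree hnd dvd_rfl
  rw [natDegree_cyclotomic, Nat.totient_prime hq, ← hord, ← orderOf_units]
  simp

theorem pow_fix_imp_fix {τ : MulAut W} (hτ : τ ^ q = 1) {j : ℕ} (hj : ¬ q ∣ j) {w : W}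
    (h : (τ ^ j) w = w) : τ w = w := by
  have hq : q.Prime := Fact.out
  have hcop : Nat.Coprime j q := ((Nat.Prime.coprime_iff_not_dvd hq).2 hj).symm
  obtain ⟨j', -, hj'⟩ := Nat.exists_mul_mod_eq_one_of_coprime hcop hq.one_lt
  have hTT : (τ ^ j) ^ j' = τ := by
    rw [← pow_mul, ← Nat.div_add_mod (j * j') q, hj', pow_add, pow_mul, hτ]
    simp
  have h2 : ∀ n : ℕ, ((τ ^ j) ^ n) w = w := by
    intro n
    induction n with
    | zero => simp
    | succ n ih => rw [pow_succ, MulAut.mul_apply, h, ih]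
  have := h2 j'
  rwa [hTT] at this

theorem exists_auts_of_orderOf (hpq : p ≠ q) [Finite W]
    (hexp : ∀ w : W, w ^ p = 1) (τ : MulAut W) (hτ : τ ^ q = 1) (hfix : ∀ w, τ w = w → w = 1)
    (hord : orderOf (p : ZMod q) = q - 1) :
    (∀ v w : W, v ≠ 1 → w ≠ 1 → ∃ σ : MulAut W, σ v = w ∧ ∀ u, σ (τ u) = τ (σ u)) ∧
    (∀ j : ℕ, ¬ q ∣ j → ∃ σ : MulAut W, ∀ u, σ (τ u) = (τ ^ j) (σ u)) := by
  letI := addModule hexp
  have hirr := cyclotomic_irreducible_of_orderOf hpq hord
  have key : ∀ τ' : MulAut W, τ' ^ q = 1 → (∀ w, τ' w = w → w = 1) →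
      aeval (addOp hexp τ') (cyclotomic q (ZMod p)) = 0 := by
    intro τ' hτ' hfix'
    apply aeval_cyclotomic_eq_zero
    · rw [addOp_pow, hτ']
      ext x
      rfl
    · intro x hx
      induction x using Additive.rec with
      | ofMul w =>
        rw [addOp_apply] at hx
        rw [hfix' w (Additive.ofMul.injective hx)]
        rfl
  constructor
  · intro v w hv hw
    obtain ⟨σ, hσ, hc⟩ := exists_commuting_equiv (cyclotomic q (ZMod p)) hirr (addOp hexp τ)
      (key τ hτ hfix) (v := Additive.ofMul v) (w := Additive.ofMul w)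
      (fun h => hv (Additive.ofMul.injective h)) (fun h => hw (Additive.ofMul.injective h))
    refine ⟨MulEquiv.toAdditive.symm σ, ?_, ?_⟩
    · change (σ (Additive.ofMul v)).toMul = w
      rw [hσ]; rfl
    · intro u
      change (σ (Additive.ofMul (τ u))).toMul = τ ((σ (Additive.ofMul u)).toMul)
      rw [← addOp_apply hexp, hc]
      rfl
  · intro j hj
    obtain ⟨σ, hc⟩ := exists_intertwiner (cyclotomic q (ZMod p)) hirr (cyclotomic.monic q _)
      (addOp hexp τ) (addOp hexp (τ ^ j)) (key τ hτ hfix) (key (τ ^ j)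
        (by rw [← pow_mul, mul_comm, pow_mul, hτ, one_pow])
        (fun w hw => hfix w (pow_fix_imp_fix hτ hj hw)))
    refine ⟨MulEquiv.toAdditive.symm σ, ?_⟩
    intro u
    change (σ (Additive.ofMul (τ u))).toMul = (τ ^ j) ((σ (Additive.ofMul u)).toMul)
    rw [← addOp_apply hexp, hc]
    rfl

end

end Cfsg.Agent.Lib.Helper64
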