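import Cfsg.Agent.Lib.Helper64.CycMul
import Cfsg.Agent.Lib.Helper64.Orb3Grp
import Cfsg.Agent.Lib.Helper82.Frob

set_option autoImplicit false

/-! Groups `P ⋊ C_q` with `P` elementary abelian, `C_q` fixed-point-free, `p` a primitive root
mod `q`: the automorphism group has exactly three orbits. -/

namespace Cfsg.Agent.Lib.Helper64

theorem cover_of_primitive_root {G : Type*} [Group G] [Finite G] {p q : ℕ} [Fact p.Prime]
    [Fact q.Prime] (hpq : p ≠ q) (A : Subgroup G) [hA : A.Normal]
    (hcomm : ∀ a b : A, a * b = b * a) (hexp : ∀ a : A, a ^ p = 1)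
    (x : G) (hx : orderOf x = q) (hc : A.IsComplement' (Subgroup.zpowers x))
    (hord : orderOf (p : ZMod q) = q - 1)
    (hfpf : ∀ h ∈ Subgroup.zpowers x, h ≠ 1 → ∀ k ∈ A, h * k = k * h → k = 1)
    (y : G) (hyA : y ∈ A) (hy1 : y ≠ 1) :
    ∀ g : G, g = 1 ∨ (∃ φ : MulAut G, φ y = g) ∨ (∃ φ : MulAut G, φ x = g) := by
  have hq : q.Prime := Fact.out
  letI : CommGroup A := { (inferInstance : Group A) with mul_comm := hcomm }
  have hx1 : x ≠ 1 := by
    rintro rfl
    rw [orderOf_one] at hx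
    exact hq.one_lt.ne hx
  let τ : MulAut A := MulAut.conjNormal x
  have hτ : τ ^ q = 1 := by
    rw [← map_pow, ← hx, pow_orderOf_eq_one, map_one]
  have hfix : ∀ w : A, τ w = w → w = 1 := by
    intro w hw
    have h1 : x * w * x⁻¹ = w := by
      have := congrArg (Subtype.val) hw
      simpa [τ, MulAut.conjNormal_apply] using this
    have h2 : x * w = w * x := by
      nth_rewrite 2 [← h1]
      group
    exact Subtype.ext (hfpf x (Subgroup.mem_zpowers x) hx1 w w.2 h2)
  obtain ⟨H1, H2⟩ := exists_auts_of_orderOf hpq hexp τ hτ hfix hord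
  intro g
  by_cases hg1 : g = 1
  · exact Or.inl hg1
  right
  by_cases hgA : g ∈ A
  · left
    obtain ⟨σ, hσ, hcm⟩ := H1 ⟨y, hyA⟩ ⟨g, hgA⟩ (fun h => hy1 (congrArg Subtype.val h))
      (fun h => hg1 (congrArg Subtype.val h))
    obtain ⟨φ, hφ, -⟩ := exists_aut_extending A x hc σ 1 (by simp) (by
      intro u
      have := congrArg Subtype.val (hcm u)
      simpa [τ, MulAut.conjNormal_apply] using this)
    refine ⟨φ, ?_⟩
    have := hφ ⟨y, hyA⟩
    rw [hσ] at this
    exact this
  · right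
    obtain ⟨w, hwA, hw⟩ := Helper82.exists_conj_mem_of_not_mem A (Subgroup.zpowers x) hc hfpf hgA
    obtain ⟨j, hj⟩ := (mem_powers_iff_mem_zpowers).2 hw
    simp only at hj
    have hqj : ¬ q ∣ j := by
      intro hd
      rw [← hx, orderOf_dvd_iff_pow_eq_one, hj] at hd
      apply hg1
      have : g = w⁻¹ * (w * g * w⁻¹) * w := by group
      rw [this, hd]; group
    obtain ⟨σ, hcm⟩ := H2 j hqj
    obtain ⟨φ, -, hφ⟩ := exists_aut_extending A x hc σ j
      (by rw [hx]; exact (Nat.Prime.coprime_iff_not_dvd hq).2 hqj) (by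
      intro u
      have h5 : τ ^ j = MulAut.conjNormal (x ^ j) := (map_pow _ _ _).symm
      have := congrArg Subtype.val (hcm u)
      rw [h5, MulAut.conjNormal_apply] at this
      exact this)
    refine ⟨MulAut.conj w⁻¹ * φ, ?_⟩
    rw [MulAut.mul_apply, hφ, hj, MulAut.conj_apply]
    group

end Cfsg.Agent.Lib.Helper64
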