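import Cfsg.Agent.Lib.Helper64.CycMul
import Cfsg.Agent.Lib.Helper64.Orb3Grp
import Cfsg.Agent.Lib.Helper1.Fpf3

set_option autoImplicit false

/-! A finite group whose automorphism group has the three orbits `1`, `a^Aut`, `b^Aut`
(`a`, `b` of distinct prime orders `p`, `q`), with a characteristic abelian subgroup containing
`a`. -/

namespace Cfsg.Agent.Lib.Helper64

theorem mem_char_iff {G : Type*} [Group G] (A : Subgroup G) [hA : A.Characteristic]
    (φ : MulAut G) (g : G) : φ g ∈ A ↔ g ∈ A := by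
  have := hA.fixed φ
  constructor
  · intro h
    rw [← this]
    exact h
  · intro h
    rw [← this] at h
    exact h

/-- restriction of an automorphism to a characteristic subgroup. -/
def resAut {G : Type*} [Group G] (A : Subgroup G) [hA : A.Characteristic] (φ : MulAut G) :
    MulAut A where
  toFun u := ⟨φ u, (mem_char_iff A φ u).2 u.2⟩
  invFun u := ⟨φ.symm u, (mem_char_iff A φ.symm u).2 u.2⟩
  left_inv u := by simp
  right_inv u := by simp
  map_mul' u v := by simp

theorem resAut_apply {G : Type*} [Group G] (A : Subgroup G) [hA : A.Characteristic]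
    (φ : MulAut G) (u : A) : ((resAut A φ u : A) : G) = φ u := rfl

theorem fwd_core {G : Type*} [Group G] [Finite G] {p q : ℕ} [Fact p.Prime] [Fact q.Prime]
    (hpq : p ≠ q) (a b : G) (ha : orderOf a = p) (hb : orderOf b = q)
    (cover : ∀ g : G, g = 1 ∨ (∃ φ : MulAut G, φ a = g) ∨ (∃ φ : MulAut G, φ b = g))
    (A : Subgroup G) [hA : A.Characteristic] (hAcomm : ∀ x ∈ A, ∀ y ∈ A, x * y = y * x)
    (haA : a ∈ A) :
    ∃ n : ℕ, 1 ≤ n ∧ Nat.card G = p ^ n * q ∧ (∀ P : Sylow p G, (P : Subgroup G) = A) ∧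
      (∀ g ∈ A, g ^ p = 1) ∧ orderOf (p : ZMod q) = q - 1 ∧
      ∀ x y : G, orderOf x = q → orderOf y = p → x * y * x⁻¹ ≠ y := by
  have hp : p.Prime := Fact.out
  have hq : q.Prime := Fact.out
  have hord : ∀ g : G, orderOf g = 1 ∨ orderOf g = p ∨ orderOf g = q := by
    intro g
    rcases cover g with rfl | ⟨φ, rfl⟩ | ⟨φ, rfl⟩
    · simp
    · right; left; rw [MulEquiv.orderOf_eq, ha]
    · right; right; rw [MulEquiv.orderOf_eq, hb]
  have ha1 : a ≠ 1 := by
    rintro rfl
    rw [orderOf_one] at ha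
    exact hp.one_lt.ne ha
  have hb1 : b ≠ 1 := by
    rintro rfl
    rw [orderOf_one] at hb
    exact hq.one_lt.ne hb
  have nopq : ∀ x y : G, Commute x y → orderOf x = q → orderOf y = p → False := by
    intro x y hxy hx hy
    have h1 := hxy.orderOf_mul_eq_mul_orderOf_of_coprime
      (by rw [hx, hy]; exact (Nat.coprime_primes hq hp).2 hpq.symm)
    rw [hx, hy] at h1
    have h2 := hp.two_le
    have h3 := hq.two_le
    rcases hord (x * y) with h | h | h <;> rw [h1] at h <;> nlinarith
  have orbp : ∀ g : G, orderOf g = p → ∃ φ : MulAut G, φ a = g := by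
    intro g hg
    rcases cover g with rfl | h | ⟨φ, rfl⟩
    · rw [orderOf_one] at hg; exact absurd hg hp.one_lt.ne
    · exact h
    · rw [MulEquiv.orderOf_eq, hb] at hg; exact absurd hg.symm hpq
  have orbq : ∀ g : G, orderOf g = q → ∃ φ : MulAut G, φ b = g := by
    intro g hg
    rcases cover g with rfl | ⟨φ, rfl⟩ | h
    · rw [orderOf_one] at hg; exact absurd hg hq.one_lt.ne
    · rw [MulEquiv.orderOf_eq, ha] at hg; exact absurd hg hpq
    · exact h
  have hpA : ∀ g : G, orderOf g = p → g ∈ A := by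
    intro g hg
    obtain ⟨φ, rfl⟩ := orbp g hg
    exact (mem_char_iff A φ a).2 haA
  have hqA : ∀ g ∈ A, orderOf g ≠ q := fun g hg hgq =>
    nopq g a (hAcomm g hg a haA) hgq ha
  have hAord : ∀ g ∈ A, g ≠ 1 → orderOf g = p := by
    intro g hg hg1
    rcases hord g with h | h | h
    · exact absurd (orderOf_eq_one_iff.1 h) hg1
    · exact h
    · exact absurd h (hqA g hg)
  have hAexp : ∀ g ∈ A, g ^ p = 1 := by
    intro g hg
    by_cases hg1 : g = 1
    · rw [hg1, one_pow]
    · rw [← hAord g hg hg1, pow_orderOf_eq_one]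
  have hfpf : ∀ x y : G, orderOf x = q → orderOf y = p → x * y * x⁻¹ ≠ y := by
    intro x y hx hy h
    refine nopq x y ?_ hx hy
    change x * y = y * x
    nth_rewrite 2 [← h]
    group
  have hApg : IsPGroup p A := by
    intro g
    refine ⟨1, ?_⟩
    rw [pow_one]
    exact Subtype.ext (hAexp g g.2)
  have hSyl : ∀ P : Sylow p G, (P : Subgroup G) = A := by
    intro P
    have hPA : (P : Subgroup G) ≤ A := by
      intro g hg
      obtain ⟨k, hk⟩ := P.2 ⟨g, hg⟩
      have hk' : g ^ p ^ k = 1 := congrArg Subtype.val hk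
      have hd := orderOf_dvd_of_pow_eq_one hk'
      rcases hord g with h | h | h
      · rw [orderOf_eq_one_iff.1 h]; exact A.one_mem
      · exact hpA g h
      · rw [h] at hd
        exact absurd ((Nat.prime_dvd_prime_iff_eq hq hp).1 (hq.dvd_of_dvd_pow hd)).symm hpq
    exact (P.is_maximal' hApg hPA).symm
  have hAnorm : A.Normal := inferInstance
  -- the Sylow q-subgroup
  have hbpg : IsPGroup q (Subgroup.zpowers b) := by
    apply IsPGroup.of_card (n := 1)
    rw [Nat.card_zpowers, hb, pow_one]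
  obtain ⟨Q, hQ⟩ := hbpg.exists_le_sylow
  have hAbot : A ≠ ⊥ := by
    intro h
    rw [h, Subgroup.mem_bot] at haA
    exact ha1 haA
  have hQord : ∀ g ∈ (Q : Subgroup G), g ≠ 1 → orderOf g = q := by
    intro g hg hg1
    obtain ⟨k, hk⟩ := Q.2 ⟨g, hg⟩
    have hk' : g ^ q ^ k = 1 := congrArg Subtype.val hk
    have hd := orderOf_dvd_of_pow_eq_one hk'
    rcases hord g with h | h | h
    · exact absurd (orderOf_eq_one_iff.1 h) hg1
    · rw [h] at hd
      exact absurd ((Nat.prime_dvd_prime_iff_eq hp hq).1 (hp.dvd_of_dvd_pow hd)) hpq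
    · exact h
  have hQeq : (Q : Subgroup G) = Subgroup.zpowers b := by
    apply le_antisymm _ hQ
    intro g hg
    by_cases hg1 : g = 1
    · rw [hg1]; exact Subgroup.one_mem _
    have := Helper1.fpf_pgroup_unique q (Q : Subgroup G) A Q.2
      (by rw [Subgroup.normalizer_eq_top]; exact le_top) hAbot (by
        intro e he he1
        rw [eq_bot_iff]
        intro y hy
        obtain ⟨hyA, hyc⟩ := Subgroup.mem_inf.1 hy
        rw [Subgroup.mem_bot]
        by_contra hy1
        rw [Subgroup.mem_centralizer_singleton_iff] at hyc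
        exact nopq e y hyc.symm (hQord e he he1) (hAord y hyA hy1))
      (Subgroup.zpowers g) (Subgroup.zpowers b) (by rwa [Subgroup.zpowers_le]) hQ
      (by rw [Nat.card_zpowers, hQord g hg hg1]) (by rw [Nat.card_zpowers, hb])
    rw [← this]
    exact Subgroup.mem_zpowers g
  have hG0 : Nat.card G ≠ 0 := Nat.card_pos.ne'
  have hpf : (Nat.card G).primeFactors = {p, q} := by
    ext r
    rw [Nat.mem_primeFactors, Finset.mem_insert, Finset.mem_singleton]
    constructor
    · rintro ⟨hr, hrd, -⟩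
      have : Fact r.Prime := ⟨hr⟩
      obtain ⟨g, hg⟩ := exists_prime_orderOf_dvd_card' (G := G) r hrd
      rcases hord g with h | h | h
      · rw [hg] at h; exact absurd h hr.one_lt.ne'
      · left; rw [← hg, h]
      · right; rw [← hg, h]
    · rintro (rfl | rfl)
      · exact ⟨hp, ha ▸ orderOf_dvd_natCard a, hG0⟩
      · exact ⟨hq, hb ▸ orderOf_dvd_natCard b, hG0⟩
  have hcardG : Nat.card G = p ^ (Nat.card G).factorization p * q ^ (Nat.card G).factorization q := by
    conv_lhs => rw [← Nat.prod_factorization_pow_eq_self hG0]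
    rw [Finsupp.prod, Nat.support_factorization, hpf, Finset.prod_pair hpq]
  have hcardQ : q ^ (Nat.card G).factorization q = q := by
    rw [← Q.card_eq_multiplicity, hQeq, Nat.card_zpowers, hb]
  have hcardA : Nat.card A = p ^ (Nat.card G).factorization p := by
    rw [← hSyl default, Sylow.card_eq_multiplicity]
  rw [hcardQ] at hcardG
  have hc : A.IsComplement' (Subgroup.zpowers b) := by
    apply Subgroup.isComplement'_of_coprime
    · rw [hcardA, Nat.card_zpowers, hb, ← hcardG]
    · rw [hcardA, Nat.card_zpowers, hb]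
      exact Nat.Coprime.pow_left _ ((Nat.coprime_primes hp hq).2 hpq)
  refine ⟨(Nat.card G).factorization p, hp.factorization_pos_of_dvd hG0
    (ha ▸ orderOf_dvd_natCard a), hcardG, hSyl, hAexp, ?_, hfpf⟩
  -- the primitive root statement
  letI : CommGroup A := { (inferInstance : Group A) with
    mul_comm := fun x y => Subtype.ext (hAcomm x x.2 y y.2) }
  have : Nontrivial A := ⟨⟨⟨a, haA⟩, 1, fun h => ha1 (congrArg Subtype.val h)⟩⟩
  let τ : MulAut A := MulAut.conjNormal b
  have hτpow : ∀ j : ℕ, τ ^ j = MulAut.conjNormal (b ^ j) := fun j => (map_pow _ _ _).symm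
  have hbA : b ∉ A := fun h => hqA b h hb
  have rel : ∀ (φ : MulAut G) (j : ℕ) (u : G), u ∈ A → φ b = u * b ^ j →
      ∀ v : A, resAut A φ (τ v) = (τ ^ j) (resAut A φ v) := by
    intro φ j u hu hφ v
    apply Subtype.ext
    rw [hτpow, MulAut.conjNormal_apply, resAut_apply, resAut_apply, MulAut.conjNormal_apply,
      map_mul, map_mul, map_inv, hφ]
    have hmem : b ^ j * φ v * (b ^ j)⁻¹ ∈ A :=
      hAnorm.conj_mem _ ((mem_char_iff A φ v).2 v.2) _
    have := hAcomm u hu _ hmem
    calc u * b ^ j * φ v * (u * b ^ j)⁻¹ = u * (b ^ j * φ v * (b ^ j)⁻¹) * u⁻¹ := by group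
      _ = b ^ j * φ v * (b ^ j)⁻¹ := by rw [this]; group
  apply orderOf_eq_of_transitive_mul hpq (fun w : A => Subtype.ext (hAexp w w.2)) τ
  · rw [hτpow, ← hb, pow_orderOf_eq_one, map_one]
  · intro w hw
    by_contra hw1
    have h1 : b * w * b⁻¹ = w := by
      have := congrArg Subtype.val hw
      rwa [MulAut.conjNormal_apply] at this
    exact hfpf b w hb (hAord w w.2 (fun h => hw1 (Subtype.ext h))) h1
  · intro v w hv hw
    obtain ⟨φ1, h1⟩ := orbp v (hAord v v.2 (fun h => hv (Subtype.ext h)))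
    obtain ⟨φ2, h2⟩ := orbp w (hAord w w.2 (fun h => hw (Subtype.ext h)))
    set φ : MulAut G := φ2 * φ1⁻¹ with hφ
    obtain ⟨⟨u, k⟩, huk⟩ := hc.2 (φ b)
    simp only at huk
    obtain ⟨j, hj⟩ := (mem_powers_iff_mem_zpowers).2 k.2
    simp only at hj
    refine ⟨resAut A φ, j, ?_, ?_, rel φ j u u.2 (by rw [hj, huk])⟩
    · intro hd
      rw [← hb, orderOf_dvd_iff_pow_eq_one, hj] at hd
      rw [hd, mul_one] at huk
      exact hbA ((mem_char_iff A φ b).1 (huk ▸ u.2))
    · apply Subtype.ext
      rw [resAut_apply, hφ, MulAut.mul_apply, ← h1, MulAut.inv_apply_self, h2]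
  · intro j hj
    have hoj : orderOf (b ^ j) = q := by
      rw [Nat.Coprime.orderOf_pow, hb]
      rw [hb]; exact (Nat.Prime.coprime_iff_not_dvd hq).2 hj
    obtain ⟨φ, hφ⟩ := orbq _ hoj
    exact ⟨resAut A φ, rel φ j 1 A.one_mem (by rw [hφ, one_mul])⟩

end Cfsg.Agent.Lib.Helper64
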