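import Cfsg.Agent.Lib.Helper25.QD

/-! Two quasi-dihedral groups of the same order are isomorphic. -/

set_option autoImplicit false

namespace Cfsg.Agent.Lib.Helper64

open Cfsg.Agent.Lib.Helper25

/-- normal form map. -/
def qdF {S : Type*} [Group S] (D : QDData S) : ZMod (2 ^ D.n) ⊕ ZMod (2 ^ D.n) → S :=
  Sum.elim D.R D.SR

theorem qdF_bijective {S : Type*} [Group S] [Finite S] (D : QDData S) :
    Function.Bijective (qdF D) := by
  have hf : Function.Injective (qdF D) := by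
    rintro (i | i) (j | j) hij
    · exact congrArg _ (D.R_inj hij)
    · exact absurd hij (D.R_ne_SR i j)
    · exact absurd hij.symm (D.R_ne_SR j i)
    · exact congrArg _ (D.SR_inj hij)
  have hcard : Nat.card (ZMod (2 ^ D.n) ⊕ ZMod (2 ^ D.n)) = Nat.card S := by
    rw [Nat.card_sum, Nat.card_zmod, D.card, pow_succ]; ring
  exact (Nat.bijective_iff_injective_and_card _).2 ⟨hf, hcard⟩

/-- the multiplication table. -/
def qdMul (n : ℕ) : ZMod (2 ^ n) ⊕ ZMod (2 ^ n) → ZMod (2 ^ n) ⊕ ZMod (2 ^ n) →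
    ZMod (2 ^ n) ⊕ ZMod (2 ^ n)
  | Sum.inl i, Sum.inl j => Sum.inl (i + j)
  | Sum.inl i, Sum.inr j => Sum.inr (i + j)
  | Sum.inr i, Sum.inl j => Sum.inr (i + (2 ^ (n - 1) - 1) * j)
  | Sum.inr i, Sum.inr j => Sum.inl (i + (2 ^ (n - 1) - 1) * j)

theorem qdF_mul {S : Type*} [Group S] (D : QDData S) (s t : ZMod (2 ^ D.n) ⊕ ZMod (2 ^ D.n)) :
    qdF D s * qdF D t = qdF D (qdMul D.n s t) := by
  rcases s with i | i <;> rcases t with j | j
  · exact D.R_mul_R i j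
  · exact D.R_mul_SR i j
  · exact D.SR_mul_R i j
  · exact D.SR_mul_SR i j

theorem qd_iso_aux {A B : Type*} [Group A] [Group B] [Finite A] [Finite B] (n : ℕ)
    (D₁ : QDData A) (D₂ : QDData B) (h₁ : D₁.n = n) (h₂ : D₂.n = n) : Nonempty (A ≃* B) := by
  subst h₁
  obtain ⟨n₂, hn, c, x, y, hx, hy, hxy⟩ := D₂
  simp only at h₂
  subst h₂
  set D₂ : QDData B := ⟨D₁.n, hn, c, x, y, hx, hy, hxy⟩ with hD₂
  let E : A ≃ B := (Equiv.ofBijective _ (qdF_bijective D₁)).symm.trans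
    (Equiv.ofBijective _ (qdF_bijective D₂))
  have hE : ∀ s, E (qdF D₁ s) = qdF D₂ s := by
    intro s
    change qdF D₂ ((Equiv.ofBijective _ (qdF_bijective D₁)).symm (qdF D₁ s)) = _
    rw [Equiv.ofBijective_symm_apply_apply]
  refine ⟨MulEquiv.mk' E ?_⟩
  intro a b
  obtain ⟨s, rfl⟩ := (qdF_bijective D₁).2 a
  obtain ⟨t, rfl⟩ := (qdF_bijective D₁).2 b
  rw [qdF_mul, hE, hE, hE]
  exact (qdF_mul D₂ s t).symm

theorem qd_iso {A B : Type*} [Group A] [Group B] [Finite A] [Finite B]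
    (hA : Cfsg.IsQuasiDihedral A) (hB : Cfsg.IsQuasiDihedral B) (hc : Nat.card A = Nat.card B) :
    Nonempty (A ≃* B) := by
  obtain ⟨n, hn, hcA, x, y, hx, hy, hxy⟩ := hA
  obtain ⟨n', hn', hcB, x', y', hx', hy', hxy'⟩ := hB
  have hnn : n = n' := by
    rw [hcA, hcB] at hc
    have := Nat.pow_right_injective (le_refl 2) hc
    omega
  subst hnn
  exact qd_iso_aux n ⟨n, hn, hcA, x, y, hx, hy, hxy⟩ ⟨n, hn', hcB, x', y', hx', hy', hxy'⟩ rfl rfl

end Cfsg.Agent.Lib.Helper64
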