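import Mathlib.GroupTheory.GroupAction.Jordan
import Mathlib.GroupTheory.GroupAction.Primitive

set_option autoImplicit false

namespace Cfsg.Agent.Lib.Helper64

open MulAction SubMulAction
open scoped Pointwise

/-- A quasiprimitive group with a Jordan set on which the fixing subgroup acts primitively
is primitive. -/
theorem isPreprimitive_of_quasi_of_jordan_prim {G Ω : Type*} [Group G] [MulAction G Ω]
    (hqp : ∀ N : Subgroup G, N.Normal → N ≠ ⊥ → MulAction.IsPretransitive ↥N Ω)
    (Γ : Set Ω) (hΓ : Γ.Nontrivial)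
    (hJp : IsPreprimitive ↥(fixingSubgroup G Γᶜ) ↥(ofFixingSubgroup G Γᶜ)) :
    IsPreprimitive G Ω := by
  obtain ⟨γ, hγ, γ', hγ', hne⟩ := hΓ
  have hmem : ∀ x, x ∈ Γ → x ∈ ofFixingSubgroup G Γᶜ := fun x hx => by
    rw [mem_ofFixingSubgroup_iff]; simpa using hx
  have htr := hJp.toIsPretransitive
  obtain ⟨h0, hh0⟩ := htr.exists_smul_eq ⟨γ, hmem γ hγ⟩ ⟨γ', hmem γ' hγ'⟩
  have hh0' : (h0 : G) • γ = γ' := congrArg Subtype.val hh0
  have hfix : ∀ x, x ∉ Γ → (h0 : G) • x = x := by
    intro x hx
    have := h0.2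
    rw [mem_fixingSubgroup_iff] at this
    exact this x (by simpa using hx)
  have hstab : ∀ x, x ∈ Γ → (h0 : G) • x ∈ Γ := by
    intro x hx
    have := (h0 • (⟨x, hmem x hx⟩ : ofFixingSubgroup G Γᶜ)).2
    rw [mem_ofFixingSubgroup_iff] at this
    have h2 : h0 • x ∈ Γ := by simpa using this
    exact h2
  have hh1 : (h0 : G) ≠ 1 := by
    intro h
    apply hne
    rw [← hh0', h, one_smul]
  have hGtr : IsPretransitive G Ω := by
    have : IsPretransitive (⊤ : Subgroup G) Ω := hqp ⊤ inferInstance (by
      intro h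
      apply hh1
      have := Subgroup.mem_top (h0 : G)
      rw [h] at this
      simpa using this)
    constructor
    intro x y
    obtain ⟨g, hg⟩ := this.exists_smul_eq x y
    exact ⟨g, hg⟩
  have key : ∀ B : Set Ω, IsBlock G B → γ ∈ B → IsTrivialBlock B := by
    intro B hB hγB
    have hB' := isBlock_iff_smul_eq_of_nonempty.mp hB
    have hC : IsBlock (fixingSubgroup G Γᶜ)
        (Subtype.val ⁻¹' B : Set (ofFixingSubgroup G Γᶜ)) :=
      (hB.subgroup).subtype_val_preimage
    rcases hJp.isTrivialBlock_of_isBlock hC with hsub | huniv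
    · left
      intro x hx y hy
      by_contra hxy
      obtain ⟨δ, hδB, hδγ⟩ : ∃ δ ∈ B, δ ≠ γ := by
        by_cases hxγ : x = γ
        · exact ⟨y, hy, fun h => hxy (by rw [hxγ, h])⟩
        · exact ⟨x, hx, hxγ⟩
      have hδΓ : δ ∉ Γ := by
        intro hδΓ
        apply hδγ
        have := @hsub ⟨δ, hmem δ hδΓ⟩ hδB ⟨γ, hmem γ hγ⟩ hγB
        exact congrArg Subtype.val this
      have h1 : (h0 : G) • B = B := by
        apply hB'
        refine ⟨δ, ?_, hδB⟩
        rw [← hfix δ hδΓ]
        exact Set.smul_mem_smul_set hδB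
      have h2 : γ' ∈ B := by
        rw [← h1, ← hh0']
        exact Set.smul_mem_smul_set hγB
      apply hne
      have := @hsub ⟨γ, hmem γ hγ⟩ hγB ⟨γ', hmem γ' hγ'⟩ h2
      exact congrArg Subtype.val this
    · right
      have hΓB : ∀ x, x ∈ Γ → x ∈ B := by
        intro x hx
        have : (⟨x, hmem x hx⟩ : ofFixingSubgroup G Γᶜ) ∈
            (Subtype.val ⁻¹' B : Set (ofFixingSubgroup G Γᶜ)) := by
          rw [huniv]; trivial
        exact this
      have hN : (h0 : G) ∈ (stabilizer G B).normalCore := by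
        intro b
        rw [mem_stabilizer_iff]
        apply hB'
        refine ⟨(b * h0 * b⁻¹) • γ, Set.smul_mem_smul_set hγB, ?_⟩
        by_cases hx : b⁻¹ • γ ∈ Γ
        · have hb : b⁻¹ • B = B := by
            apply hB'
            exact ⟨b⁻¹ • γ, Set.smul_mem_smul_set hγB, hΓB _ hx⟩
          have hb' : b • B = B := by
            conv_lhs => rw [← hb]
            rw [smul_smul, mul_inv_cancel, one_smul]
          rw [mul_smul, mul_smul, ← hb']
          exact Set.smul_mem_smul_set (hΓB _ (hstab _ hx))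
        · rw [mul_smul, mul_smul, hfix _ hx, smul_smul, mul_inv_cancel, one_smul]
          exact hγB
      have hNtr := hqp (stabilizer G B).normalCore inferInstance (by
        intro h
        rw [h] at hN
        exact hh1 (by simpa using hN))
      ext y
      simp only [Set.mem_univ, iff_true]
      obtain ⟨n, hn⟩ := hNtr.exists_smul_eq γ y
      have hn' : (n : G) • B = B := by
        have := Subgroup.normalCore_le _ n.2
        rwa [mem_stabilizer_iff] at this
      have h3 : (n : G) • γ ∈ (n : G) • B := Set.smul_mem_smul_set hγB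
      rw [hn'] at h3
      rw [← hn]
      exact h3
  refine { toIsPretransitive := hGtr, isTrivialBlock_of_isBlock := ?_ }
  intro B hB
  by_cases hBe : B.Nonempty
  · obtain ⟨b, hb⟩ := hBe
    obtain ⟨g, hg⟩ := hGtr.exists_smul_eq b γ
    rw [← IsTrivialBlock.smul_iff g]
    apply key _ (hB.translate g)
    rw [← hg]
    exact Set.smul_mem_smul_set hb
  · left
    rw [Set.not_nonempty_iff_eq_empty] at hBe
    rw [hBe]
    exact Set.subsingleton_empty

end Cfsg.Agent.Lib.Helper64
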