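import Cfsg.Agent.Lib.Helper64.NoNPC
import Cfsg.Agent.Lib.Helper64.GL2QD
import Cfsg.Agent.Lib.Helper59.TwoGroupRecog
import Cfsg.Agent.S0261

/-! Groups without normal 2-complement whose Sylow 2-subgroups are generalized quaternion, dihedral,
quasi-dihedral of any prescribed order. -/

set_option autoImplicit false

namespace Cfsg.Agent.Lib.Helper64

open Matrix Cfsg.Agent.Lib.Helper7
open scoped MatrixGroups

section
variable {F : Type*} [Field F] [Fintype F]

theorem card_SL2_param {e w u : ℕ} (hq : Fintype.card F = 2 * w + 1)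
    (hwu : w + 1 = 2 ^ (e + 1) * u) :
    Nat.card (SpecialLinearGroup (Fin 2) F) = 2 ^ (e + 3) * ((2 * w + 1) * (w * u)) := by
  have hsq : (2 * w + 1) ^ 2 = 2 ^ (e + 3) * (w * u) + 1 := by
    have : (2 * w + 1) ^ 2 = 4 * w * (w + 1) + 1 := by ring
    rw [this, hwu]; ring
  have h1 : (2 * w + 1) ^ 2 - 1 = 2 ^ (e + 3) * (w * u) := by rw [hsq]; simp
  rw [card_SL2, hq, h1]; ring

theorem orderOf_negOneSL (hF : Odd (Fintype.card F)) : orderOf (negOneSL F) = 2 := by
  refine orderOf_eq_prime ?_ ?_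
  · rw [sq]
    apply Matrix.SpecialLinearGroup.ext
    intro i j
    fin_cases i <;> fin_cases j <;>
      simp [negOneSL_val, Matrix.mul_apply, Fin.sum_univ_two]
  · intro h
    have h1 := congrArg (fun g : SpecialLinearGroup (Fin 2) F => g.1 0 0) h
    simp [negOneSL_val] at h1
    exact neg_one_ne_one_of_odd_card hF h1

theorem sl2_quat {e w u : ℕ} (hw : Odd w) (hu : Odd u) (hq : Fintype.card F = 2 * w + 1)
    (hwu : w + 1 = 2 ^ (e + 1) * u) (P : Sylow 2 (SpecialLinearGroup (Fin 2) F)) :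
    Nonempty (P ≃* QuaternionGroup (2 ^ (e + 1))) := by
  have hF : Odd (Fintype.card F) := ⟨w, hq⟩
  obtain ⟨k, -, ⟨E⟩⟩ := Cfsg.Agent.S0261.result hF P
  have hc : Nat.card P = 2 ^ (e + 3) :=
    card_sylow_of_eq P (card_SL2_param hq hwu) (Odd.mul (⟨w, rfl⟩ : Odd (2 * w + 1)) (hw.mul hu))
  have h2 : Nat.card P = 2 ^ (k + 2) := by
    rw [Nat.card_congr E.toEquiv, Nat.card_eq_fintype_card, QuaternionGroup.card]; ring
  have hk : k = e + 1 := by
    have := Nat.pow_right_injective (le_refl 2) (hc.symm.trans h2)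
    omega
  subst hk
  exact ⟨E⟩

theorem sl2_not_npc (hF : Odd (Fintype.card F)) :
    ¬ Cfsg.HasNormalPComplement 2 (SpecialLinearGroup (Fin 2) F) :=
  not_npc_of_sl2_hom hF (MonoidHom.id _) (negOneSL F) (orderOf_negOneSL hF)

theorem gl2_not_npc (hF : Odd (Fintype.card F)) :
    ¬ Cfsg.HasNormalPComplement 2 (GL (Fin 2) F) :=
  not_npc_of_sl2_hom hF Matrix.SpecialLinearGroup.toGL (negOneSL F) (by
    rw [orderOf_injective _ Matrix.SpecialLinearGroup.toGL_injective]
    exact orderOf_negOneSL hF)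

/-- an element of order four. -/
def jSL (F : Type*) [Field F] : SpecialLinearGroup (Fin 2) F :=
  ⟨!![0, 1; -1, 0], by simp [det_fin_two]⟩

theorem psl2_not_npc (hF : Odd (Fintype.card F)) :
    ¬ Cfsg.HasNormalPComplement 2 (ProjectiveSpecialLinearGroup (Fin 2) F) := by
  refine not_npc_of_sl2_hom hF
    (QuotientGroup.mk' (Subgroup.center (SpecialLinearGroup (Fin 2) F))) (jSL F) ?_
  refine orderOf_eq_prime ?_ ?_
  · rw [← map_pow]
    apply (QuotientGroup.eq_one_iff _).2
    rw [mem_center_SL2_iff, sq, Matrix.SpecialLinearGroup.coe_mul]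
    simp [jSL, Matrix.mul_apply, Fin.sum_univ_two]
  · intro h
    have h1 := (QuotientGroup.eq_one_iff _).1 h
    rw [mem_center_SL2_iff] at h1
    simp [jSL] at h1

theorem card_PSL2_param {e w u : ℕ} (hq : Fintype.card F = 2 * w + 1)
    (hwu : w + 1 = 2 ^ (e + 1) * u) :
    Nat.card (ProjectiveSpecialLinearGroup (Fin 2) F) = 2 ^ (e + 2) * ((2 * w + 1) * (w * u)) := by
  have hF : Odd (Fintype.card F) := ⟨w, hq⟩
  have h := card_PSL2 (F := F) (two_ne_zero_of_odd_card hF)
  rw [← card_SL2, card_SL2_param hq hwu] at h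
  have : 2 ^ (e + 3) * ((2 * w + 1) * (w * u)) = 2 ^ (e + 2) * ((2 * w + 1) * (w * u)) * 2 := by ring
  rw [this] at h
  exact Nat.eq_of_mul_eq_mul_right (by norm_num) h

open QuaternionGroup in
theorem psl2_dihedral {e w u : ℕ} (hw : Odd w) (hu : Odd u) (hq : Fintype.card F = 2 * w + 1)
    (hwu : w + 1 = 2 ^ (e + 1) * u) :
    ∃ T : Sylow 2 (ProjectiveSpecialLinearGroup (Fin 2) F),
      Nonempty (T ≃* DihedralGroup (2 ^ (e + 1))) := by
  classical
  have : Fact (Nat.Prime 2) := ⟨Nat.prime_two⟩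
  have hF : Odd (Fintype.card F) := ⟨w, hq⟩
  obtain ⟨P⟩ : Nonempty (Sylow 2 (SpecialLinearGroup (Fin 2) F)) := inferInstance
  obtain ⟨E⟩ := sl2_quat hw hu hq hwu P
  have hcT : ∀ T : Sylow 2 (ProjectiveSpecialLinearGroup (Fin 2) F),
      Nat.card T = 2 * 2 ^ (e + 1) := by
    intro T
    rw [← pow_succ']
    exact card_sylow_of_eq T (card_PSL2_param hq hwu)
      (Odd.mul (⟨w, rfl⟩ : Odd (2 * w + 1)) (hw.mul hu))
  generalize hn : 2 ^ (e + 1) = n at E hcT ⊢
  have hn0 : 0 < n := by rw [← hn]; positivity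
  have : NeZero n := ⟨hn0.ne'⟩
  let π := QuotientGroup.mk' (Subgroup.center (SpecialLinearGroup (Fin 2) F))
  have hπ : Function.Surjective π := QuotientGroup.mk'_surjective _
  let T : Sylow 2 (ProjectiveSpecialLinearGroup (Fin 2) F) := P.mapSurjective hπ
  let ρ : QuaternionGroup n →* T :=
    (π.comp ((P : Subgroup (SpecialLinearGroup (Fin 2) F)).subtype.comp
      E.symm.toMonoidHom)).codRestrict (T : Subgroup (ProjectiveSpecialLinearGroup (Fin 2) F))
      (fun t => ⟨_, (E.symm t).2, rfl⟩)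
  have hρ : ∀ t, ρ t = 1 ↔
      ((E.symm t : P) : SpecialLinearGroup (Fin 2) F) ∈
        Subgroup.center (SpecialLinearGroup (Fin 2) F) := by
    intro t
    rw [← QuotientGroup.eq_one_iff, Subtype.ext_iff]
    rfl
  have hnat0 : ∀ m : ℕ, 0 < m → m < 2 * n → (m : ZMod (2 * n)) ≠ 0 := by
    intro m h1 h2 h3
    rw [ZMod.natCast_eq_zero_iff] at h3
    exact absurd (Nat.le_of_dvd h1 h3) (by omega)
  have han1 : (a (n : ZMod (2 * n)) : QuaternionGroup n) ≠ 1 := by
    rw [one_def]
    intro h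
    exact hnat0 n hn0 (by omega) (a.inj h)
  have han2 : (a (n : ZMod (2 * n)) : QuaternionGroup n) * a n = 1 := by
    rw [a_mul_a, one_def]
    congr 1
    have : ((2 * n : ℕ) : ZMod (2 * n)) = 0 := ZMod.natCast_self _
    rw [← this]; push_cast; ring
  have hc : ((E.symm (a (n : ZMod (2 * n))) : P) : SpecialLinearGroup (Fin 2) F) = negOneSL F := by
    have h1 : ((E.symm (a (n : ZMod (2 * n))) : P) : SpecialLinearGroup (Fin 2) F) ≠ 1 := by
      intro h
      apply han1
      apply E.symm.injective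
      rw [map_one]
      exact Subtype.ext h
    have h2 : ((E.symm (a (n : ZMod (2 * n))) : P) : SpecialLinearGroup (Fin 2) F) *
        ((E.symm (a (n : ZMod (2 * n))) : P) : SpecialLinearGroup (Fin 2) F) = 1 := by
      rw [← Subgroup.coe_mul, ← map_mul, han2, map_one]; rfl
    have h3 := Cfsg.Agent.S0268.result hF _ h1 h2
    apply Matrix.SpecialLinearGroup.ext
    intro i j
    rw [h3, negOneSL_val]
    fin_cases i <;> fin_cases j <;> simp
  have hker : ∀ t, ρ t = 1 ↔ t = 1 ∨ t = a (n : ZMod (2 * n)) := by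
    intro t
    rw [hρ]
    constructor
    · intro h
      rcases eq_one_or_negOne_of_mem_center h with h | h
      · left
        apply E.symm.injective
        rw [map_one]
        exact Subtype.ext h
      · right
        apply E.symm.injective
        exact Subtype.ext (h.trans hc.symm)
    · rintro (rfl | rfl)
      · rw [map_one]; exact one_mem _
      · rw [hc]; exact negOneSL_mem_center
  refine ⟨T, Cfsg.Agent.Lib.Helper59.dihedral_recog n hn0 (ρ (a 1)) (ρ (xa 0)) ?_ ?_ ?_ ?_ (hcT T)⟩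
  · rw [orderOf_eq_iff hn0]
    constructor
    · rw [← map_pow, a_one_pow, hker]; right; rfl
    · intro m hm hm0
      rw [← map_pow, a_one_pow, Ne, hker, one_def]
      rintro (h | h)
      · exact hnat0 m hm0 (by omega) (a.inj h)
      · have h1 := a.inj h
        rw [ZMod.natCast_eq_natCast_iff', Nat.mod_eq_of_lt (by omega), Nat.mod_eq_of_lt (by omega)]
          at h1
        omega
  · rw [← map_mul, hker, xa_mul_xa]; right; simp
  · have h1 : (a 1 : QuaternionGroup n)⁻¹ = a (-1) := by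
      apply inv_eq_of_mul_eq_one_right
      rw [a_mul_a, one_def]; simp
    rw [← map_inv, ← map_inv, ← map_mul, ← map_mul]
    congr 1
    rw [mul_inv_eq_iff_eq_mul, h1, xa_mul_a, a_mul_xa]; simp
  · intro h
    rw [← mem_powers_iff_mem_zpowers] at h
    obtain ⟨k, hk⟩ := h
    simp only at hk
    rw [← map_pow, a_one_pow] at hk
    have h1 : ρ ((a (k : ZMod (2 * n)))⁻¹ * xa 0) = 1 := by
      rw [map_mul, map_inv, hk]; simp
    rw [hker] at h1
    rcases h1 with h1 | h1
    · rw [inv_mul_eq_one] at h1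
      cases h1
    · rw [inv_mul_eq_iff_eq_mul, a_mul_a] at h1
      cases h1

end

end Cfsg.Agent.Lib.Helper64
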