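import Mathlib
import Cfsg.Agent.Lib.Helper87.NormalCrit
import Cfsg.Agent.Lib.Helper89.AutSystem
import Cfsg.Agent.Lib.Helper90.FusionAbelian
import Cfsg.Agent.Lib.Helper59.CycSelfCentA
import Cfsg.Agent.Lib.Helper76.SuperChain

set_option autoImplicit false

namespace Cfsg.Agent.Lib.Helper64

open Cfsg Cfsg.FusionSystem Cfsg.Agent.Lib.Helper87 Subgroup

variable {Ω : Type*} [Group Ω] {S : Subgroup Ω}

/-- The chain condition of the statements on supersoluble fusion systems. -/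
def IsSS (F : FusionSystem S) : Prop :=
  ∃ (m : ℕ) (c : Fin (m + 1) → Subgroup Ω), c 0 = ⊥ ∧ c (Fin.last m) = S ∧
    (∀ i : Fin (m + 1), F.StronglyClosed (c i)) ∧
    ∀ i : Fin m, c i.castSucc ≤ c i.succ ∧ ∃ x ∈ S, c i.succ = c i.castSucc ⊔ Subgroup.zpowers x

/-- Strongly closed, for subgroups of the type `↥S`. -/
def SC (F : FusionSystem S) (T : Subgroup S) : Prop := F.StronglyClosed (T.map S.subtype)

/-- Chains of strongly closed subgroups with cyclic steps. -/
inductive SChain (F : FusionSystem S) : Subgroup S → Prop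
  | bot : SChain F ⊥
  | step {T : Subgroup S} (x : S) : SChain F T → SC F (T ⊔ zpowers x) → SChain F (T ⊔ zpowers x)

/-- Chains of strongly closed subgroups with steps of order dividing `p`. -/
inductive PChain (F : FusionSystem S) (p : ℕ) : Subgroup S → Prop
  | bot : PChain F p ⊥
  | step {T : Subgroup S} (x : S) : PChain F p T → x ^ p ∈ T → SC F (T ⊔ zpowers x) →
      PChain F p (T ⊔ zpowers x)

theorem sc_bot (F : FusionSystem S) : SC F ⊥ := by
  unfold SC
  rw [Subgroup.map_bot]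
  exact stronglyClosed_bot F

theorem sc_top (F : FusionSystem S) : SC F ⊤ := by
  unfold SC
  rw [← MonoidHom.range_eq_map, Subgroup.range_subtype]
  exact stronglyClosed_top F

theorem SChain.sc {F : FusionSystem S} {T : Subgroup S} (h : SChain F T) : SC F T := by
  cases h with
  | bot => exact sc_bot F
  | step x _ h => exact h

theorem PChain.sc {F : FusionSystem S} {p : ℕ} {T : Subgroup S} (h : PChain F p T) : SC F T := by
  cases h with
  | bot => exact sc_bot F
  | step x _ _ h => exact h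

theorem mem_map_subtype_iff (T : Subgroup S) (y : S) : (y : Ω) ∈ T.map S.subtype ↔ y ∈ T :=
  Subgroup.mem_map_iff_mem S.subtype_injective (x := y)

theorem SC.normal {F : FusionSystem S} {T : Subgroup S} (h : SC F T) : T.Normal := by
  constructor
  intro t ht s
  have := StronglyClosed.conj_mem h s.2 ((mem_map_subtype_iff T t).2 ht)
  exact (mem_map_subtype_iff T (s * t * s⁻¹)).1 this

theorem SC.map_mem {F : FusionSystem S} {T : Subgroup S} (h : SC F T) {R : Subgroup Ω} {f : Ω → Ω}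
    (hf : Mor F R f) {x : S} (hx : (x : Ω) ∈ R) (hxT : x ∈ T) :
    (⟨f x, hf.mem hx⟩ : S) ∈ T := by
  have := StronglyClosed.map_mem h hf hx ((mem_map_subtype_iff T x).2 hxT)
  exact (mem_map_subtype_iff T ⟨f x, hf.mem hx⟩).1 this

theorem sc_of_forall {F : FusionSystem S} {T : Subgroup S}
    (h : ∀ (R : Subgroup Ω) (f : Ω → Ω) (hf : Mor F R f) (x : S) (hx : (x : Ω) ∈ R), x ∈ T →
      (⟨f x, hf.mem hx⟩ : S) ∈ T) : SC F T := by
  unfold SC
  rw [stronglyClosed_iff]
  refine ⟨Subgroup.map_subtype_le T, fun R f hf x hx hxT => ?_⟩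
  obtain ⟨y, hy, rfl⟩ := hxT
  exact (mem_map_subtype_iff T ⟨f y, hf.mem hx⟩).2 (h R f hf y hx hy)

theorem SC.aut_mem {F : FusionSystem S} {T : Subgroup S} (h : SC F T) {α : MulAut S}
    (hα : α ∈ F.autGroup S) {x : S} (hx : x ∈ T) : α x ∈ T := by
  have h1 := (mem_autGroup_iff F le_rfl α).1 hα
  have h2 := h.map_mem h1 x.2 hx
  have h3 : (⟨autFun α x, h1.mem x.2⟩ : S) = α x := Subtype.ext (autFun_coe α x)
  rwa [h3] at h2

theorem subgroupOf_sup_zpowers {T : Subgroup Ω} (hT : T ≤ S) (x : S) :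
    (T ⊔ zpowers (x : Ω)).subgroupOf S = T.subgroupOf S ⊔ zpowers x := by
  have hx : zpowers (x : Ω) ≤ S := by
    rw [zpowers_le]
    exact x.2
  rw [Subgroup.subgroupOf_sup hT hx]
  congr 1
  apply Subgroup.map_injective S.subtype_injective
  rw [Subgroup.map_subgroupOf_eq_of_le hx, MonoidHom.map_zpowers]
  rfl

theorem sChain_top_of_isSS {F : FusionSystem S} (h : IsSS F) : SChain F ⊤ := by
  obtain ⟨m, c, h0, hlast, hsc, hstep⟩ := h
  have key : ∀ i : Fin (m + 1), SChain F ((c i).subgroupOf S) := by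
    intro i
    induction i using Fin.induction with
    | zero => rw [h0, Subgroup.bot_subgroupOf]; exact SChain.bot
    | succ i ih =>
      obtain ⟨-, x, hx, hc⟩ := hstep i
      have e : (c i.succ).subgroupOf S = (c i.castSucc).subgroupOf S ⊔ zpowers (⟨x, hx⟩ : S) := by
        rw [hc]
        exact subgroupOf_sup_zpowers (hsc i.castSucc).1 ⟨x, hx⟩
      rw [e]
      refine SChain.step _ ih ?_
      rw [← e]
      unfold SC
      rw [Subgroup.map_subgroupOf_eq_of_le (hsc i.succ).1]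
      exact hsc i.succ
  have := key (Fin.last m)
  rwa [hlast, Subgroup.subgroupOf_self] at this

theorem SChain.exists_fin {F : FusionSystem S} {T : Subgroup S} (h : SChain F T) :
    ∃ (m : ℕ) (c : Fin (m + 1) → Subgroup Ω), c 0 = ⊥ ∧ c (Fin.last m) = T.map S.subtype ∧
    (∀ i : Fin (m + 1), F.StronglyClosed (c i)) ∧
    ∀ i : Fin m, c i.castSucc ≤ c i.succ ∧
      ∃ x ∈ S, c i.succ = c i.castSucc ⊔ Subgroup.zpowers x := by
  induction h with
  | bot =>
    exact ⟨0, fun _ => ⊥, rfl, (Subgroup.map_bot _).symm, fun _ => stronglyClosed_bot F,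
      fun i => i.elim0⟩
  | @step K g hK hn ih =>
    obtain ⟨n, H, h0, hlast, hnorm, hstep⟩ := ih
    have e : (K ⊔ zpowers g).map S.subtype = K.map S.subtype ⊔ zpowers (g : Ω) := by
      rw [Subgroup.map_sup, MonoidHom.map_zpowers]
      rfl
    refine ⟨n + 1, Fin.snoc (α := fun _ => Subgroup Ω) H ((K ⊔ zpowers g).map S.subtype),
      ?_, ?_, ?_, ?_⟩
    · have : (0 : Fin (n + 2)) = (0 : Fin (n + 1)).castSucc := rfl
      rw [this, Fin.snoc_castSucc, h0]
    · rw [Fin.snoc_last]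
    · intro i
      induction i using Fin.lastCases with
      | last => rw [Fin.snoc_last]; exact hn
      | cast j => rw [Fin.snoc_castSucc]; exact hnorm j
    · intro i
      induction i using Fin.lastCases with
      | last =>
        rw [Fin.succ_last, Fin.snoc_last, Fin.snoc_castSucc, hlast, e]
        exact ⟨le_sup_left, g, g.2, rfl⟩
      | cast j =>
        rw [Fin.succ_castSucc, Fin.snoc_castSucc, Fin.snoc_castSucc]
        exact hstep j

theorem isSS_iff (F : FusionSystem S) : IsSS F ↔ SChain F ⊤ := by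
  refine ⟨sChain_top_of_isSS, fun h => ?_⟩
  obtain ⟨m, c, h0, hlast, h1, h2⟩ := h.exists_fin
  refine ⟨m, c, h0, ?_, h1, h2⟩
  rw [hlast, ← MonoidHom.range_eq_map, Subgroup.range_subtype]

/-! ### Refinement to steps of order `p` -/

theorem mem_sup_zpowers_iff {G : Type*} [Group G] (N : Subgroup G) [N.Normal] (z y : G) :
    y ∈ N ⊔ zpowers z ↔ (QuotientGroup.mk' N y) ∈ zpowers (QuotientGroup.mk' N z) := by
  rw [← MonoidHom.map_zpowers, ← Subgroup.mem_comap, Subgroup.comap_map_eq, QuotientGroup.ker_mk',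
    sup_comm]

theorem pow_mem_of_mem_sup_zpowers {G : Type*} [Group G] (N : Subgroup G) [N.Normal] {z y : G}
    {p : ℕ} (hz : z ^ p ∈ N) (hy : y ∈ N ⊔ zpowers z) : y ^ p ∈ N := by
  rw [mem_sup_zpowers_iff] at hy
  obtain ⟨k, hk⟩ := hy
  have h1 : (QuotientGroup.mk' N z) ^ p = 1 := by
    rw [← map_pow]
    exact (QuotientGroup.eq_one_iff _).2 hz
  have h2 : QuotientGroup.mk' N (y ^ p) = 1 := by
    rw [map_pow, ← hk]
    show ((QuotientGroup.mk' N z) ^ k) ^ p = 1
    rw [← zpow_natCast, ← zpow_mul, mul_comm, zpow_mul, zpow_natCast, h1, one_zpow]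
  exact (QuotientGroup.eq_one_iff _).1 h2

theorem mem_sup_zpowers_pow {G : Type*} [Group G] (N : Subgroup G) [N.Normal] {p : ℕ}
    [Fact p.Prime] {x w : G} {n : ℕ} (hx : x ^ (p ^ (n + 1)) ∈ N) (hx' : x ^ (p ^ n) ∉ N)
    (hw : w ∈ N ⊔ zpowers x) (hwp : w ^ p ∈ N) : w ∈ N ⊔ zpowers (x ^ (p ^ n)) := by
  have hp : p.Prime := Fact.out
  rw [mem_sup_zpowers_iff] at hw ⊢
  set c := QuotientGroup.mk' N x with hc
  obtain ⟨k, hk⟩ := hw
  have ho : orderOf c = p ^ (n + 1) := by
    apply orderOf_eq_prime_pow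
    · rw [hc, ← map_pow]
      intro h
      exact hx' ((QuotientGroup.eq_one_iff _).1 h)
    · rw [hc, ← map_pow]
      exact (QuotientGroup.eq_one_iff _).2 hx
  have h1 : c ^ (k * p) = 1 := by
    have : (QuotientGroup.mk' N w) ^ p = 1 := by
      rw [← map_pow]
      exact (QuotientGroup.eq_one_iff _).2 hwp
    rw [← hk] at this
    rw [zpow_mul, zpow_natCast]
    exact this
  have h2 : ((p ^ (n + 1) : ℕ) : ℤ) ∣ k * p := by
    rw [← ho]
    exact orderOf_dvd_iff_zpow_eq_one.2 h1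
  have h3 : ((p ^ n : ℕ) : ℤ) ∣ k := by
    rw [pow_succ] at h2
    push_cast at h2 ⊢
    exact Int.dvd_of_mul_dvd_mul_right (by exact_mod_cast hp.ne_zero) h2
  obtain ⟨j, hj⟩ := h3
  refine ⟨j, ?_⟩
  rw [← hk, map_pow, ← hc]
  show (c ^ p ^ n) ^ j = c ^ k
  rw [hj, zpow_mul, zpow_natCast]

theorem PChain.adjoin {p : ℕ} [Fact p.Prime] {F : FusionSystem S} (x : S) :
    ∀ (n : ℕ) (T : Subgroup S), PChain F p T → x ^ (p ^ n) ∈ T → SC F (T ⊔ zpowers x) →
      PChain F p (T ⊔ zpowers x) := by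
  intro n
  induction n with
  | zero =>
    intro T hT hx _
    rw [pow_zero, pow_one] at hx
    rw [sup_eq_left.2 (zpowers_le.2 hx)]
    exact hT
  | succ n ih =>
    intro T hT hx hW
    by_cases h : x ^ (p ^ n) ∈ T
    · exact ih T hT h hW
    have : T.Normal := hT.sc.normal
    set z := x ^ (p ^ n) with hz
    have hzp : z ^ p ∈ T := by
      rw [hz, ← pow_mul, ← pow_succ]
      exact hx
    have hzx : zpowers z ≤ zpowers x := zpowers_le.2 (Subgroup.pow_mem _ (mem_zpowers x) _)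
    have hUW : T ⊔ zpowers z ≤ T ⊔ zpowers x := sup_le_sup_left hzx T
    have hU : SC F (T ⊔ zpowers z) := by
      apply sc_of_forall
      intro R f hf y hy hyU
      have h1 := hW.map_mem hf hy (hUW hyU)
      have h2 : y ^ p ∈ T := pow_mem_of_mem_sup_zpowers T hzp hyU
      have hyp : ((y ^ p : S) : Ω) ∈ R := by
        rw [Subgroup.coe_pow]
        exact R.pow_mem hy p
      have h3 := hT.sc.map_mem hf hyp h2
      have h4 : (⟨f ((y ^ p : S) : Ω), hf.mem hyp⟩ : S) = (⟨f y, hf.mem hy⟩ : S) ^ p := by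
        apply Subtype.ext
        show f ((y ^ p : S) : Ω) = (f y) ^ p
        rw [Subgroup.coe_pow, hf.map_pow hy]
      rw [h4] at h3
      exact mem_sup_zpowers_pow T hx h h1 h3
    have hPU : PChain F p (T ⊔ zpowers z) := PChain.step z hT hzp hU
    have e : (T ⊔ zpowers z) ⊔ zpowers x = T ⊔ zpowers x := by
      rw [sup_assoc, sup_eq_right.2 hzx]
    have := ih (T ⊔ zpowers z) hPU (mem_sup_right (mem_zpowers z)) (by rw [e]; exact hW)
    rwa [e] at this

theorem SChain.pChain {p : ℕ} [Fact p.Prime] (hS : IsPGroup p S) {F : FusionSystem S}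
    {T : Subgroup S} (h : SChain F T) : PChain F p T := by
  induction h with
  | bot => exact PChain.bot
  | @step T x _ hsc ih =>
    obtain ⟨n, hn⟩ := hS x
    exact PChain.adjoin x n T ih (by rw [hn]; exact T.one_mem) hsc

/-- A chain as a sequence indexed by the natural numbers. -/
theorem PChain.exists_seq {p : ℕ} {F : FusionSystem S} {T : Subgroup S} (h : PChain F p T) :
    ∃ (m : ℕ) (X : ℕ → Subgroup S), X 0 = ⊥ ∧ X m = T ∧ (∀ i, SC F (X i)) ∧
      ∀ i < m, ∃ y : S, y ^ p ∈ X i ∧ X (i + 1) = X i ⊔ zpowers y := by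
  induction h with
  | bot => exact ⟨0, fun _ => ⊥, rfl, rfl, fun _ => sc_bot F, fun i hi => absurd hi (Nat.not_lt_zero i)⟩
  | @step T x _ hx hsc ih =>
    obtain ⟨m, X, h0, hm, h1, h2⟩ := ih
    refine ⟨m + 1, fun i => if i ≤ m then X i else T ⊔ zpowers x, ?_, ?_, ?_, ?_⟩
    · simp [h0]
    · simp
    · intro i
      by_cases hi : i ≤ m
      · simp only [hi, if_true]; exact h1 i
      · simp only [hi, if_false]; exact hsc
    · intro i hi
      by_cases him : i < m
      · have e1 : i ≤ m := him.le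
        have e2 : i + 1 ≤ m := him
        simp only [e1, e2, if_true]
        exact h2 i him
      · have e : i = m := by omega
        subst e
        have e2 : ¬ (i + 1 ≤ i) := by omega
        simp only [le_refl, e2, if_true, if_false]
        exact ⟨x, by rw [hm]; exact hx, by rw [hm]⟩

/-! ### A chain with steps of order `p` forces `S` to be normal -/

theorem comm_mem_of_step {G : Type*} [Group G] [Finite G] {p : ℕ} [Fact p.Prime]
    (hG : IsPGroup p G) (N : Subgroup G) [N.Normal] {y : G} (hy : y ^ p ∈ N)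
    (hW : (N ⊔ zpowers y).Normal) (q x : G) (hx : x ∈ N ⊔ zpowers y) :
    x⁻¹ * (q * x * q⁻¹) ∈ N := by
  set π := QuotientGroup.mk' N with hπ
  set c := π y with hc
  have hcp : c ^ p = 1 := by
    rw [hc, ← map_pow]
    exact (QuotientGroup.eq_one_iff _).2 hy
  have hCn : (zpowers c).Normal := by
    have := hW.map π (QuotientGroup.mk'_surjective N)
    rwa [Subgroup.map_sup, QuotientGroup.map_mk'_self, bot_sup_eq, MonoidHom.map_zpowers] at this
  have hxc : π x ∈ zpowers c := (mem_sup_zpowers_iff N y x).1 hx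
  have hcen : π x ∈ center (G ⧸ N) := by
    by_cases h1 : c = 1
    · rw [h1, zpowers_one_eq_bot, mem_bot] at hxc
      rw [hxc]
      exact one_mem _
    · have ho : orderOf c = p := orderOf_eq_prime hcp h1
      have hcard : Nat.card (zpowers c) = p := by rw [Nat.card_zpowers, ho]
      exact Cfsg.Agent.Lib.Helper59.le_center_of_normal_card_prime (hG.to_quotient N) (zpowers c)
        hcard hxc
  apply (QuotientGroup.eq_one_iff _).1
  show π (x⁻¹ * (q * x * q⁻¹)) = 1
  rw [map_mul, map_mul, map_mul, map_inv, map_inv, mem_center_iff.1 hcen (π q)]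
  group

theorem isNormal_of_pChain [Finite S] {p : ℕ} [Fact p.Prime] (hS : IsPGroup p S)
    {F : FusionSystem S} (hF : F.IsSaturated p) (h : PChain F p ⊤) : F.IsNormal S := by
  obtain ⟨m, X, h0, hm, h1, h2⟩ := h.exists_seq
  have e0 : (X 0).map S.subtype = ⊥ := by rw [h0, Subgroup.map_bot]
  refine isNormal_of_series hS hF (stronglyClosed_top F) (fun i => (X i).map S.subtype) h1 m ?_ ?_ ?_
    ?_
  · show (X m).map S.subtype = S
    rw [hm, ← MonoidHom.range_eq_map, Subgroup.range_subtype]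
  · show F.IsNormal ((X 0).map S.subtype)
    rw [e0]
    exact isNormal_bot F
  · show IsPGroup p (F.autGroup ((X 0).map S.subtype))
    rw [e0]
    exact isPGroup_autGroup_bot F p
  · intro i hi q hq x hx
    obtain ⟨x', hx', rfl⟩ := hx
    obtain ⟨y, hy, e⟩ := h2 i hi
    have : (X i).Normal := (h1 i).normal
    have hW : (X i ⊔ zpowers y).Normal := e ▸ (h1 (i + 1)).normal
    have := comm_mem_of_step hS (X i) hy hW ⟨q, hq⟩ x' (e ▸ hx')
    exact (mem_map_subtype_iff (X i) _).2 this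

/-! ### Automorphisms stabilising a chain with steps of order `p` -/

theorem comm_on_zpowers {G : Type*} [Group G] (f g : G →* G) {c : G} (hf : f c ∈ zpowers c)
    (hg : g c ∈ zpowers c) {u : G} (hu : u ∈ zpowers c) : f (g u) = g (f u) := by
  obtain ⟨s, hs⟩ := hf
  obtain ⟨t, ht⟩ := hg
  obtain ⟨j, rfl⟩ := hu
  simp only at hs ht
  show f (g (c ^ j)) = g (f (c ^ j))
  rw [map_zpow g, map_zpow f, map_zpow f, map_zpow g, ← ht, ← hs, map_zpow, map_zpow, ← ht, ← hs]
  congr 1
  rw [← zpow_mul, ← zpow_mul, mul_comm]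

section abstractChain

variable {P : Type*} [Group P] {p : ℕ} [Fact p.Prime]

/-- The endomorphism of `P ⧸ N` induced by an automorphism preserving `N`. -/
noncomputable def quotEnd (N : Subgroup P) [N.Normal] (α : MulAut P) (h : ∀ x ∈ N, α x ∈ N) :
    P ⧸ N →* P ⧸ N :=
  QuotientGroup.map N N α.toMonoidHom (fun x hx => h x hx)

theorem quotEnd_mk (N : Subgroup P) [N.Normal] (α : MulAut P) (h : ∀ x ∈ N, α x ∈ N) (x : P) :
    quotEnd N α h (QuotientGroup.mk' N x) = QuotientGroup.mk' N (α x) := rfl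

theorem stab_comm (N : Subgroup P) [N.Normal] {y : P} (A : Subgroup (MulAut P))
    (hN : ∀ α ∈ A, ∀ x ∈ N, α x ∈ N) (hW : ∀ α ∈ A, ∀ x ∈ N ⊔ zpowers y, α x ∈ N ⊔ zpowers y)
    {a b : MulAut P} (ha : a ∈ A) (hb : b ∈ A) {x : P} (hx : x ∈ N ⊔ zpowers y) :
    x⁻¹ * (a * b * a⁻¹ * b⁻¹) x ∈ N := by
  set π := QuotientGroup.mk' N with hπ
  have hy : y ∈ N ⊔ zpowers y := mem_sup_right (mem_zpowers y)
  have key : ∀ w ∈ N ⊔ zpowers y, π (a (b w)) = π (b (a w)) := by
    intro w hw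
    have h1 := comm_on_zpowers (quotEnd N a (hN a ha)) (quotEnd N b (hN b hb)) (c := π y)
      (by rw [quotEnd_mk]; exact (mem_sup_zpowers_iff N y _).1 (hW a ha y hy))
      (by rw [quotEnd_mk]; exact (mem_sup_zpowers_iff N y _).1 (hW b hb y hy))
      ((mem_sup_zpowers_iff N y w).1 hw)
    rw [quotEnd_mk, quotEnd_mk, quotEnd_mk, quotEnd_mk] at h1
    exact h1
  have hw : a⁻¹ (b⁻¹ x) ∈ N ⊔ zpowers y :=
    hW _ (A.inv_mem ha) _ (hW _ (A.inv_mem hb) _ hx)
  have h2 := key _ hw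
  rw [MulAut.apply_inv_self, MulAut.apply_inv_self] at h2
  apply (QuotientGroup.eq_one_iff _).1
  show π (x⁻¹ * (a * b * a⁻¹ * b⁻¹) x) = 1
  rw [map_mul, map_inv]
  have h3 : (a * b * a⁻¹ * b⁻¹) x = a (b (a⁻¹ (b⁻¹ x))) := rfl
  rw [h3, h2, inv_mul_cancel]

theorem stab_pow [Finite P] (N : Subgroup P) [N.Normal] {y : P} (hyp : y ^ p ∈ N)
    (A : Subgroup (MulAut P))
    (hN : ∀ α ∈ A, ∀ x ∈ N, α x ∈ N) (hW : ∀ α ∈ A, ∀ x ∈ N ⊔ zpowers y, α x ∈ N ⊔ zpowers y)
    {a : MulAut P} (ha : a ∈ A) {x : P} (hx : x ∈ N ⊔ zpowers y) :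
    x⁻¹ * (a ^ (p - 1)) x ∈ N := by
  have hp : p.Prime := Fact.out
  set π := QuotientGroup.mk' N with hπ
  have hy : y ∈ N ⊔ zpowers y := mem_sup_right (mem_zpowers y)
  by_cases hyN : y ∈ N
  · rw [sup_eq_left.2 (zpowers_le.2 hyN)] at hx
    exact N.mul_mem (N.inv_mem hx) (hN _ (A.pow_mem ha _) x hx)
  set c := π y with hc
  have hcp : c ^ p = 1 := by
    rw [hc, ← map_pow]
    exact (QuotientGroup.eq_one_iff _).2 hyp
  have h1 : π (a y) ∈ Submonoid.powers c := by
    rw [mem_powers_iff_mem_zpowers]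
    exact (mem_sup_zpowers_iff N y _).1 (hW a ha y hy)
  obtain ⟨s, hs⟩ := h1
  simp only at hs
  have hps : ¬ p ∣ s := by
    rintro ⟨t, rfl⟩
    rw [pow_mul, hcp, one_pow] at hs
    have h2 : a y ∈ N := (QuotientGroup.eq_one_iff _).1 hs.symm
    have h3 := hN _ (A.inv_mem ha) _ h2
    rw [MulAut.inv_apply_self] at h3
    exact hyN h3
  have hstep : ∀ u ∈ N ⊔ zpowers y, π (a u) = (π u) ^ s := by
    intro u hu
    obtain ⟨j, hj⟩ := (mem_sup_zpowers_iff N y u).1 hu
    have h2 : quotEnd N a (hN a ha) (π u) = π (a u) := quotEnd_mk N a _ u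
    rw [← h2, ← hj]
    show quotEnd N a (hN a ha) (c ^ j) = (c ^ j) ^ s
    rw [map_zpow, hc, quotEnd_mk, ← hs, ← hc, ← zpow_natCast, ← zpow_natCast, ← zpow_mul, ← zpow_mul,
      mul_comm]
  have hiter : ∀ k : ℕ, ∀ u ∈ N ⊔ zpowers y, π ((a ^ k) u) = (π u) ^ (s ^ k) := by
    intro k
    induction k with
    | zero => intro u _; simp
    | succ k ih =>
      intro u hu
      have h2 : (a ^ (k + 1)) u = a ((a ^ k) u) := by
        rw [pow_succ']; rfl
      rw [h2, hstep _ (hW _ (A.pow_mem ha k) u hu), ih u hu, ← pow_mul, ← pow_succ]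
  have hmod : s ^ (p - 1) ≡ 1 [MOD p] := by
    have := Nat.ModEq.pow_totient ((Nat.Prime.coprime_iff_not_dvd hp).2 hps).symm
    rwa [Nat.totient_prime hp] at this
  have hpos : 1 ≤ s ^ (p - 1) := Nat.one_le_pow _ _ (Nat.pos_of_ne_zero (by
    rintro rfl
    exact hps (dvd_zero p)))
  obtain ⟨t, ht⟩ := (Nat.modEq_iff_dvd' hpos).1 hmod.symm
  have hs1 : s ^ (p - 1) = p * t + 1 := by omega
  have hxp : (π x) ^ p = 1 := by
    rw [← map_pow]
    exact (QuotientGroup.eq_one_iff _).2 (pow_mem_of_mem_sup_zpowers N hyp hx)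
  apply (QuotientGroup.eq_one_iff _).1
  show π (x⁻¹ * (a ^ (p - 1)) x) = 1
  rw [map_mul, map_inv, hiter _ x hx, hs1, pow_succ, pow_mul, hxp, one_pow, one_mul, inv_mul_cancel]

variable [Finite P] (hP : IsPGroup p P) (X : ℕ → Subgroup P) (m : ℕ) (h0 : X 0 = ⊥) (hm : X m = ⊤)
  (hn : ∀ i, (X i).Normal) (hstep : ∀ i < m, ∃ y : P, y ^ p ∈ X i ∧ X (i + 1) = X i ⊔ zpowers y)
  (A : Subgroup (MulAut P)) (hA : ∀ i, ∀ α ∈ A, ∀ x ∈ X i, α x ∈ X i)

include hP h0 hm hn hstep hA

theorem exists_pow_comm_eq_one {a b : MulAut P} (ha : a ∈ A) (hb : b ∈ A) :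
    ∃ k : ℕ, (a * b * a⁻¹ * b⁻¹) ^ (p ^ k) = 1 := by
  have hγ : a * b * a⁻¹ * b⁻¹ ∈ A :=
    A.mul_mem (A.mul_mem (A.mul_mem ha hb) (A.inv_mem ha)) (A.inv_mem hb)
  refine Cfsg.Agent.Lib.Helper89.exists_pow_eq_one_of_stabilizes_chain hP _ m X h0 hm
    (fun i x hx => hA i _ hγ x hx) (fun i hi x hx => ?_)
  obtain ⟨y, -, e⟩ := hstep i hi
  have := hn i
  exact stab_comm (X i) A (hA i) (e ▸ hA (i + 1)) ha hb (e ▸ hx)

theorem exists_pow_pow_eq_one {a : MulAut P} (ha : a ∈ A) :
    ∃ k : ℕ, (a ^ (p - 1)) ^ (p ^ k) = 1 := by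
  refine Cfsg.Agent.Lib.Helper89.exists_pow_eq_one_of_stabilizes_chain hP _ m X h0 hm
    (fun i x hx => hA i _ (A.pow_mem ha _) x hx) (fun i hi x hx => ?_)
  obtain ⟨y, hy, e⟩ := hstep i hi
  have := hn i
  exact stab_pow (X i) hy A (hA i) (e ▸ hA (i + 1)) ha (e ▸ hx)

end abstractChain

/-! ### Consequences for fusion systems -/

theorem eq_one_of_pow_of_coprime {G : Type*} [Group G] {H : Subgroup G} {p : ℕ}
    (hc : (Nat.card H).Coprime p) {g : G} (hg : g ∈ H) {k : ℕ} (h : g ^ (p ^ k) = 1) : g = 1 := by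
  have h1 : orderOf g ∣ p ^ k := orderOf_dvd_of_pow_eq_one h
  have h2 : orderOf g ∣ Nat.card H := Subgroup.orderOf_dvd_natCard H hg
  exact orderOf_eq_one_iff.1 (Nat.eq_one_of_dvd_coprimes (hc.pow_right k) h2 h1)

/-- In a supersoluble saturated system, commutators and `(p-1)`-th powers of elements of `Aut_F(S)`
are `p`-elements. -/
theorem aut_of_isSS [Finite S] {p : ℕ} [Fact p.Prime] (hS : IsPGroup p S) {F : FusionSystem S}
    (h : IsSS F) :
    (∀ a ∈ F.autGroup S, ∀ b ∈ F.autGroup S, ∃ k : ℕ, (a * b * a⁻¹ * b⁻¹) ^ (p ^ k) = 1) ∧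
      ∀ a ∈ F.autGroup S, ∃ k : ℕ, (a ^ (p - 1)) ^ (p ^ k) = 1 := by
  obtain ⟨m, X, h0, hm, h1, h2⟩ := (((isSS_iff F).1 h).pChain hS).exists_seq
  exact ⟨fun a ha b hb => exists_pow_comm_eq_one hS X m h0 hm (fun i => (h1 i).normal) h2
      (F.autGroup S) (fun i α hα x hx => (h1 i).aut_mem hα hx) ha hb,
    fun a ha => exists_pow_pow_eq_one hS X m h0 hm (fun i => (h1 i).normal) h2
      (F.autGroup S) (fun i α hα x hx => (h1 i).aut_mem hα hx) ha⟩

theorem isNormal_of_isSS [Finite S] {p : ℕ} [Fact p.Prime] (hS : IsPGroup p S)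
    {F : FusionSystem S} (hF : F.IsSaturated p) (h : IsSS F) : F.IsNormal S :=
  isNormal_of_pChain hS hF (((isSS_iff F).1 h).pChain hS)

/-- The saturated system of `S ⋊ H` for a `p'`-group `H` of automorphisms. -/
theorem exists_saturated_of_coprime [Finite S] {p : ℕ} [Fact p.Prime] (hS : IsPGroup p S)
    (H : Subgroup (MulAut S)) (hH : (Nat.card H).Coprime p) :
    ∃ F : FusionSystem S, F.IsSaturated p ∧ H ≤ F.autGroup S := by
  have hB : Inn S ≤ Inn S ⊔ H := le_sup_left
  refine ⟨Cfsg.Agent.Lib.Helper89.autSystem S (Inn S ⊔ H) hB,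
    Cfsg.Agent.Lib.Helper89.autSystem_saturated S hS _ hB (Nat.card H) hH ?_, ?_⟩
  · intro β hβ
    have h1 : QuotientGroup.mk' (Inn S) β ∈ H.map (QuotientGroup.mk' (Inn S)) := by
      have := Subgroup.mem_map_of_mem (QuotientGroup.mk' (Inn S)) hβ
      rwa [Subgroup.map_sup, QuotientGroup.map_mk'_self, bot_sup_eq] at this
    obtain ⟨h, hh, e⟩ := h1
    apply (QuotientGroup.eq_one_iff _).1
    show QuotientGroup.mk' (Inn S) (β ^ Nat.card H) = 1
    rw [map_pow, ← e, ← map_pow]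
    have : h ^ Nat.card H = 1 := by
      have := pow_card_eq_one' (x := (⟨h, hh⟩ : H))
      exact congrArg Subtype.val this
    rw [this, map_one]
  · rw [Cfsg.Agent.Lib.Helper89.autSystem_autGroup_self]
    exact le_sup_right

theorem coprime_aut_of_type [Finite S] {p : ℕ} [Fact p.Prime] (hS : IsPGroup p S)
    (h : ∀ F : FusionSystem S, F.IsSaturated p → IsSS F)
    (H : Subgroup (MulAut S)) (hH : (Nat.card H).Coprime p) :
    IsMulCommutative H ∧ ∀ a ∈ H, a ^ (p - 1) = 1 := by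
  obtain ⟨F, hF, hHF⟩ := exists_saturated_of_coprime hS H hH
  obtain ⟨h1, h2⟩ := aut_of_isSS hS (h F hF)
  refine ⟨⟨⟨fun a b => Subtype.ext ?_⟩⟩, fun a ha => ?_⟩
  · obtain ⟨k, hk⟩ := h1 a (hHF a.2) b (hHF b.2)
    have h3 := eq_one_of_pow_of_coprime hH
      (H.mul_mem (H.mul_mem (H.mul_mem a.2 b.2) (H.inv_mem a.2)) (H.inv_mem b.2)) hk
    show (a : MulAut S) * b = b * a
    have h4 : (a : MulAut S) * b = ((a : MulAut S) * b * (a : MulAut S)⁻¹ * (b : MulAut S)⁻¹) *
      (b * a) := by group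
    rw [h4, h3, one_mul]
  · obtain ⟨k, hk⟩ := h2 a (hHF ha)
    exact eq_one_of_pow_of_coprime hH (H.pow_mem ha _) hk

theorem sc_of_aut_invariant {F : FusionSystem S} (hN : F.IsNormal S) {T : Subgroup S}
    (h : ∀ α ∈ F.autGroup S, ∀ x ∈ T, α x ∈ T) : SC F T := by
  apply sc_of_forall
  intro R f hf x hx hxT
  obtain ⟨α, hα, e⟩ := Cfsg.Agent.Lib.Helper90.IsNormal.exists_aut hN hf.le hf
  have h1 := h α hα x hxT
  have h2 : (⟨f x, hf.mem hx⟩ : S) = α x := Subtype.ext (e x hx).symm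
  rw [h2]
  exact h1

open Cfsg.Agent.Lib.Helper76 Cfsg.Agent.Lib.Helper42 in
theorem sChain_top_of_resid [Finite S] {p : ℕ} [Fact p.Prime] (hS : IsPGroup p S)
    {F : FusionSystem S} (hN : F.IsNormal S)
    (hcomm : ∀ a ∈ F.autGroup S, ∀ b ∈ F.autGroup S, a * b * a⁻¹ * b⁻¹ ∈ Inn S)
    (hpow : ∀ a ∈ F.autGroup S, a ^ (p - 1) ∈ Inn S) : SChain F ⊤ := by
  set B := F.autGroup S with hB
  let G := S ⋊[B.subtype] B
  have : Finite G := Finite.of_equiv _ SemidirectProduct.equivProd.symm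
  let il : S →* G := SemidirectProduct.inl
  let rh : G →* B := SemidirectProduct.rightHom
  have hil : Function.Injective il := SemidirectProduct.inl_injective
  have hker : il.range = rh.ker := SemidirectProduct.range_inl_eq_ker_rightHom
  let Q : Subgroup G := il.range
  let R : Subgroup G := ((Inn S).subgroupOf B).comap rh
  have hTH : TH p Q R :=
    { hQn := by
        show (il.range).Normal
        rw [hker]
        infer_instance
      hQp := IsPGroup.of_surjective hS il.rangeRestrict il.rangeRestrict_surjective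
      hRn := inferInstance
      hcomm := by
        intro a b
        show ((rh (a * b * a⁻¹ * b⁻¹) : B) : MulAut S) ∈ Inn S
        rw [map_mul, map_mul, map_mul, map_inv, map_inv]
        exact hcomm _ (rh a).2 _ (rh b).2
      hpow := by
        intro a
        show ((rh (a ^ (p - 1)) : B) : MulAut S) ∈ Inn S
        rw [map_pow]
        exact hpow _ (rh a).2
      hact := by
        intro y hy
        obtain ⟨s, hs⟩ : ((rh y : B) : MulAut S) ∈ Inn S := hy
        obtain ⟨a, ha⟩ := hS s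
        have h1 : rh (y ^ (p ^ a)) = 1 := by
          apply Subtype.ext
          rw [map_pow]
          show ((rh y : B) : MulAut S) ^ (p ^ a) = 1
          rw [← hs, ← map_pow, ha, map_one]
        have h2 : y ^ (p ^ a) ∈ il.range := by
          rw [hker]
          exact h1
        obtain ⟨t, ht⟩ := h2
        obtain ⟨b, hb⟩ := hS t
        refine ⟨a + b, ?_⟩
        rw [pow_add, pow_mul, ← ht, ← map_pow, hb, map_one]
        exact one_mem _ }
  have hch := TH.chain_aux (Nat.card Q) G Q R rfl hTH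
  have key : ∀ K : Subgroup G, Chain G K → K ≤ Q → SChain F (K.comap il) := by
    intro K hK
    induction hK with
    | bot =>
      intro _
      rw [MonoidHom.comap_bot, (MonoidHom.ker_eq_bot_iff il).2 hil]
      exact SChain.bot
    | @step K g hK hn ih =>
      intro hle
      have hKQ : K ≤ Q := le_sup_left.trans hle
      obtain ⟨x, rfl⟩ : g ∈ Q := hle (mem_sup_right (mem_zpowers g))
      have e : (K ⊔ zpowers (il x)).comap il = K.comap il ⊔ zpowers x := by
        rw [← Subgroup.comap_sup_eq_of_le_range il hKQ (le_sup_right.trans hle),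
          ← MonoidHom.map_zpowers, Subgroup.comap_map_eq_self_of_injective hil]
      rw [e]
      refine SChain.step x (ih hKQ) ?_
      rw [← e]
      apply sc_of_aut_invariant hN
      intro α hα t ht
      show il (α t) ∈ K ⊔ zpowers (il x)
      have h1 : il (α t) = SemidirectProduct.inr (⟨α, hα⟩ : B) * il t *
          SemidirectProduct.inr (⟨α, hα⟩ : B)⁻¹ :=
        SemidirectProduct.inl_aut (φ := B.subtype) (⟨α, hα⟩ : B) t
      rw [h1, map_inv]
      exact hn.conj_mem _ ht _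
  have := key Q hch le_rfl
  have e : Q.comap il = ⊤ := by
    ext x
    simp [Q]
  rwa [e] at this

/-- If every `p'`-subgroup of `Aut(S)` is abelian of exponent dividing `p - 1`, then `Aut_F(S)/Inn(S)`
is abelian of exponent dividing `p - 1`. -/
theorem resid_of_hyp [Finite S] {p : ℕ} [Fact p.Prime] {F : FusionSystem S}
    (hF : F.IsSaturated p)
    (hH : ∀ H : Subgroup (MulAut S), (Nat.card H).Coprime p →
      IsMulCommutative H ∧ ∀ h ∈ H, h ^ (p - 1) = 1) :
    (∀ a ∈ F.autGroup S, ∀ b ∈ F.autGroup S, a * b * a⁻¹ * b⁻¹ ∈ Inn S) ∧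
      ∀ a ∈ F.autGroup S, a ^ (p - 1) ∈ Inn S := by
  have hp : p.Prime := Fact.out
  set B := F.autGroup S with hB
  set N : Subgroup B := (Inn S).subgroupOf B with hN
  obtain ⟨⟨-, R, hR⟩, -⟩ := Cfsg.Agent.Lib.Helper90.sat_top hF
  have hRN : (R : Subgroup B) = N := by
    rw [hR, hN, inn_eq_autInducedBy]
  have hcop : (Nat.card N).Coprime N.index := by
    rw [← hRN]
    exact R.card_coprime_index
  obtain ⟨K, hK⟩ := Subgroup.exists_right_complement'_of_coprime hcop
  have hcardK : Nat.card K = N.index := hK.symm.index_eq_card.symm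
  have hKp : (Nat.card (K.map B.subtype)).Coprime p := by
    rw [Subgroup.card_map_of_injective B.subtype_injective, hcardK, ← hRN]
    exact ((Nat.Prime.coprime_iff_not_dvd hp).2 R.not_dvd_index).symm
  obtain ⟨hc, he⟩ := hH _ hKp
  have hKc : ∀ k₁ ∈ K, ∀ k₂ ∈ K, k₁ * k₂ = k₂ * k₁ := by
    intro k₁ h₁ k₂ h₂
    have := hc.is_comm.comm (⟨k₁, Subgroup.mem_map_of_mem B.subtype h₁⟩ : K.map B.subtype)
      ⟨k₂, Subgroup.mem_map_of_mem B.subtype h₂⟩
    exact Subtype.ext (congrArg (Subtype.val : K.map B.subtype → MulAut S) this)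
  have hKe : ∀ k ∈ K, k ^ (p - 1) = 1 := by
    intro k hk
    exact Subtype.ext (he _ (Subgroup.mem_map_of_mem B.subtype hk))
  have hdec : ∀ b : B, ∃ k ∈ K, QuotientGroup.mk' N b = QuotientGroup.mk' N k := by
    intro b
    obtain ⟨⟨n, k⟩, hnk, -⟩ := (Subgroup.isComplement_iff_existsUnique.1 hK) b
    refine ⟨k, k.2, ?_⟩
    simp only at hnk
    have h1 : QuotientGroup.mk' N (n : B) = 1 := (QuotientGroup.eq_one_iff (N := N) (n : B)).2 n.2
    rw [← hnk, map_mul, h1, one_mul]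
  constructor
  · intro a ha b hb
    obtain ⟨k₁, h₁, e₁⟩ := hdec ⟨a, ha⟩
    obtain ⟨k₂, h₂, e₂⟩ := hdec ⟨b, hb⟩
    have : (⟨a, ha⟩ * ⟨b, hb⟩ * ⟨a, ha⟩⁻¹ * ⟨b, hb⟩⁻¹ : B) ∈ N := by
      apply (QuotientGroup.eq_one_iff _).1
      show QuotientGroup.mk' N _ = 1
      rw [map_mul, map_mul, map_mul, map_inv, map_inv, e₁, e₂, ← map_mul, hKc k₁ h₁ k₂ h₂, map_mul]
      group
    exact this
  · intro a ha
    obtain ⟨k₁, h₁, e₁⟩ := hdec ⟨a, ha⟩
    have : ((⟨a, ha⟩ : B) ^ (p - 1)) ∈ N := by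
      apply (QuotientGroup.eq_one_iff _).1
      show QuotientGroup.mk' N _ = 1
      rw [map_pow, e₁, ← map_pow, hKe k₁ h₁, map_one]
    exact this

/-- The criterion: `S` is of supersoluble type iff it is resistant and the `p'`-subgroups of `Aut(S)`
are abelian of exponent dividing `p - 1`. -/
theorem type_iff [Finite S] {p : ℕ} [Fact p.Prime] (hS : IsPGroup p S) :
    (∀ F : FusionSystem S, F.IsSaturated p → IsSS F) ↔
      (∀ F : FusionSystem S, F.IsSaturated p → F.IsNormal S) ∧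
        ∀ H : Subgroup (MulAut S), (Nat.card H).Coprime p →
          IsMulCommutative H ∧ ∀ h ∈ H, h ^ (p - 1) = 1 := by
  constructor
  · intro h
    exact ⟨fun F hF => isNormal_of_isSS hS hF (h F hF), coprime_aut_of_type hS h⟩
  · rintro ⟨h1, h2⟩ F hF
    obtain ⟨h3, h4⟩ := resid_of_hyp hF h2
    exact (isSS_iff F).2 (sChain_top_of_resid hS (h1 F hF) h3 h4)

end Cfsg.Agent.Lib.Helper64
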