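import Mathlib
import Cfsg.Agent.Lib.Helper64.SuperSol
import Cfsg.Agent.Lib.Helper87.Realized
import Cfsg.Agent.Lib.Helper2.Hyperfocal

set_option autoImplicit false

namespace Cfsg.Agent.Lib.Helper64

open Cfsg Cfsg.FusionSystem Cfsg.Agent.Lib.Helper87 Subgroup

variable {Ω : Type*} [Group Ω] {S : Subgroup Ω} {G : Type*} [Group G]

/-- The maps of the fusion system induced on `S` by `G` through `ι`. -/
def RealMor (ι : S →* G) (P : Subgroup Ω) (f : Ω → Ω) : Prop :=
  P ≤ S ∧ (∀ x ∈ P, f x ∈ S) ∧ ∃ g : G, ∀ x ∈ P, tf ι (f x) = g * tf ι x * g⁻¹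

theorem RealMor.map_mul {ι : S →* G} (hι : Function.Injective ι) {P : Subgroup Ω} {f : Ω → Ω}
    (h : RealMor ι P f) : ∀ x ∈ P, ∀ y ∈ P, f (x * y) = f x * f y := by
  obtain ⟨hP, hS, g, hg⟩ := h
  intro x hx y hy
  apply tf_inj hι (hS _ (P.mul_mem hx hy)) (S.mul_mem (hS x hx) (hS y hy))
  rw [hg _ (P.mul_mem hx hy), tf_mul ι (hS x hx) (hS y hy), hg x hx, hg y hy,
    tf_mul ι (hP hx) (hP hy)]
  group

/-- The fusion system induced on `S` by `G` through the injective homomorphism `ι`. -/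
noncomputable def realSystem (ι : S →* G) (hι : Function.Injective ι) : FusionSystem S :=
  mkSystem S (RealMor ι)
    (by
      rintro P f g' ⟨hP, hS, g, hg⟩ hfg
      exact ⟨hP, fun x hx => by rw [← hfg x hx]; exact hS x hx, g,
        fun x hx => by rw [← hfg x hx]; exact hg x hx⟩)
    (by
      rintro P f ⟨hP, -⟩
      exact hP)
    (by
      rintro P f ⟨-, hS, -⟩
      exact hS)
    (by
      rintro P f ⟨hP, hS, g, hg⟩ x hx y hy hxy
      apply tf_inj hι (hP hx) (hP hy)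
      have h1 := hg x hx
      rw [hxy, hg y hy] at h1
      exact (mul_left_cancel (mul_right_cancel h1)).symm)
    (by
      intro P s hP hs
      exact ⟨hP, fun x hx => S.mul_mem (S.mul_mem hs (hP hx)) (S.inv_mem hs), tf ι s,
        fun x hx => tf_conj ι hs (hP hx)⟩)
    (by
      rintro P Q f f' ⟨hP, hS, g, hg⟩ ⟨hQ, hS', g', hg'⟩ hPQ
      refine ⟨hP, fun x hx => hS' _ (hPQ x hx), g' * g, fun x hx => ?_⟩
      show tf ι (f' (f x)) = _
      rw [hg' _ (hPQ x hx), hg x hx]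
      group)
    (by
      rintro P Q f ⟨hP, hS, g, hg⟩ - hQ
      have key : ∀ x ∈ P, g⁻¹ * tf ι (f x) * g = tf ι x := by
        intro x hx
        rw [hg x hx]
        group
      refine ⟨fun y => tinv ι (g⁻¹ * tf ι y * g), ⟨?_, fun y _ => tinv_mem ι _, g⁻¹, ?_⟩, ?_⟩
      · intro y hy
        obtain ⟨x, hx, rfl⟩ := (hQ y).1 hy
        exact hS x hx
      · intro y hy
        obtain ⟨x, hx, rfl⟩ := (hQ y).1 hy
        show tf ι (tinv ι (g⁻¹ * tf ι (f x) * g)) = _
        rw [key x hx, tinv_tf hι (hP hx), inv_inv, key x hx]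
      · intro x hx
        show tinv ι (g⁻¹ * tf ι (f x) * g) = x
        rw [key x hx, tinv_tf hι (hP hx)])

theorem mor_realSystem_iff (ι : S →* G) (hι : Function.Injective ι) (P : Subgroup Ω) (f : Ω → Ω) :
    Mor (realSystem ι hι) P f ↔ RealMor ι P f := by
  unfold realSystem
  apply mor_mkSystem_iff
  intro P f h
  exact h.map_mul hι

theorem realSystem_isRealizedBy (ι : S →* G) (hι : Function.Injective ι) :
    (realSystem ι hι).IsRealizedBy ι := by
  refine ⟨hι, fun P hP φ hφ => ?_⟩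
  constructor
  · intro h
    obtain ⟨-, -, g, hg⟩ := (mor_realSystem_iff ι hι P _).1 (Mor.of_hom h)
    refine ⟨g, fun x => ?_⟩
    have := hg x x.2
    rw [ext_coe, tf_apply ι (hφ x), tf_apply ι (hP x.2)] at this
    exact this
  · rintro ⟨g, hg⟩
    have : Mor (realSystem ι hι) P (ext φ) := by
      rw [mor_realSystem_iff]
      refine ⟨hP, fun x hx => by rw [ext_apply φ hx]; exact hφ _, g, fun x hx => ?_⟩
      have := hg ⟨x, hx⟩
      rw [ext_apply φ hx, tf_apply ι (hφ _), tf_apply ι (hP hx)]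
      exact this
    exact this.mem_hom (fun x => (ext_coe φ x).symm)

/-- If all saturated fusion systems over the `2`-group `S` are supersoluble then every finite group
with a Sylow `2`-subgroup isomorphic to `S` has a normal `2`-complement. -/
theorem npc_of_type [Finite S] (hS : IsPGroup 2 S) [Finite G] (ι : S →* G)
    (hι : Function.Injective ι) (T : Sylow 2 G) (hT : (T : Subgroup G) = ι.range)
    (h : ∀ F : FusionSystem S, F.IsSaturated 2 → IsSS F) : Cfsg.HasNormalPComplement 2 G := by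
  have : Fact (Nat.Prime 2) := ⟨Nat.prime_two⟩
  set F := realSystem ι hι with hFdef
  have hF : F.IsSaturated 2 := saturated_of_realized (realSystem_isRealizedBy ι hι) T hT
  have hss := h F hF
  have hN := isNormal_of_isSS hS hF hss
  obtain ⟨-, h2⟩ := aut_of_isSS hS hss
  have hAp : IsPGroup 2 (F.autGroup S) := by
    rintro ⟨a, ha⟩
    obtain ⟨k, hk⟩ := h2 a ha
    refine ⟨k, Subtype.ext ?_⟩
    simpa using hk
  have hsyl := (fullyAutomized_iff F 2 le_rfl).1 (Cfsg.Agent.Lib.Helper90.sat_top hF).1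
  have hAeq : F.autGroup S = autInducedBy S S := hsyl.2.2 _ le_rfl hAp hsyl.1
  apply Cfsg.Agent.Lib.Helper2.hasNormalPComplement_of_controls_own_fusion T
  intro x u hx hux
  rw [hT] at hx hux ⊢
  obtain ⟨s, rfl⟩ := hx
  have hpow : ∀ z ∈ zpowers (s : Ω), z ∈ S ∧ u * tf ι z * u⁻¹ ∈ ι.range := by
    rintro _ ⟨k, rfl⟩
    have h1 : (s : Ω) ^ k ∈ S := S.zpow_mem s.2 k
    refine ⟨h1, ?_⟩
    have h3 : tf ι ((s : Ω) ^ k) = (ι s) ^ k := by
      rw [tf_apply ι h1, ← map_zpow]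
      rfl
    show u * tf ι ((s : Ω) ^ k) * u⁻¹ ∈ ι.range
    rw [h3, ← conj_zpow]
    exact ι.range.zpow_mem hux k
  have hf : Mor F (zpowers (s : Ω)) (fun z => tinv ι (u * tf ι z * u⁻¹)) := by
    rw [hFdef, mor_realSystem_iff]
    exact ⟨fun z hz => (hpow z hz).1, fun z _ => tinv_mem ι _, u,
      fun z hz => tf_tinv ι (hpow z hz).2⟩
  obtain ⟨α, hα, e⟩ := Cfsg.Agent.Lib.Helper90.IsNormal.exists_aut hN hf.le hf
  rw [hAeq] at hα
  obtain ⟨t, ht, e'⟩ := (mem_autInducedBy_iff S S α).1 hα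
  have h4 := e s (mem_zpowers _)
  rw [e'] at h4
  refine ⟨ι ⟨t, ht⟩, ⟨_, rfl⟩, ?_⟩
  have h5 := congrArg (tf ι) h4
  rw [tf_tinv ι (hpow _ (mem_zpowers _)).2, tf_conj ι ht s.2, tf_apply ι ht, tf_coe] at h5
  exact h5

end Cfsg.Agent.Lib.Helper64
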